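import Cfsg.Agent.ISO.HeDefs
import Cfsg.Agent.PLocal.AmbSyl

set_option autoImplicit false

namespace Cfsg.Agent.ISO

open ISP Subgroup

variable {S : Type*} [Group S]

/-- `Q` Sylow `17` (order `17`), `C(Q) = Q` (an order in `W82` divisible by `17` is `17`; `289 ∤ |S|`),
`N(Q)/C(Q)` embeds in the cyclic group `Aut(Q)` of order `16`; `n₁₇ = 237081600 / e ≡ 1 (mod 17)` with `e ∣ 16`
forces `e = 8`. A preimage of a generator of `N/C` has order divisible by `8`. -/
theorem HH.ex8 (h : HH S) : Om S 8 := by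
  have := h.finite
  have : Fact (Nat.Prime 17) := ⟨by norm_num⟩
  obtain ⟨P⟩ : Nonempty (Sylow 17 S) := inferInstance
  have cP : Nat.card P = 17 := by
    obtain ⟨k, hk⟩ := P.isPGroup'.exists_card_eq
    have a := P.dvd_card_of_dvd_card (by rw [h.card]; norm_num)
    have b := (P : Subgroup S).card_subgroup_dvd_card
    rw [hk] at a b ⊢
    rw [h.card] at b
    rcases k with _ | _ | k
    · norm_num at a
    · norm_num
    · exact absurd ((pow_dvd_pow 17 (show 2 ≤ k + 1 + 1 by omega)).trans b) (by norm_num)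
  have cy : IsCyclic P := isCyclic_of_prime_card cP
  obtain ⟨x, hx⟩ := cy.exists_ofOrder_eq_natCard
  rw [cP, ← orderOf_coe] at hx
  have k17 : ∀ m, W82 m → 17 ∣ m → m ∣ 17 := fun m hm d => by
    rcases hm with e | e | e | e | e | e | e
    all_goals first | exact e | exact absurd (d.trans e) (by norm_num)
  have cC : centralizer (P : Set S) = P := P.3 (fun c => ⟨1, Subtype.ext (by
    refine orderOf_dvd_iff_pow_eq_one.1 (show orderOf (c : S) ∣ 17 from ?_)
    by_cases d : 17 ∣ orderOf (c : S)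
    · exact k17 _ (h.om _) d
    · have e := (show Commute (x : S) c from c.2 x x.2).orderOf_mul_eq_mul_orderOf_of_coprime
        (by rw [hx]; exact (Nat.Prime.coprime_iff_not_dvd (by norm_num)).2 d)
      exact (dvd_mul_left _ _).trans (e ▸ k17 _ (h.om _) (by rw [e, hx]; exact dvd_mul_right _ _)))⟩)
    (le_centralizer (P : Subgroup S))
  have a1 := (P : Subgroup S).normalizerMonoidHom.ker.card_mul_index
  rw [index_ker, normalizerMonoidHom_ker, show centralizer ((P : Subgroup S) : Set S) = P from cC,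
    Nat.card_congr (subgroupOfEquivOfLe le_normalizer).toEquiv, cP] at a1
  have a2 := (P : Subgroup S).normalizerMonoidHom.range.card_subgroup_dvd_card
  rw [cy.card_mulAut, cP, Nat.totient_prime (by norm_num)] at a2
  have a3 := card_sylow_modEq_one 17 S
  have a4 := (normalizer ((P : Subgroup S) : Set S)).card_mul_index
  rw [P.card_eq_index_normalizer] at a3
  rw [← a1, h.card] at a4
  have a5 : Nat.card (P : Subgroup S).normalizerMonoidHom.range = 8 := by
    change (normalizer ((P : Subgroup S) : Set S)).index % 17 = 1 at a3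
    generalize Nat.card (P : Subgroup S).normalizerMonoidHom.range = e at *
    have := Nat.le_of_dvd (by norm_num) a2
    interval_cases e <;> omega
  have : IsCyclic (ZMod (Nat.card P))ˣ := ZMod.isCyclic_units_prime (by rw [cP]; norm_num)
  have : IsCyclic (MulAut P) := isCyclic_of_injective (cy.mulAutMulEquiv P).toMonoidHom (cy.mulAutMulEquiv P).injective
  exact (Om.of_surj _ (P : Subgroup S).normalizerMonoidHom.rangeRestrict_surjective
    (a5 ▸ IsCyclic.exists_ofOrder_eq_natCard)).of_sub _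

/-- A Sylow `2`-subgroup of `N(⟨z⟩)` of order `1024` is Sylow in `S`, so contains `g` of order `8` (`ex8`, Sylow
conjugacy). `g z g⁻¹ = z ^ a`, `g ^ 6` and `g ^ 8` centralise `z` (`a ^ 6 ≡ 1 mod 7`), so `g ^ 2` (order `4`)
commutes with `z`: `HH.not_dvd_cent`. -/
theorem HH.not_1024 (h : HH S) {z : S} (hz : orderOf z = 7) : ¬ 1024 ∣ Nat.card (NZ z) := by
  intro d
  have := h.finite
  have : Fact (Nat.Prime 2) := ⟨Nat.prime_two⟩
  obtain ⟨K, hK⟩ := Sylow.exists_subgroup_card_pow_prime 2 (n := 10) (G := NZ z) d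
  rw [← card_map_of_injective (NZ z).subtype_injective] at hK
  have a1 := (K.map (NZ z).subtype).card_mul_index
  rw [hK, h.card] at a1
  obtain ⟨g, hg⟩ := h.ex8
  obtain ⟨a, -, e⟩ := (PLocal.Amb.isSyl_of_not_dvd_relIndex (IsPGroup.of_card hK) le_top (by
    rw [relIndex_top_right]
    omega)).exists_cj_le (R := zpowers g) (IsPGroup.of_card (n := 3) (by rw [Nat.card_zpowers, hg]; rfl)) le_top
  have m : a * g * a⁻¹ ∈ NZ z := map_subtype_le K (e (PLocal.Amb.conj_mem_cj a (mem_zpowers g)))
  rw [← PLocal.Amb.orderOf_conj' a] at hg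
  generalize a * g * a⁻¹ = y at m hg
  have a2 : (zpowers z).normalizerMonoidHom ⟨y, m⟩ ^ 6 = 1 := by
    have := pow_card_eq_one' (x := (zpowers z).normalizerMonoidHom ⟨y, m⟩)
    rwa [IsCyclic.card_mulAut, Nat.card_zpowers, hz, Nat.totient_prime (by norm_num)] at this
  have a3 : (zpowers z).normalizerMonoidHom ⟨y, m⟩ ^ 8 = 1 := by
    rw [← map_pow, show (⟨y, m⟩ : NZ z) ^ 8 = 1 from Subtype.ext (hg ▸ pow_orderOf_eq_one y), map_one]
  rw [show 8 = 6 + 2 from rfl, pow_add, a2, one_mul, ← map_pow, ← MonoidHom.mem_ker, normalizerMonoidHom_ker] at a3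
  refine h.not_dvd_cent hz (g := y ^ 2) (Eq.symm (a3 z (mem_zpowers z))) (.inl rfl) ?_
  rw [orderOf_pow' _ two_ne_zero, hg]
  norm_num

end Cfsg.Agent.ISO
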