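import Mathlib

set_option autoImplicit false

namespace Cfsg.Agent.ISO

open Subgroup

variable {S : Type*} [Group S]

theorem hec2_fix [Finite S] {p : ℕ} [Fact p.Prime] (P : Sylow p S)
    (hab : ∀ a ∈ (P : Subgroup S), ∀ b ∈ (P : Subgroup S), Commute a b) (M : Subgroup S)
    (hN : normalizer ((P : Subgroup S) : Set S) ≤ M)
    (hC : ∀ u ∈ (P : Subgroup S), u ≠ 1 → centralizer ({u} : Set S) ≤ M) {u g : S}
    (hu : u ∈ (P : Subgroup S)) (h1 : u ≠ 1) (hg : g⁻¹ * u * g ∈ M) : g ∈ M := by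
  have hPM : (P : Subgroup S) ≤ M := le_normalizer.trans hN
  have : IsMulCommutative P := ⟨⟨fun a b => Subtype.ext (hab a a.2 b b.2)⟩⟩
  have hp : IsPGroup p (zpowers (⟨g⁻¹ * u * g, hg⟩ : M)) := by
    obtain ⟨k, hk⟩ := P.isPGroup' ⟨u, hu⟩
    have hk' : u ^ p ^ k = 1 := congrArg Subtype.val hk
    rintro ⟨x, n, rfl⟩
    refine ⟨k, Subtype.ext (Subtype.ext ?_)⟩
    change ((g⁻¹ * u * g) ^ n) ^ p ^ k = 1
    have : (g⁻¹ * u * g) ^ p ^ k = 1 := by
      have := conj_pow (a := g⁻¹) (b := u) (i := p ^ k)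
      rw [inv_inv] at this
      rw [this, hk', mul_one, inv_mul_cancel]
    rw [← zpow_natCast, ← zpow_mul, mul_comm, zpow_mul, zpow_natCast, this, one_zpow]
  obtain ⟨Q, hQ⟩ := hp.exists_le_sylow
  obtain ⟨m, hm⟩ := MulAction.exists_smul_eq M Q (P.subtype hPM)
  have h2 : m * ⟨g⁻¹ * u * g, hg⟩ * m⁻¹ ∈ (P.subtype hPM : Subgroup M) := by
    rw [← hm]
    exact smul_mem_pointwise_smul _ (MulAut.conj m) _ (hQ (mem_zpowers _))
  have h3 : (g * (m : S)⁻¹)⁻¹ * u * (g * (m : S)⁻¹) ∈ P := by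
    have : (m : S) * (g⁻¹ * u * g) * (m : S)⁻¹ ∈ (P : Subgroup S) := h2
    change _ ∈ (P : Subgroup S)
    simpa [mul_assoc] using this
  obtain ⟨n, hn, e⟩ := P.conj_eq_normalizer_conj_of_mem u _ hu h3
  have h4 : g * (m : S)⁻¹ * n⁻¹ ∈ centralizer ({u} : Set S) := by
    rw [mem_centralizer_singleton_iff]
    calc g * (m : S)⁻¹ * n⁻¹ * u = g * (m : S)⁻¹ * (n⁻¹ * u * n) * n⁻¹ := by group
      _ = u * (g * (m : S)⁻¹ * n⁻¹) := by rw [← e]; group
  have h5 := M.mul_mem (M.mul_mem (hC u hu h1 h4) (hN hn)) m.2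
  simpa [mul_assoc] using h5

theorem hec2_mod [Finite S] (P M : Subgroup S) (hPM : P ≤ M)
    (h : ∀ u ∈ P, u ≠ 1 → ∀ g : S, g⁻¹ * u * g ∈ M → g ∈ M) : M.index ≡ 1 [MOD Nat.card P] := by
  classical
  have := Fintype.ofFinite (S ⧸ M)
  have := Fintype.ofFinite P
  have key := MulAction.sum_card_fixedBy_eq_card_orbits_mul_card_group P (S ⧸ M)
  have h1 : ∀ u : P, u ≠ 1 → Fintype.card (MulAction.fixedBy (S ⧸ M) u) = 1 := fun u hu => by
    rw [Fintype.card_eq_one_iff]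
    refine ⟨⟨((1 : S) : S ⧸ M), ?_⟩, ?_⟩
    · change (((u : S) * 1 : S) : S ⧸ M) = ((1 : S) : S ⧸ M)
      rw [QuotientGroup.eq]
      simpa using hPM u.2
    · rintro ⟨x, hx⟩
      induction x using QuotientGroup.induction_on with
      | H g =>
        have e : (((u : S) * g : S) : S ⧸ M) = (g : S ⧸ M) := hx
        rw [eq_comm, QuotientGroup.eq, ← mul_assoc] at e
        have := h u u.2 (fun e' => hu (Subtype.ext e')) g e
        exact Subtype.ext (QuotientGroup.eq.2 (by simpa using this))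
  rw [← Finset.add_sum_erase _ _ (Finset.mem_univ (1 : P)),
    Finset.sum_congr rfl fun u hu => h1 u (Finset.ne_of_mem_erase hu)] at key
  have h2 : Fintype.card (MulAction.fixedBy (S ⧸ M) (1 : P)) = M.index := by
    rw [index, Nat.card_eq_fintype_card]
    exact Fintype.card_congr (Equiv.subtypeUnivEquiv fun x => one_smul P x)
  rw [h2, Finset.sum_const, smul_eq_mul, mul_one, Finset.card_erase_of_mem (Finset.mem_univ _),
    Finset.card_univ] at key
  rw [Nat.card_eq_fintype_card]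
  have h3 : 0 < Fintype.card P := Fintype.card_pos
  have h4 : M.index + Fintype.card P = 1 + Fintype.card (Quotient (MulAction.orbitRel P (S ⧸ M))) *
      Fintype.card P := by omega
  have h5 : M.index + Fintype.card P ≡ M.index [MOD Fintype.card P] := Nat.add_modEq_right
  refine h5.symm.trans ?_
  rw [h4]
  exact (Nat.add_mul_mod_self_right _ _ _)

theorem hec2_num {i m : ℕ} (h : m * i = 4030387200) (h7 : 343 ∣ m) (h5 : ¬ 5 ∣ m) (h17 : ¬ 17 ∣ m)
    (hi : i ≡ 1 [MOD 343]) : False := by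
  obtain ⟨k, rfl⟩ := h7
  have e : k * i = 425 * 27648 := by
    rw [mul_assoc] at h
    omega
  have c5 : Nat.Coprime 5 k := (Nat.Prime.coprime_iff_not_dvd (by norm_num)).2
    fun d => h5 (d.mul_left _)
  have c17 : Nat.Coprime 17 k := (Nat.Prime.coprime_iff_not_dvd (by norm_num)).2
    fun d => h17 (d.mul_left _)
  have c : Nat.Coprime 425 k := by
    have := (c5.pow_left 2).mul_left c17
    simpa using this
  obtain ⟨j, rfl⟩ := c.dvd_of_dvd_mul_left ⟨27648, e⟩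
  have hj : j ∣ 2 ^ 10 * 3 ^ 3 := ⟨k, by nlinarith⟩
  obtain ⟨a, b, ha, hb, rfl⟩ := (Nat.dvd_mul).1 hj
  obtain ⟨s, hs, rfl⟩ := (Nat.dvd_prime_pow Nat.prime_two).1 ha
  obtain ⟨t, ht, rfl⟩ := (Nat.dvd_prime_pow Nat.prime_three).1 hb
  interval_cases s <;> interval_cases t <;> simp [Nat.ModEq] at hi

theorem hec2_main [Finite S] (hc : Nat.card S = 4030387200) (P : Subgroup S) (hP : Nat.card P = 343)
    (hab : ∀ a ∈ P, ∀ b ∈ P, Commute a b) (M : Subgroup S) (hN : normalizer (P : Set S) ≤ M)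
    (hC : ∀ u ∈ P, u ≠ 1 → centralizer ({u} : Set S) ≤ M) (h5 : ¬ 5 ∣ Nat.card M)
    (h17 : ¬ 17 ∣ Nat.card M) : False := by
  have : Fact (Nat.Prime 7) := ⟨by norm_num⟩
  have hp : IsPGroup 7 P := IsPGroup.of_card (n := 3) hP
  have hi : ¬ 7 ∣ P.index := by
    have := P.card_mul_index
    rw [hP, hc] at this
    omega
  have hPM : P ≤ M := le_normalizer.trans hN
  have h1 := hec2_mod P M hPM fun u hu h1 g hg =>
    hec2_fix (hp.toSylow hi) hab M hN hC hu h1 hg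
  rw [hP] at h1
  exact hec2_num (M.card_mul_index.trans hc) (hP ▸ card_dvd_of_le hPM) h5 h17 h1

end Cfsg.Agent.ISO
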