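import Cfsg.Agent.ISO.HeDefs
import Cfsg.Agent.ISO.HeC2a

set_option autoImplicit false

namespace Cfsg.Agent.ISO

open ISP Subgroup

variable {S : Type*} [Group S]

/-- `P` acts on `S ⧸ M`. If `1 ≠ u ∈ P` fixes `g M` then `g⁻¹ u g ∈ M`, conjugate by `m ∈ M` to `u' ∈ P` (Sylow in `M`);
Burnside (`Sylow.conj_eq_normalizer_conj_of_mem` / `..._of_mem_centralizer`, `P` abelian): `u' = n⁻¹ u n`, `n ∈ N(P)`, so
`g m n⁻¹ ∈ C(u) ≤ M`, `g ∈ M`. So `P` acts freely off the point `M`: `|S : M| ≡ 1 (mod 343)`. Also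
`|S : M| = 425 · 2^i · 3^j`, `i ≤ 10`, `j ≤ 3` (`343 ∣ |M|`, `5, 17 ∤ |M|`); no such number is `1 mod 343`
(`interval_cases`). -/
theorem HH.abelF (h : HH S) (P : Subgroup S) (hP : Nat.card P = 343)
    (hab : ∀ a ∈ P, ∀ b ∈ P, Commute a b) (M : Subgroup S) (hN : normalizer (P : Set S) ≤ M)
    (hC : ∀ u ∈ P, u ≠ 1 → centralizer ({u} : Set S) ≤ M) (h5 : ¬ 5 ∣ Nat.card M)
    (h17 : ¬ 17 ∣ Nat.card M) : False := by
  have := h.finite
  exact hec2_main h.card P hP hab M hN hC h5 h17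

end Cfsg.Agent.ISO
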