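import Cfsg.Agent.ISO.Defs

/-!
# S3535, the special case `|S| = |He|`: definitions and basic facts
-/

set_option autoImplicit false

namespace Cfsg.Agent.ISO

open ISP Subgroup

/-- `S` simple of order `2^10 3^3 5^2 7^3 17`, all element orders in `W82`. -/
structure HH (S : Type*) [Group S] : Prop where
  simp : IsSimpleGroup S
  card : Nat.card S = 4030387200
  om : ∀ g : S, W82 (orderOf g)

variable {S : Type*} [Group S]

/-- The consequence of `3 ∣ |K|`: no four-group centralises a noncentral element `u` of `7^{1+2}`. -/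
def NB (S : Type*) [Group S] : Prop :=
  ∀ u z x a b : S, orderOf u = 7 → orderOf z = 7 → z ∉ zpowers u → Commute u z → Commute x z →
    x * u * x⁻¹ = u * z → orderOf a = 2 → orderOf b = 2 → a ≠ b → Commute a b → Commute a u →
    Commute b u → False

/-- `P` is a nonabelian Sylow `7`-subgroup, `z` generates its centre. -/
structure XP (P : Subgroup S) (z : S) : Prop where
  hh : HH S
  card : Nat.card P = 343
  zmem : z ∈ P
  zord : orderOf z = 7
  zcen : ∀ x ∈ P, Commute x z
  nab : ∃ x ∈ P, ∃ y ∈ P, ¬ Commute x y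

/-- The "lines": subgroups of order `49` of `P`. -/
def Ln (P : Subgroup S) : Set (Subgroup S) := {E | E ≤ P ∧ Nat.card E = 49}

/-- `v` is conjugate into `⟨z⟩`. -/
def Ct (z v : S) : Prop := ∃ g : S, g * v * g⁻¹ ∈ zpowers z

/-- `E` is essential: it contains a conjugate of `⟨z⟩` other than `⟨z⟩`. -/
def Es (z : S) (E : Subgroup S) : Prop := ∃ v ∈ E, v ∉ zpowers z ∧ Ct z v

/-- The number of essential lines. -/
noncomputable def eps (P : Subgroup S) (z : S) : ℕ := {E | E ∈ Ln P ∧ Es z E}.ncard

/-- `N_S(⟨z⟩)`. -/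
abbrev NZ (z : S) : Subgroup S := normalizer ((zpowers z : Subgroup S) : Set S)

/-- For `u` in the nonessential line `E`, outside `⟨z⟩`, the centraliser of `u` normalises `E`. -/
def NSl (z : S) (E : Subgroup S) : Prop :=
  ∀ u ∈ E, u ∉ zpowers z → centralizer ({u} : Set S) ≤ normalizer (E : Set S)

namespace HH

variable (h : HH S)
include h

theorem finite : Finite S := Nat.finite_of_card_ne_zero (by rw [h.card]; norm_num)

theorem w82 {m : ℕ} (hm : Om S m) : W82 m := by
  obtain ⟨g, rfl⟩ := hm
  exact h.om g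

/-- An element order divisible by `7` divides `14` or `21`. -/
theorem of_seven_dvd {g : S} (h7 : 7 ∣ orderOf g) : orderOf g ∣ 14 ∨ orderOf g ∣ 21 := by
  rcases h.om g with e | e | e | e | e | e | e
  · exact Or.inl e
  · exact absurd (h7.trans e) (by norm_num)
  · exact absurd (h7.trans e) (by norm_num)
  · exact absurd (h7.trans e) (by norm_num)
  · exact Or.inr e
  · exact absurd (h7.trans e) (by norm_num)
  · exact absurd (h7.trans e) (by norm_num)

/-- An element commuting with an element of order `7` has order dividing `14` or `21`. -/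
theorem ord_cent {u g : S} (hu : orderOf u = 7) (hc : Commute g u) :
    orderOf g ∣ 14 ∨ orderOf g ∣ 21 := by
  by_cases h7 : 7 ∣ orderOf g
  · exact h.of_seven_dvd h7
  · have hco : (orderOf g).Coprime (orderOf u) := by
      rw [hu]
      exact ((Nat.Prime.coprime_iff_not_dvd (by norm_num : Nat.Prime 7)).2 h7).symm
    have e := hc.orderOf_mul_eq_mul_orderOf_of_coprime hco
    rw [hu] at e
    rcases h.of_seven_dvd (g := g * u) (by rw [e]; exact Dvd.intro_left _ rfl) with d | d
    · exact Or.inl ((Dvd.intro _ e.symm).trans d)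
    · exact Or.inr ((Dvd.intro _ e.symm).trans d)

/-- No element commuting with an element of order `7` has order divisible by `4, 5, 6, 9, 17, 49`. -/
theorem not_dvd_cent {u g : S} (hu : orderOf u = 7) (hc : Commute g u) {k : ℕ}
    (hk : k = 4 ∨ k = 5 ∨ k = 6 ∨ k = 9 ∨ k = 17 ∨ k = 49) : ¬ k ∣ orderOf g := by
  intro hd
  rcases h.ord_cent hu hc with d | d <;> have := hd.trans d <;>
    rcases hk with rfl | rfl | rfl | rfl | rfl | rfl <;> norm_num at this

/-- Nontrivial `7`-elements have order `7`. -/
theorem ord_seven {g : S} {k : ℕ} (hg : g ^ 7 ^ k = 1) (h1 : g ≠ 1) : orderOf g = 7 := by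
  have hd : orderOf g ∣ 7 ^ k := orderOf_dvd_of_pow_eq_one hg
  obtain ⟨j, -, hj⟩ := (Nat.dvd_prime_pow (by norm_num : Nat.Prime 7)).1 hd
  rcases j with _ | j
  · exact absurd (orderOf_eq_one_iff.1 (by simpa using hj)) h1
  rcases j with _ | j
  · simpa using hj
  · exfalso
    have h49 : 49 ∣ orderOf g := by rw [hj]; exact ⟨7 ^ j, by ring⟩
    rcases h.of_seven_dvd (Dvd.dvd.trans (by norm_num) h49) with d | d <;>
      have := h49.trans d <;> norm_num at this

end HH

namespace XP

variable {P : Subgroup S} {z : S} (h : XP P z)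
include h

theorem finite : Finite S := h.hh.finite

theorem ord {x : S} (hx : x ∈ P) (h1 : x ≠ 1) : orderOf x = 7 := by
  refine h.hh.ord_seven (k := 3) ?_ h1
  have := pow_card_eq_one' (G := P) (x := ⟨x, hx⟩)
  rw [h.card] at this
  exact congrArg Subtype.val this

theorem pow_seven {x : S} (hx : x ∈ P) : x ^ 7 = 1 := by
  by_cases h1 : x = 1
  · simp [h1]
  · rw [← h.ord hx h1, pow_orderOf_eq_one]

theorem isPGroup : IsPGroup 7 P := IsPGroup.of_card (n := 3) (by rw [h.card]; norm_num)

theorem zpowers_le : zpowers z ≤ P := (zpowers_le_of_mem h.zmem)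

theorem z_ne_one : z ≠ 1 := fun e => by have := h.zord; rw [e] at this; simp at this

end XP

end Cfsg.Agent.ISO
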