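import Cfsg.Agent.ISO.HeQ

set_option autoImplicit false

namespace Cfsg.Agent.ISO

open ISP Subgroup

theorem ncard_modEq_fixed {α : Type*} {X : Set α} (hX : X.Finite) {f : α → α}
    (hf : ∀ x ∈ X, f x ∈ X) {p : ℕ} (hp : p.Prime) (hfp : ∀ x ∈ X, f^[p] x = x) :
    X.ncard ≡ {x | x ∈ X ∧ f x = x}.ncard [MOD p] := by
  classical
  have := Fact.mk hp
  let _ : Fintype X := hX.fintype
  let F : Function.End X := fun x => ⟨f x, hf x x.2⟩
  have hit : ∀ (n : ℕ) (x : X), (((F ^ n) x : X) : α) = f^[n] x := by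
    intro n
    induction n with
    | zero => intro x; rfl
    | succ n ih =>
      intro x
      rw [pow_succ, Function.iterate_succ_apply]
      exact ih (F x)
  have hF : F ^ p ^ 1 = 1 := by
    funext x
    apply Subtype.ext
    rw [pow_one, hit]
    exact hfp x x.2
  have key := Equiv.Perm.card_fixedPoints_modEq hF
  have e1 : X.ncard = Fintype.card X := by
    rw [← Nat.card_coe_set_eq, Nat.card_eq_fintype_card]
  have e2 : {x | x ∈ X ∧ f x = x}.ncard = Fintype.card (Function.fixedPoints F) := by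
    rw [← Nat.card_coe_set_eq, ← Nat.card_eq_fintype_card]
    refine Nat.card_congr ⟨fun x => ⟨⟨x.1, x.2.1⟩, Subtype.ext x.2.2⟩,
      fun y => ⟨y.1.1, y.1.2, congrArg Subtype.val y.2⟩, fun _ => rfl, fun _ => rfl⟩
  rw [e1, e2]
  exact key

variable {S : Type*} [Group S]

/-- `g E g⁻¹`. -/
def hcj (g : S) (E : Subgroup S) : Subgroup S := E.comap (MulAut.conj g⁻¹).toMonoidHom

theorem mem_hcj {g x : S} {E : Subgroup S} : x ∈ hcj g E ↔ g⁻¹ * x * g ∈ E := by
  simp [hcj]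

theorem hcj_mul (g k : S) (E : Subgroup S) : hcj (g * k) E = hcj g (hcj k E) := by
  ext x
  simp only [mem_hcj, mul_inv_rev, mul_assoc]

theorem hcj_one (E : Subgroup S) : hcj 1 E = E := by
  ext x
  simp [mem_hcj]

theorem hcj_iterate (g : S) (n : ℕ) (E : Subgroup S) : (hcj g)^[n] E = hcj (g ^ n) E := by
  induction n with
  | zero => simp [hcj_one]
  | succ n ih => rw [Function.iterate_succ_apply', ih, pow_succ', hcj_mul]

theorem hcj_eq_iff {g : S} {E : Subgroup S} : hcj g E = E ↔ g ∈ normalizer (E : Set S) := by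
  rw [mem_normalizer_iff'']
  constructor
  · intro h x
    rw [← mem_hcj, h]
  · intro h
    ext x
    rw [mem_hcj, ← h]

theorem card_hcj (g : S) (E : Subgroup S) : Nat.card (hcj g E) = Nat.card E := by
  refine Nat.card_congr ⟨fun x => ⟨g⁻¹ * x * g, mem_hcj.1 x.2⟩,
    fun y => ⟨g * y * g⁻¹, mem_hcj.2 (by simpa [mul_assoc] using y.2)⟩, fun x => ?_, fun y => ?_⟩
  · apply Subtype.ext; simp [mul_assoc]
  · apply Subtype.ext; simp [mul_assoc]

theorem hcj_ln {P E : Subgroup S} {g : S} (hg : g ∈ normalizer (P : Set S)) (hE : E ∈ Ln P) :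
    hcj g E ∈ Ln P :=
  ⟨fun x hx => (mem_normalizer_iff''.1 hg x).2 (hE.1 (mem_hcj.1 hx)), by rw [card_hcj, hE.2]⟩

theorem hcj_es {z g : S} {E : Subgroup S} (hg : g ∈ NZ z) (hE : Es z E) : Es z (hcj g E) := by
  obtain ⟨v, hv, hz, k, hk⟩ := hE
  refine ⟨g * v * g⁻¹, mem_hcj.2 (by simpa [mul_assoc] using hv), fun e => hz ?_, k * g⁻¹, ?_⟩
  · exact (mem_normalizer_iff.1 hg v).2 e
  · simpa [mul_assoc] using hk

theorem hcj_es_iff {z g : S} {E : Subgroup S} (hg : g ∈ NZ z) : Es z (hcj g E) ↔ Es z E := by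
  refine ⟨fun h => ?_, hcj_es hg⟩
  have := hcj_es (inv_mem hg) h
  rwa [← hcj_mul, inv_mul_cancel, hcj_one] at this

theorem hcj_nsl {z g : S} {E : Subgroup S} (hg : g ∈ NZ z) (hE : NSl z E) : NSl z (hcj g E) := by
  intro u hu hz c hc
  have h1 : g⁻¹ * u * g ∉ zpowers z := fun e => hz ((mem_normalizer_iff''.1 hg u).2 e)
  have h2 : g⁻¹ * c * g ∈ centralizer ({g⁻¹ * u * g} : Set S) := by
    rw [mem_centralizer_singleton_iff] at hc ⊢
    calc g⁻¹ * c * g * (g⁻¹ * u * g) = g⁻¹ * (c * u) * g := by group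
      _ = g⁻¹ * (u * c) * g := by rw [hc]
      _ = g⁻¹ * u * g * (g⁻¹ * c * g) := by group
  have h3 := hcj_eq_iff.2 (hE _ (mem_hcj.1 hu) h1 h2)
  rw [← hcj_eq_iff, ← hcj_mul]
  have : c * g = g * (g⁻¹ * c * g) := by group
  rw [this, hcj_mul, h3]

theorem six_dvd_of_act {z g : S} (hz : orderOf z = 7) [Finite S] (hg : g * z * g⁻¹ = z ^ 5) :
    6 ∣ orderOf g := by
  have hp : ∀ n : ℕ, g ^ n * z * (g ^ n)⁻¹ = z ^ (5 ^ n) := by
    intro n
    induction n with
    | zero => simp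
    | succ n ih =>
      have : g ^ (n + 1) * z * (g ^ (n + 1))⁻¹ = g * (g ^ n * z * (g ^ n)⁻¹) * g⁻¹ := by
        rw [pow_succ']; group
      rw [this, ih, ← conj_pow, hg, ← pow_mul, pow_succ']
  have h1 := hp (orderOf g)
  rw [pow_orderOf_eq_one] at h1
  have h2 : z ^ 1 = z ^ (5 ^ orderOf g) := by simpa using h1
  rw [pow_eq_pow_iff_modEq, hz] at h2
  generalize orderOf g = n at h2
  have h6 : 5 ^ n ≡ 5 ^ (n % 6) [MOD 7] := by
    conv_lhs => rw [← Nat.div_add_mod n 6, pow_add, pow_mul]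
    have : (5 ^ 6) ^ (n / 6) ≡ 1 ^ (n / 6) [MOD 7] := Nat.ModEq.pow _ (by decide)
    simpa using this.mul_right (5 ^ (n % 6))
  have h7 := h2.trans h6
  have : n % 6 < 6 := Nat.mod_lt _ (by norm_num)
  apply Nat.dvd_of_mod_eq_zero
  generalize n % 6 = r at h7 this
  interval_cases r <;> first | rfl | exact absurd h7 (by decide)

namespace XP

variable {P : Subgroup S} {z : S} (h : XP P z)
include h

theorem ln_finite : (Ln P).Finite := by
  have := h.finite
  exact Set.toFinite _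

theorem inv_pair {E : Subgroup S} (hE : E ∈ Ln P) {t : S} (ht : t ∈ normalizer (P : Set S))
    (hi : ∀ e ∈ E, t * e * t⁻¹ = e⁻¹) {x : S} (hx : x ∈ P) : t * x * t⁻¹ * x⁻¹ ∈ E := by
  have h6 : ∀ e ∈ E, e⁻¹ = e ^ 6 := fun e he => by
    rw [inv_eq_iff_mul_eq_one, ← pow_succ', h.pow_seven (hE.1 he)]
  refine h.pair hE ht (a := 6) (by norm_num) ?_ ?_ hx
  · rw [hi z (h.ln_z hE), h6 z (h.ln_z hE)]
  · intro e he
    rw [hi e he, h6 e he, mul_inv_cancel]
    exact one_mem _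

theorem inv_norm {E : Subgroup S} {t : S} (hi : ∀ e ∈ E, t * e * t⁻¹ = e⁻¹) :
    t ∈ normalizer (E : Set S) := by
  have := h.finite
  refine mem_normalizer_fintype (S := (E : Set S)) fun n hn => ?_
  rw [hi n hn]
  exact inv_mem hn

/-- `t` inverts `z`, `d` squares it, both normalise `A` and fix the coset `A x`. -/
theorem lemX2 {t d x : S} {A : Subgroup S} (ht : t * z * t⁻¹ = z⁻¹) (hd : d * z * d⁻¹ = z ^ 2)
    (hA : A ≤ P) (htA : t ∈ normalizer (A : Set S)) (hdA : d ∈ normalizer (A : Set S)) (hx : x ∈ P)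
    (hxA : x ∉ A) (h1 : t * x * t⁻¹ * x⁻¹ ∈ A) (h2 : d * x * d⁻¹ * x⁻¹ ∈ A) : False := by
  have := h.finite
  refine h.lemX (g := t * d) (six_dvd_of_act h.zord ?_) hA (mul_mem htA hdA) hx hxA ?_
  · have : t * d * z * (t * d)⁻¹ = t * (d * z * d⁻¹) * t⁻¹ := by group
    rw [this, hd, ← conj_pow, ht, inv_pow, inv_eq_iff_mul_eq_one, ← pow_add]
    exact h.pow_seven h.zmem
  · have : t * d * x * (t * d)⁻¹ * x⁻¹ =
        t * (d * x * d⁻¹ * x⁻¹) * t⁻¹ * (t * x * t⁻¹ * x⁻¹) := by group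
    rw [this]
    exact mul_mem ((mem_normalizer_iff.1 htA _).1 h2) h1

/-- Two distinct lines meet in `⟨z⟩`. -/
theorem mem_zpowers_of_two {E E' : Subgroup S} (hE : E ∈ Ln P) (hE' : E' ∈ Ln P) (hne : E ≠ E')
    {x : S} (hx : x ∈ E) (hx' : x ∈ E') : x ∈ zpowers z := by
  by_contra hz
  exact hne (h.ln_eq hE hE' hx hx' hz)

/-- A `7'`-element acting trivially on `E / Z` centralises an element of `E - Z`. -/
theorem fix_ln {E : Subgroup S} (hE : E ∈ Ln P) {g : S} (h7 : ¬ 7 ∣ orderOf g) (hg : g ∈ NZ z)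
    (ht : ∀ x ∈ E, g * x * g⁻¹ * x⁻¹ ∈ zpowers z) : ∃ u ∈ E, u ∉ zpowers z ∧ Commute g u := by
  have := h.finite
  obtain ⟨x, hx, hz⟩ := h.ln_ne hE
  have hco : (orderOf g).Coprime (Nat.card (zpowers z)) := by
    rw [Nat.card_zpowers, h.zord]
    exact ((Nat.Prime.coprime_iff_not_dvd (by norm_num : Nat.Prime 7)).2 h7).symm
  obtain ⟨a, ha, hc⟩ := fix_coset hg hco (ht x hx)
  refine ⟨a * x, mul_mem (zpowers_le_of_mem (h.ln_z hE) ha) hx, fun e => hz ?_, hc⟩
  simpa using mul_mem (inv_mem ha) e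

end XP

end Cfsg.Agent.ISO
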