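import Cfsg.Agent.ISO.HeDefs
import Cfsg.Prelude.Def_Local
import Cfsg.Agent.Solv.CoprimeSylow
import Cfsg.Agent.Grp.ConjCount
import Cfsg.Agent.Grp.Fitting

set_option autoImplicit false

namespace Cfsg.Agent.ISO

open ISP Subgroup

variable {G : Type*} [Group G] [Finite G]

/-- Coprime fixed point in a coset. `x g x⁻¹ = c⁻¹ g ∈ A g` (`c = g x g⁻¹ x⁻¹`), so `⟨g⟩` and `⟨x g x⁻¹⟩` are
complements of `A` in `A⟨g⟩`; Schur-Zassenhaus conjugacy (search the library: coprime action / Glauberman's lemma /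
conjugacy of complements) gives `a ∈ A` with `a (x g x⁻¹) a⁻¹ ∈ ⟨g⟩ ∩ A g = {g}`. -/
theorem fix_coset {A : Subgroup G} {g x : G} (hg : g ∈ normalizer (A : Set G))
    (hco : (orderOf g).Coprime (Nat.card A)) (hx : g * x * g⁻¹ * x⁻¹ ∈ A) :
    ∃ a ∈ A, Commute g (a * x) := by
  let T : Subgroup G :=
    { carrier := {y | y ∈ normalizer (A : Set G) ∧ y * x * y⁻¹ * x⁻¹ ∈ A}
      mul_mem' := by
        rintro y z ⟨hy, hy'⟩ ⟨hz, hz'⟩
        refine ⟨mul_mem hy hz, ?_⟩
        have := mul_mem ((mem_normalizer_iff.1 hy _).1 hz') hy'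
        convert this using 1; group
      one_mem' := ⟨one_mem _, by simp⟩
      inv_mem' := by
        rintro y ⟨hy, hy'⟩
        refine ⟨inv_mem hy, ?_⟩
        have := (mem_normalizer_iff.1 (inv_mem hy) _).1 (inv_mem hy')
        convert this using 1; group }
  have hT : zpowers g ≤ T := zpowers_le.2 ⟨hg, hx⟩
  have hco' : (Nat.card (zpowers g)).Coprime (Nat.card A) := by rwa [Nat.card_zpowers]
  obtain ⟨k, hk, h⟩ := Solv.exists_conj_mem_of_coprime (zpowers g) A
    ((zpowers g).comap (MulAut.conj x⁻¹).toMonoidHom) (zpowers_le.2 hg) hco'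
    (Or.inl (Group.isSolvable_of_comm fun a b => mul_comm' a b)) (fun a ha => ⟨_, (hT ha).2, by
      have : (MulAut.conj x⁻¹).toMonoidHom ((a * x * a⁻¹ * x⁻¹)⁻¹ * a) = a := by
        simp only [MulEquiv.coe_toMonoidHom, MulAut.conj_apply]; group
      rw [mem_comap, this]; exact ha⟩)
  have hy : x⁻¹ * (k⁻¹ * g * k) * x ∈ zpowers g := by
    have := h g (mem_zpowers g)
    simpa only [mem_comap, MulEquiv.coe_toMonoidHom, MulAut.conj_apply, inv_inv] using this
  have h1 : g * (x⁻¹ * (k⁻¹ * g * k) * x)⁻¹ ∈ A := by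
    have := mul_mem (mul_mem (inv_mem ((mem_normalizer_iff.1 hg _).1 hk)) hk) (inv_mem (hT hy).2)
    convert this using 1; group
  have h2 := Solv.eq_one_of_mem_of_coprime hco' (mul_mem (mem_zpowers g) (inv_mem hy)) h1
  refine ⟨k, hk, ?_⟩
  have h3 : g = x⁻¹ * (k⁻¹ * g * k) * x := mul_inv_eq_one.1 h2
  calc g * (k * x) = k * x * (x⁻¹ * (k⁻¹ * g * k) * x) := by group
    _ = k * x * g := by rw [← h3]

/-- A solvable group with an abelian Sylow `p`-subgroup `P` is `O_{p'}(G) N(P)`: modulo `O_{p'}`, `O_p` is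
self-centralising (library: p-constraint / Hall-Higman 1.2.3), `P̄` centralises `O_p ≤ P̄`, so `P̄ = O_p` is normal;
`P O_{p'} ⊴ G` and Frattini. -/
theorem core_sup_normalizer [Group.IsSolvable G] {p : ℕ} [Fact p.Prime] (P : Sylow p G)
    (hab : ∀ a ∈ (P : Subgroup G), ∀ b ∈ (P : Subgroup G), Commute a b) :
    Cfsg.pPrimeCore p G ⊔ normalizer ((P : Subgroup G) : Set G) = ⊤ := by
  set N := Cfsg.pPrimeCore p G with hN
  have hc := Grp.centralizer_pCore_le (Grp.pPrimeCore_quotient_pPrimeCore p G)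
  let Pb : Sylow p (G ⧸ N) := P.mapSurjective (QuotientGroup.mk'_surjective N)
  have hPb : (Pb : Subgroup (G ⧸ N)) = (P : Subgroup G).map (QuotientGroup.mk' N) := rfl
  have h1 : Cfsg.pCore p (G ⧸ N) ≤ Pb := Grp.pCore_le_sylow Pb
  have h2 : (Pb : Subgroup (G ⧸ N)) ≤ Cfsg.pCore p (G ⧸ N) := by
    refine le_trans (fun a ha => ?_) hc
    rw [mem_centralizer_iff]
    intro b hb
    obtain ⟨a, ha, rfl⟩ := ha
    obtain ⟨b, hb', rfl⟩ := h1 hb
    rw [← map_mul, ← map_mul, (hab b hb' a ha).eq]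
  have h3 : (Cfsg.pCore p (G ⧸ N)).comap (QuotientGroup.mk' N) = (P : Subgroup G) ⊔ N := by
    rw [le_antisymm h1 h2, hPb, comap_map_eq, QuotientGroup.ker_mk']
  have h4 := Sylow.normalizer_sup_eq_top' (N := (Cfsg.pCore p (G ⧸ N)).comap (QuotientGroup.mk' N)) P
    (by rw [h3]; exact le_sup_left)
  rw [h3] at h4
  rw [eq_top_iff, ← h4]
  exact sup_le le_sup_right (sup_le (le_normalizer.trans le_sup_right) le_sup_left)

/-- The same inside a subgroup `H`, with `W` the image of `O_{p'}(H)`: `E ≤ H` abelian `p`-subgroup with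
`p ∤ |H : E|`. -/
theorem exists_core {p : ℕ} [Fact p.Prime] (H E : Subgroup G) (hs : Group.IsSolvable H) (hEH : E ≤ H)
    (hE : IsPGroup p E) (hi : ¬ p ∣ E.relIndex H) (hab : ∀ a ∈ E, ∀ b ∈ E, Commute a b) :
    ∀ g ∈ H, ∃ w ∈ (Cfsg.pPrimeCore p H).map H.subtype, ∃ n ∈ H, n ∈ normalizer (E : Set G) ∧ g = w * n := by
  intro g hg
  have hE' : IsPGroup p (E.subgroupOf H) := hE.of_equiv (subgroupOfEquivOfLe hEH).symm
  let P : Sylow p H := hE'.toSylow hi
  have hP : (P : Subgroup H) = E.subgroupOf H := rfl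
  have h := core_sup_normalizer P (fun a ha b hb => Subtype.ext (hab a ha b hb).eq)
  have hm : (⟨g, hg⟩ : H) ∈ Cfsg.pPrimeCore p H ⊔ normalizer ((P : Subgroup H) : Set H) := by
    rw [h]; exact mem_top _
  obtain ⟨w, hw, n, hn, e⟩ := mem_sup_of_normal_left.1 hm
  refine ⟨w, ⟨w, hw, rfl⟩, n, n.2, ?_, (congrArg Subtype.val e).symm⟩
  refine mem_normalizer_fintype fun e he => ?_
  exact (mem_normalizer_iff.1 hn ⟨e, hEH he⟩).1 he

/-- A `p`-group `Q` normalising a `p'`-group `W` normalises a Sylow `r`-subgroup of `W` (`Q` acts on `Syl_r(W)`,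
whose size divides `|W|`, so it has a fixed point: `IsPGroup.nonempty_fixed_point_of_prime_not_dvd_card`). -/
theorem exists_inv_sylow {p r : ℕ} [Fact p.Prime] [Fact r.Prime] (Q W : Subgroup G) (hQ : IsPGroup p Q)
    (hW : ¬ p ∣ Nat.card W) (hn : Q ≤ normalizer (W : Set G)) :
    ∃ R : Subgroup G, R ≤ W ∧ Nat.card R = r ^ (Nat.card W).factorization r ∧
      Q ≤ normalizer (R : Set G) := by
  have := hQ.isNilpotent
  obtain ⟨k, hk⟩ := IsPGroup.iff_card.1 hQ
  obtain ⟨R, hR⟩ := Solv.exists_invariant_sylow Q W hn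
    (hk ▸ ((Nat.Prime.coprime_iff_not_dvd Fact.out).2 hW).pow_left k) (Or.inl inferInstance) r
  exact ⟨_, map_subtype_le _, by rw [card_subtype, R.card_eq_multiplicity], hR⟩

/-- An element `x` of prime order `p` normalising `R` and commuting with no nontrivial element of `R`:
`p ∣ |R| - 1` (orbit count for `⟨x⟩` acting by conjugation). -/
theorem dvd_card_sub_one {p : ℕ} (hp : p.Prime) {R : Subgroup G} {x : G} (hx : orderOf x = p)
    (hn : x ∈ normalizer (R : Set G)) (hf : ∀ r ∈ R, Commute x r → r = 1) :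
    Nat.card R ≡ 1 [MOD p] := by
  have := Fact.mk hp
  have hP : IsPGroup p (zpowers x) := IsPGroup.of_card (n := 1) (by rw [Nat.card_zpowers, hx, pow_one])
  have h := Grp.ConjCount.card_modEq hP (R : Set G)
    fun g hg s hs => (mem_normalizer_iff.1 (zpowers_le.2 hn hg) s).1 hs
  have h1 : Nat.card {y : G // y ∈ (R : Set G) ∧ y ∈ centralizer (zpowers x : Set G)} = 1 := by
    rw [Nat.card_eq_one_iff_exists]
    refine ⟨⟨1, R.one_mem, one_mem _⟩, fun y => Subtype.ext ?_⟩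
    exact hf _ y.2.1 (mem_centralizer_iff.1 y.2.2 x (mem_zpowers x))
  rw [h1] at h
  exact h

end Cfsg.Agent.ISO
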