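import Cfsg.Agent.ISO.HeQ

set_option autoImplicit false

namespace Cfsg.Agent.ISO

open ISP Subgroup

variable {S : Type*} [Group S]

theorem n11_conj {z g a : S} (hg : g ∈ NZ z) (ha : a ∈ zpowers z) : g * a * g⁻¹ ∈ zpowers z :=
  (mem_normalizer_iff.1 hg a).1 ha

theorem n11_mul {z a a' b b' : S} (ha : a ∈ NZ z) (h1 : a * a'⁻¹ ∈ zpowers z)
    (h2 : b * b'⁻¹ ∈ zpowers z) : a * b * (a' * b')⁻¹ ∈ zpowers z := by
  have := mul_mem (n11_conj ha h2) h1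
  convert this using 1; group

theorem n11_trans {z a b c : S} (h1 : a * b⁻¹ ∈ zpowers z) (h2 : b * c⁻¹ ∈ zpowers z) :
    a * c⁻¹ ∈ zpowers z := by
  have := mul_mem h1 h2
  convert this using 1; group

theorem n11_pow {z a b : S} (ha : a ∈ NZ z) (h1 : a * b⁻¹ ∈ zpowers z) (n : ℕ) :
    a ^ n * (b ^ n)⁻¹ ∈ zpowers z := by
  induction n with
  | zero => simp
  | succ n ih => rw [pow_succ', pow_succ']; exact n11_mul ha h1 ih

/-- `r` acts on `E / ⟨z⟩` as the `i`-th power map. -/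
def N11Act (z : S) (E : Subgroup S) (r : S) (i : ℕ) : Prop :=
  ∀ e ∈ E, r * e * r⁻¹ * (e ^ i)⁻¹ ∈ zpowers z

theorem N11Act.mul {z r s : S} {E : Subgroup S} {i j : ℕ} (hE : E ≤ NZ z) (hr : r ∈ NZ z)
    (h1 : N11Act z E r i) (h2 : N11Act z E s j) : N11Act z E (r * s) (i * j) := by
  intro e he
  have a1 := n11_conj hr (h2 e he)
  have a2 := n11_pow (mul_mem (mul_mem hr (hE he)) (inv_mem hr)) (h1 e he) j
  rw [conj_pow, ← pow_mul] at a2
  have := mul_mem a1 a2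
  convert this using 1; group

theorem N11Act.pow {z r : S} {E : Subgroup S} {i : ℕ} (hE : E ≤ NZ z) (hr : r ∈ NZ z)
    (h1 : N11Act z E r i) (n : ℕ) : N11Act z E (r ^ n) (i ^ n) := by
  induction n with
  | zero => intro e _; simp
  | succ n ih => rw [pow_succ', pow_succ']; exact h1.mul hE hr ih

theorem n11_nine {i : ℕ} (hi : 1 ≡ i ^ 9 [MOD 7]) : i ^ 3 ≡ 1 [MOD 7] := by
  have h1 : i ^ 9 ≡ (i % 7) ^ 9 [MOD 7] := (Nat.mod_modEq i 7).symm.pow 9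
  have h2 : i ^ 3 ≡ (i % 7) ^ 3 [MOD 7] := (Nat.mod_modEq i 7).symm.pow 3
  have h3 := hi.trans h1
  refine h2.trans ?_
  have : i % 7 < 7 := Nat.mod_lt _ (by norm_num)
  generalize i % 7 = k at *
  interval_cases k <;> first | decide | exact absurd h3 (by decide)

theorem n11_cube {i : ℕ} (hi : i ^ 3 ≡ 1 [MOD 7]) : i % 7 = 1 ∨ i % 7 = 2 ∨ i % 7 = 4 := by
  have h2 : (i % 7) ^ 3 ≡ i ^ 3 [MOD 7] := (Nat.mod_modEq i 7).pow 3
  have h3 := h2.trans hi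
  have : i % 7 < 7 := Nat.mod_lt _ (by norm_num)
  generalize i % 7 = k at *
  interval_cases k <;> first | decide | exact absurd h3 (by decide)

namespace XP

variable {P : Subgroup S} {z : S} (h : XP P z)
include h

theorem n11_le : P ≤ NZ z := le_normalizer.trans h.norm_le

theorem n11_full {E K : Subgroup S} (hE : E ∈ Ln P) (h1 : E ≤ K) (h2 : K ≤ P) {v : S} (hv : v ∈ K)
    (hv' : v ∉ E) : K = P := by
  have := h.finite
  have d1 := card_dvd_of_le h1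
  have d2 := card_dvd_of_le h2
  rw [hE.2] at d1
  rw [h.card] at d2
  obtain ⟨k, hk, e⟩ := (Nat.dvd_prime_pow (by norm_num : Nat.Prime 7) (m := 3)).1 (by simpa using d2)
  refine eq_of_le_of_card_ge h2 ?_
  rw [h.card, e]
  rw [e] at d1
  interval_cases k
  · norm_num at d1
  · norm_num at d1
  · exfalso
    have : E = K := eq_of_le_of_card_ge h1 (by rw [e, hE.2]; norm_num)
    exact hv' (this ▸ hv)
  · norm_num

theorem n11_inf {E E' : Subgroup S} (hE : E ∈ Ln P) (hE' : E' ∈ Ln P) (hne : E ≠ E') {x : S}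
    (h1 : x ∈ E) (h2 : x ∈ E') : x ∈ zpowers z := by
  by_contra hz
  exact hne (h.ln_eq hE hE' h1 h2 hz)

theorem n11_zle {E : Subgroup S} (hE : E ∈ Ln P) : zpowers z ≤ E := zpowers_le_of_mem (h.ln_z hE)

theorem n11_gen {a u : S} (ha : a ∈ P) (h1 : a ≠ 1) (hau : a ∈ zpowers u) (hu : u ∈ P) :
    u ∈ zpowers a := by
  have := h.finite
  have hu1 : u ≠ 1 := by
    rintro rfl
    exact h1 (by simpa using hau)
  have : zpowers a = zpowers u := eq_of_le_of_card_ge (zpowers_le_of_mem hau)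
    (by rw [Nat.card_zpowers, Nat.card_zpowers, h.ord ha h1, h.ord hu hu1])
  rw [this]; exact mem_zpowers u

theorem n11_mod {u : S} (hu : u ∈ P) (hz : u ∉ zpowers z) {a b : ℕ}
    (hab : u ^ a * (u ^ b)⁻¹ ∈ zpowers z) : a ≡ b [MOD 7] := by
  have hu1 : u ≠ 1 := fun e => hz (e ▸ one_mem _)
  by_cases h1 : u ^ a * (u ^ b)⁻¹ = 1
  · have := pow_eq_pow_iff_modEq.1 (mul_inv_eq_one.1 h1)
    rwa [h.ord hu hu1] at this
  · exfalso
    have := h.n11_gen (mul_mem (pow_mem hu a) (inv_mem (pow_mem hu b))) h1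
      (mul_mem (pow_mem (mem_zpowers u) a) (inv_mem (pow_mem (mem_zpowers u) b))) hu
    exact hz (zpowers_le_of_mem hab this)

theorem n11_congr {E : Subgroup S} (hE : E ∈ Ln P) {r : S} {i j : ℕ} (h1 : N11Act z E r i)
    (hij : i ≡ j [MOD 7]) : N11Act z E r j := by
  intro e he
  have : e ^ j = e ^ i :=
    pow_eq_pow_iff_modEq.2 (hij.symm.of_dvd (orderOf_dvd_of_pow_eq_one (h.pow_seven (hE.1 he))))
  rw [this]; exact h1 e he

theorem n11_ex {E : Subgroup S} (hE : E ∈ Ln P) {r : S} (hr : r ∈ normalizer (E : Set S))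
    (hz : r ∈ NZ z) : ∃ i, N11Act z E r i := by
  obtain ⟨u, hu, huz⟩ := h.ln_ne hE
  obtain ⟨i, j, hij⟩ := h.ln_gen hE hu huz ((mem_normalizer_iff.1 hr u).1 hu)
  have hN : ∀ x ∈ E, x ∈ NZ z := fun x hx => h.n11_le (hE.1 hx)
  have key : ∀ (v : S) (k : ℕ), v ∈ E → v * z ^ k * v⁻¹ ∈ zpowers z := fun v k hv =>
    n11_conj (hN v hv) (pow_mem (mem_zpowers z) k)
  refine ⟨i, fun e he => ?_⟩
  obtain ⟨a, b, rfl⟩ := h.ln_gen hE hu huz he
  have a1 : r * (u ^ a * z ^ b) * r⁻¹ * (r * u ^ a * r⁻¹)⁻¹ ∈ zpowers z := by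
    have := n11_conj hz (key (u ^ a) b (pow_mem hu a))
    convert this using 1; group
  have a2 : (r * u * r⁻¹) ^ a * ((u ^ i) ^ a)⁻¹ ∈ zpowers z :=
    n11_pow (hN _ ((mem_normalizer_iff.1 hr u).1 hu)) (by rw [hij]; exact key _ j (pow_mem hu i)) a
  have a3 : (u ^ a) ^ i * ((u ^ a * z ^ b) ^ i)⁻¹ ∈ zpowers z := by
    refine n11_pow (hN _ (pow_mem hu a)) ?_ i
    have := inv_mem (key (u ^ a) b (pow_mem hu a))
    convert this using 1; group
  rw [conj_pow, ← pow_mul, mul_comm i a, pow_mul] at a2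
  exact n11_trans a1 (n11_trans a2 a3)

/-- A `7'`-element of `N(P)` acting trivially on `E₁ / Z` and `E₂ / Z` centralises `P`: `fix_coset` (`A = ⟨z⟩`) gives fixed
`u₁ ∈ E₁ - Z`, `u₂ ∈ E₂ - Z`, `[u₁, u₂] = z ^ c ≠ 1` is fixed, `P = ⟨u₁, u₂, z⟩`. -/
theorem cent_of_two {E₁ E₂ : Subgroup S} (h1 : E₁ ∈ Ln P) (h2 : E₂ ∈ Ln P) (hne : E₁ ≠ E₂) {g : S}
    (h7 : ¬ 7 ∣ orderOf g) (hg : g ∈ normalizer (P : Set S))
    (t1 : ∀ x ∈ E₁, g * x * g⁻¹ * x⁻¹ ∈ zpowers z) (t2 : ∀ x ∈ E₂, g * x * g⁻¹ * x⁻¹ ∈ zpowers z) :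
    g ∈ centralizer (P : Set S) := by
  have := h.finite
  have hco : (orderOf g).Coprime (Nat.card (zpowers z)) := by
    rw [Nat.card_zpowers, h.zord]
    exact ((Nat.Prime.coprime_iff_not_dvd (by norm_num : Nat.Prime 7)).2 h7).symm
  have key : ∀ {E : Subgroup S}, E ∈ Ln P → (∀ x ∈ E, g * x * g⁻¹ * x⁻¹ ∈ zpowers z) →
      ∃ u ∈ E, u ∉ zpowers z ∧ Commute g u := by
    intro E hE t
    obtain ⟨u, hu, hz⟩ := h.ln_ne hE
    obtain ⟨a, ha, hc⟩ := fix_coset (h.norm_le hg) hco (t u hu)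
    refine ⟨a * u, mul_mem (h.n11_zle hE ha) hu, fun e => hz ?_, hc⟩
    exact (mul_mem_cancel_left ha).1 e
  obtain ⟨u₁, m1, z1, c1⟩ := key h1 t1
  obtain ⟨u₂, m2, z2, c2⟩ := key h2 t2
  have n2 : u₂ ∉ E₁ := fun e => z2 (h.n11_inf h1 h2 hne e m2)
  have hc : u₁ * u₂ * u₁⁻¹ * u₂⁻¹ ≠ 1 := by
    intro e
    apply n2
    rw [← h.ln_cent h1 m1 z1]
    refine ⟨h2.1 m2, mem_centralizer_singleton_iff.2 ?_⟩
    calc u₂ * u₁ = (u₁ * u₂ * u₁⁻¹ * u₂⁻¹) * (u₂ * u₁) := by rw [e, one_mul]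
      _ = u₁ * u₂ := by group
  have hcz := h.comm_mem (h1.1 m1) (h2.1 m2)
  have hz := h.n11_gen (h.zpowers_le hcz) hc hcz h.zmem
  have cz : Commute g z := by
    obtain ⟨k, hk⟩ := hz
    rw [← hk]
    exact (((c1.mul_right c2).mul_right c1.inv_right).mul_right c2.inv_right).zpow_right k
  have hK := h.n11_full (K := P ⊓ centralizer ({g} : Set S)) h1 (fun e he => ⟨h1.1 he, by
    obtain ⟨i, j, rfl⟩ := h.ln_gen h1 m1 z1 he
    exact mem_centralizer_singleton_iff.2 ((c1.pow_right i).mul_right (cz.pow_right j)).eq.symm⟩)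
    inf_le_left ⟨h2.1 m2, mem_centralizer_singleton_iff.2 c2.eq.symm⟩ n2
  intro x hx
  have : x ∈ P ⊓ centralizer ({g} : Set S) := by rw [hK]; exact hx
  exact mem_centralizer_singleton_iff.1 this.2

theorem n11_two {R : Subgroup S} (hR : R ≤ normalizer (P : Set S)) (h9 : Nat.card R = 9) :
    ∃ E₁ ∈ Ln P, ∃ E₂ ∈ Ln P, E₁ ≠ E₂ ∧ R ≤ normalizer (E₁ : Set S) ∧ R ≤ normalizer (E₂ : Set S) := by
  have := h.finite
  have : Fact (Nat.Prime 3) := ⟨by norm_num⟩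
  have hp : IsPGroup 3 R := IsPGroup.of_card (n := 2) (by rw [h9]; norm_num)
  let : MulAction R (Ln P) :=
    { smul := fun r E => ⟨E.1.map (MulAut.conj (r : S)).toMonoidHom, by
        rintro _ ⟨x, hx, rfl⟩
        exact (mem_normalizer_iff.1 (hR r.2) x).1 (E.2.1 hx), by
        rw [card_map_of_injective (MulAut.conj (r : S)).injective, E.2.2]⟩
      one_smul := fun E => Subtype.ext (by
        show E.1.map (MulAut.conj ((1 : R) : S)).toMonoidHom = E.1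
        ext x; simp)
      mul_smul := fun r s E => Subtype.ext (by
        show E.1.map (MulAut.conj ((r * s : R) : S)).toMonoidHom =
          (E.1.map (MulAut.conj (s : S)).toMonoidHom).map (MulAut.conj (r : S)).toMonoidHom
        rw [map_map]; congr 1; ext x; simp [mul_assoc]) }
  have h8 : Nat.card (Ln P) = 8 := h.ln_ncard
  have : Finite (Ln P) := Nat.finite_of_card_ne_zero (by rw [h8]; norm_num)
  have hm := hp.card_modEq_card_fixedPoints (Ln P)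
  rw [h8] at hm
  have h2 : 1 < Nat.card (MulAction.fixedPoints R (Ln P)) := by
    unfold Nat.ModEq at hm
    omega
  obtain ⟨⟨E₁, f1⟩, ⟨E₂, f2⟩, hne⟩ := (Finite.one_lt_card_iff_nontrivial.1 h2).exists_pair_ne
  have key : ∀ E : Ln P, E ∈ MulAction.fixedPoints R (Ln P) → R ≤ normalizer (E.1 : Set S) := by
    intro E f r hr
    refine mem_normalizer_fintype fun x hx => ?_
    have e : E.1.map (MulAut.conj r).toMonoidHom = E.1 := congrArg Subtype.val (f ⟨r, hr⟩)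
    show r * x * r⁻¹ ∈ E.1
    rw [← e]; exact ⟨x, hx, rfl⟩
  exact ⟨E₁, E₁.2, E₂, E₂.2, fun e => hne (Subtype.ext (Subtype.ext e)), key _ f1, key _ f2⟩

theorem n11_both {R E₁ E₂ : Subgroup S} (hR : R ≤ normalizer (P : Set S)) (h9 : Nat.card R = 9)
    (h3 : ¬ 3 ∣ Nat.card (centralizer (P : Set S))) (h1 : E₁ ∈ Ln P) (h2 : E₂ ∈ Ln P) (hne : E₁ ≠ E₂)
    {d : S} (hd : d ∈ R) (t1 : N11Act z E₁ d 1) (t2 : N11Act z E₂ d 1) : d = 1 := by
  have := h.finite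
  have o : orderOf d ∣ 3 ^ 2 := by
    have := R.orderOf_dvd_natCard hd
    rw [h9] at this; simpa using this
  have hc := h.cent_of_two h1 h2 hne (g := d) (fun e => by have := e.trans o; norm_num at this) (hR hd)
    (fun x hx => by simpa using t1 x hx) (fun x hx => by simpa using t2 x hx)
  obtain ⟨k, -, hk⟩ := (Nat.dvd_prime_pow (by norm_num : Nat.Prime 3)).1 o
  rcases k with _ | k
  · exact orderOf_eq_one_iff.1 (by simpa using hk)
  · exact absurd ((hk ▸ dvd_pow_self 3 k.succ_ne_zero).trans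
      ((centralizer (P : Set S)).orderOf_dvd_natCard hc)) h3

theorem n11_act3 {R E : Subgroup S} (hR : R ≤ normalizer (P : Set S)) (h9 : Nat.card R = 9)
    (hE : E ∈ Ln P) (hn : R ≤ normalizer (E : Set S)) {r : S} (hr : r ∈ R) :
    ∃ i, N11Act z E r i ∧ i ^ 3 ≡ 1 [MOD 7] := by
  have hz := h.norm_le (hR hr)
  obtain ⟨i, hi⟩ := h.n11_ex hE (hn hr) hz
  refine ⟨i, hi, n11_nine ?_⟩
  have e : r ^ 9 = 1 := by
    have := R.orderOf_dvd_natCard hr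
    rw [h9] at this; exact orderOf_dvd_iff_pow_eq_one.1 this
  have a := hi.pow (hE.1.trans h.n11_le) hz 9
  obtain ⟨u, hu, huz⟩ := h.ln_ne hE
  refine h.n11_mod (hE.1 hu) huz ?_
  simpa [e] using a u hu

theorem n11_one {R E₁ E₂ : Subgroup S} (hR : R ≤ normalizer (P : Set S)) (h9 : Nat.card R = 9)
    (h3 : ¬ 3 ∣ Nat.card (centralizer (P : Set S))) (h1 : E₁ ∈ Ln P) (h2 : E₂ ∈ Ln P) (hne : E₁ ≠ E₂)
    (n1 : R ≤ normalizer (E₁ : Set S)) (n2 : R ≤ normalizer (E₂ : Set S)) :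
    ∃ d ∈ R, orderOf d = 3 ∧ d * z * d⁻¹ = z ^ 2 ∧ N11Act z E₁ d 1 := by
  have := h.finite
  have : Fact (Nat.Prime 3) := ⟨by norm_num⟩
  have hN : ∀ r ∈ R, r ∈ NZ z := fun r hr => h.norm_le (hR hr)
  have e1 := h1.1.trans h.n11_le
  have cube : ∀ r ∈ R, r ^ 3 = 1 := by
    intro r hr
    obtain ⟨i, hi, mi⟩ := h.n11_act3 hR h9 h1 n1 hr
    obtain ⟨j, hj, mj⟩ := h.n11_act3 hR h9 h2 n2 hr
    exact h.n11_both hR h9 h3 h1 h2 hne (pow_mem hr 3) (h.n11_congr h1 (hi.pow e1 (hN r hr) 3) mi)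
      (h.n11_congr h2 (hj.pow (h2.1.trans h.n11_le) (hN r hr) 3) mj)
  have ex : ∃ d ∈ R, d ≠ 1 ∧ N11Act z E₁ d 1 := by
    have : Nontrivial R := Finite.one_lt_card_iff_nontrivial.1 (by rw [h9]; norm_num)
    obtain ⟨⟨r, hr⟩, r1⟩ := exists_ne (1 : R)
    have r1' : r ≠ 1 := fun e => r1 (Subtype.ext e)
    have hs : ∃ s ∈ R, s ∉ zpowers r := by
      by_contra hc
      push Not at hc
      have := card_dvd_of_le (show R ≤ zpowers r from hc)
      rw [h9, Nat.card_zpowers, orderOf_eq_prime (cube r hr) r1'] at this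
      norm_num at this
    obtain ⟨s, hs, hsr⟩ := hs
    obtain ⟨i, hi, mi⟩ := h.n11_act3 hR h9 h1 n1 hr
    obtain ⟨j, hj, mj⟩ := h.n11_act3 hR h9 h1 n1 hs
    by_cases i1 : i % 7 = 1
    · exact ⟨r, hr, r1', h.n11_congr h1 hi i1⟩
    have hk : ∃ k, i ^ k * j ≡ 1 [MOD 7] := by
      have mm : ∀ k, i ^ k * j ≡ (i % 7) ^ k * (j % 7) [MOD 7] := fun k =>
        ((Nat.mod_modEq i 7).symm.pow k).mul (Nat.mod_modEq j 7).symm
      rcases n11_cube mi with a | a | a <;> rcases n11_cube mj with b | b | b <;>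
        first
        | exact absurd a i1
        | exact ⟨0, (mm 0).trans (by rw [a, b]; decide)⟩
        | exact ⟨1, (mm 1).trans (by rw [a, b]; decide)⟩
        | exact ⟨2, (mm 2).trans (by rw [a, b]; decide)⟩
    obtain ⟨k, hk⟩ := hk
    refine ⟨r ^ k * s, mul_mem (pow_mem hr k) hs, fun e => hsr ?_,
      h.n11_congr h1 ((hi.pow e1 (hN r hr) k).mul e1 (pow_mem (hN r hr) k) hj) hk⟩
    rw [eq_inv_of_mul_eq_one_right e]
    exact inv_mem (pow_mem (mem_zpowers r) k)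
  obtain ⟨d, hd, d1, t1⟩ := ex
  obtain ⟨a, ha⟩ := mem_powers_iff_mem_zpowers.2 (n11_conj (hN d hd) (mem_zpowers z))
  have ha : d * z * d⁻¹ = z ^ a := ha.symm
  have hp : ∀ n : ℕ, d ^ n * z * (d ^ n)⁻¹ = z ^ a ^ n := by
    intro n
    induction n with
    | zero => simp
    | succ n ih =>
      have : d ^ (n + 1) * z * (d ^ (n + 1))⁻¹ = d * (d ^ n * z * (d ^ n)⁻¹) * d⁻¹ := by
        rw [pow_succ']; group
      rw [this, ih, ← conj_pow, ha, ← pow_mul, pow_succ']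
  have zm : ∀ {m n : ℕ}, m ≡ n [MOD 7] → z ^ m = z ^ n := fun e =>
    pow_eq_pow_iff_modEq.2 (by rw [h.zord]; exact e)
  have a3 : a ^ 3 ≡ 1 [MOD 7] := by
    have := hp 3
    rw [cube d hd] at this
    rw [← h.zord]
    exact pow_eq_pow_iff_modEq.1 (by rw [← this]; simp)
  rcases n11_cube a3 with b | b | b
  · exfalso
    apply d1
    refine h.n11_both hR h9 h3 h1 h2 hne hd t1 fun x hx => ?_
    rw [pow_one]
    refine h.n11_inf h1 h2 hne (h.pair h1 (hR hd) (a := 1) (by norm_num) (ha.trans (zm b)) t1 (h2.1 hx)) ?_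
    exact mul_mem ((mem_normalizer_iff.1 (n2 hd) x).1 hx) (inv_mem hx)
  · exact ⟨d, hd, orderOf_eq_prime (cube d hd) d1, ha.trans (zm b), t1⟩
  · refine ⟨d ^ 2, pow_mem hd 2, orderOf_eq_prime (cube _ (pow_mem hd 2)) fun e => d1 ?_,
      (hp 2).trans (zm ?_), by simpa using t1.pow e1 (hN d hd) 2⟩
    · calc d = d ^ 3 * (d ^ 2)⁻¹ := by group
        _ = 1 := by rw [cube d hd, e]; simp
    · exact ((Nat.mod_modEq a 7).symm.pow 2).trans (by rw [b]; decide)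

/-- `R ≤ N(P)` of order `9` acts on the `8` lines, so fixes two lines `E₁ ≠ E₂`. `R` acts on `Eᵢ / Z ≅ C₇` through a group of order
`∣ 3`, so some `1 ≠ dᵢ ∈ R` is trivial on `Eᵢ / Z`; `r ^ 3` is trivial on both quotients, so `r ^ 3 = 1` (`cent_of_two`, `h3`). `dᵢ` does not
centralise `z` (else `pair` with `a = 1` makes it trivial on `P / Eᵢ ≅ Eⱼ / Z`); replace `dᵢ` by `dᵢ²` if needed. If `d₁` normalises a third line
`E ∋ u₁ u₂'`, then `d₁ u₁ u₂' d₁⁻¹ ∈ u₁ u₂' ^ b Z ∩ E` forces `b ≡ 1`, so `d₁` is trivial on `E₂ / Z`. -/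
theorem three_elts (h9 : 9 ∣ Nat.card (normalizer (P : Set S)))
    (h3 : ¬ 3 ∣ Nat.card (centralizer (P : Set S))) :
    ∃ E₁ ∈ Ln P, ∃ E₂ ∈ Ln P, E₁ ≠ E₂ ∧ ∃ d₁ ∈ normalizer (P : Set S), ∃ d₂ ∈ normalizer (P : Set S),
      orderOf d₁ = 3 ∧ orderOf d₂ = 3 ∧ d₁ * z * d₁⁻¹ = z ^ 2 ∧ d₂ * z * d₂⁻¹ = z ^ 2 ∧
      (∀ x ∈ E₁, d₁ * x * d₁⁻¹ * x⁻¹ ∈ zpowers z) ∧ (∀ x ∈ E₂, d₂ * x * d₂⁻¹ * x⁻¹ ∈ zpowers z) ∧
      d₂ ∈ normalizer (E₁ : Set S) ∧ d₁ ∈ normalizer (E₂ : Set S) ∧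
      ∀ E ∈ Ln P, d₁ ∈ normalizer (E : Set S) → E = E₁ ∨ E = E₂ := by
  have := h.finite
  have : Fact (Nat.Prime 3) := ⟨by norm_num⟩
  obtain ⟨R0, hR0⟩ := Sylow.exists_subgroup_card_pow_prime (G := normalizer (P : Set S)) 3 (n := 2)
    (by simpa using h9)
  set R := R0.map (normalizer (P : Set S)).subtype with hRdef
  have cR : Nat.card R = 9 := by
    rw [hRdef, card_map_of_injective (Subgroup.subtype_injective _), hR0]; norm_num
  have hR : R ≤ normalizer (P : Set S) := map_subtype_le _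
  obtain ⟨E₁, h1, E₂, h2, hne, n1, n2⟩ := h.n11_two hR cR
  obtain ⟨d₁, m1, o1, z1, t1⟩ := h.n11_one hR cR h3 h1 h2 hne n1 n2
  obtain ⟨d₂, m2, o2, z2, t2⟩ := h.n11_one hR cR h3 h2 h1 hne.symm n2 n1
  refine ⟨E₁, h1, E₂, h2, hne, d₁, hR m1, d₂, hR m2, o1, o2, z1, z2, fun x hx => by simpa using t1 x hx,
    fun x hx => by simpa using t2 x hx, n1 m2, n2 m1, fun E hE hn => ?_⟩
  by_contra hc
  push Not at hc
  obtain ⟨v, hv, hvz⟩ := h.ln_ne hE
  obtain ⟨w, hw, hwz⟩ := h.ln_ne h2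
  have hP : E₁ ⊔ E₂ = P := h.n11_full h1 le_sup_left (sup_le h1.1 h2.1) (mem_sup_right hw)
    fun e => hwz (h.n11_inf h1 h2 hne e hw)
  have hv' : v ∈ ((E₁ ⊔ E₂ : Subgroup S) : Set S) := by rw [hP]; exact hE.1 hv
  rw [coe_mul_of_left_le_normalizer_right _ _ (h1.1.trans (h.ln_norm h2))] at hv'
  obtain ⟨u₁, a1, u₂, a2, rfl⟩ := hv'
  have hv : u₁ * u₂ ∈ E := hv
  have hvz : u₁ * u₂ ∉ zpowers z := hvz
  have b2 : u₂ ∉ zpowers z := fun e =>
    hvz (h.n11_inf hE h1 hc.1 hv (mul_mem a1 (h.n11_zle h1 e)))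
  have hz := h.norm_le (hR m1)
  obtain ⟨b, hb⟩ := h.n11_ex h2 (n2 m1) hz
  have c1 := n11_mul (mul_mem (mul_mem hz (h.n11_le (h1.1 a1))) (inv_mem hz)) (t1 u₁ a1) (hb u₂ a2)
  have c2 : d₁ * (u₁ * u₂) * d₁⁻¹ ∈ E := (mem_normalizer_iff.1 hn _).1 hv
  have c3 : u₂⁻¹ * u₂ ^ b ∈ E := by
    have := mul_mem (inv_mem hv) (mul_mem (inv_mem (h.n11_zle hE c1)) c2)
    convert this using 1; group
  have c4 := h.n11_inf hE h2 hc.2 c3 (mul_mem (inv_mem a2) (pow_mem a2 b))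
  have c5 : b ≡ 1 [MOD 7] := h.n11_mod (h2.1 a2) b2 (by convert c4 using 1; group)
  have := h.n11_both hR cR h3 h1 h2 hne m1 t1 (h.n11_congr h2 hb c5)
  rw [this] at o1
  simp at o1

end XP

end Cfsg.Agent.ISO
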