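import Cfsg.Agent.ISO.HeQ

set_option autoImplicit false

namespace Cfsg.Agent.ISO

open ISP Subgroup

variable {S : Type*} [Group S]

theorem n2_dvd_ncard {G X : Type*} [Group G] [MulAction G X] [Finite X] (A : Set X)
    (hA : ∀ g : G, ∀ x ∈ A, g • x ∈ A) (k : ℕ)
    (hk : ∀ x ∈ A, k ∣ (MulAction.stabilizer G x).index) : k ∣ A.ncard := by
  classical
  have := Fintype.ofFinite X
  let f : X → MulAction.orbitRel.Quotient G X := fun x => Quotient.mk (MulAction.orbitRel G X) x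
  rw [Set.ncard_eq_toFinset_card' A,
    Finset.card_eq_sum_card_fiberwise (f := f) (t := A.toFinset.image f)
      (fun x hx => Finset.mem_image_of_mem f hx)]
  refine Finset.dvd_sum fun b hb => ?_
  obtain ⟨x, hx, rfl⟩ := Finset.mem_image.1 hb
  have hx' : x ∈ A := by simpa using hx
  have e : (A.toFinset.filter fun a => f a = f x) = (MulAction.orbit G x).toFinset := by
    ext a
    simp only [Finset.mem_filter, Set.mem_toFinset]
    constructor
    · rintro ⟨-, h⟩
      exact MulAction.orbitRel_apply.1 (Quotient.exact h)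
    · intro h
      refine ⟨?_, Quotient.sound (MulAction.orbitRel_apply.2 h)⟩
      obtain ⟨g, rfl⟩ := h
      exact hA g x hx'
  rw [e, ← Set.ncard_eq_toFinset_card', ← MulAction.index_stabilizer]
  exact hk x hx'

theorem n2_dvd_conj [Finite S] (P : Subgroup S) (A : Set S)
    (hA : ∀ g ∈ P, ∀ x ∈ A, g * x * g⁻¹ ∈ A) (k : ℕ)
    (hk : ∀ x ∈ A, k ∣ (centralizer ({x} : Set S)).relIndex P) : k ∣ A.ncard := by
  let inst : MulAction P S :=
    { smul := fun g x => (g : S) * x * (g : S)⁻¹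
      one_smul := fun x => by
        change ((1 : P) : S) * x * ((1 : P) : S)⁻¹ = x
        simp
      mul_smul := fun g g' x => by
        change ((g * g' : P) : S) * x * ((g * g' : P) : S)⁻¹ =
          (g : S) * ((g' : S) * x * (g' : S)⁻¹) * (g : S)⁻¹
        simp [mul_assoc] }
  refine @n2_dvd_ncard P S _ inst _ A (fun g x hx => hA g g.2 x hx) k fun x hx => ?_
  have e : @MulAction.stabilizer P S _ inst x = (centralizer ({x} : Set S)).subgroupOf P := by
    ext g
    rw [mem_subgroupOf, mem_centralizer_singleton_iff]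
    change (g : S) * x * (g : S)⁻¹ = x ↔ _
    rw [mul_inv_eq_iff_eq_mul]
  rw [e]
  exact hk x hx

theorem n2_dc {α β : Type*} [Finite α] [Finite β] (A : Set α) (B : Set β) (r : α → β → Prop)
    (m n : ℕ) (hm : ∀ a ∈ A, {b | b ∈ B ∧ r a b}.ncard = m)
    (hn : ∀ b ∈ B, {a | a ∈ A ∧ r a b}.ncard = n) : A.ncard * m = B.ncard * n := by
  classical
  have := Fintype.ofFinite α
  have := Fintype.ofFinite β
  rw [Set.ncard_eq_toFinset_card' A, Set.ncard_eq_toFinset_card' B]
  refine Finset.card_mul_eq_card_mul r (fun a ha => ?_) (fun b hb => ?_)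
  · rw [← hm a (by simpa using ha), Set.ncard_eq_toFinset_card']
    congr 1
    ext b
    simp [Finset.bipartiteAbove]
  · rw [← hn b (by simpa using hb), Set.ncard_eq_toFinset_card']
    congr 1
    ext a
    simp [Finset.bipartiteBelow]

namespace XP

variable {P : Subgroup S} {z : S} (h : XP P z)
include h

theorem n2_card_z : Nat.card (zpowers z) = 7 := by rw [Nat.card_zpowers, h.zord]

theorem n2_zp {w : S} (hw : w ∈ zpowers z) (h1 : w ≠ 1) : z ∈ zpowers w := by
  have : Fact (Nat.Prime 7) := ⟨by norm_num⟩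
  have := mem_zpowers_of_prime_card (G := zpowers z) h.n2_card_z (g := ⟨w, hw⟩)
    (g' := ⟨z, mem_zpowers z⟩) (fun e => h1 (congrArg Subtype.val e))
  obtain ⟨k, hk⟩ := this
  exact ⟨k, by simpa using congrArg Subtype.val hk⟩

theorem n2_mem_NZ {w n : S} (hw : w ∈ zpowers z) (h1 : w ≠ 1) :
    n * w * n⁻¹ ∈ zpowers z ↔ n ∈ NZ z := by
  have := h.finite
  constructor
  · intro hn
    refine mem_normalizer_fintype fun y hy => ?_
    obtain ⟨k, hk⟩ := h.n2_zp hw h1
    obtain ⟨j, rfl⟩ := hy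
    have : n * z ^ j * n⁻¹ = ((n * w * n⁻¹) ^ k) ^ j := by
      rw [conj_zpow, conj_zpow]
      simp only at hk
      rw [hk]
    simp only
    rw [this]
    exact zpow_mem (zpow_mem hn k) j
  · intro hn
    exact (mem_normalizer_iff.1 hn w).1 hw

theorem n2_le : P ≤ NZ z := fun x hx =>
  (h.n2_mem_NZ (mem_zpowers z) h.z_ne_one).1 (by
    rw [(h.zcen x hx).eq, mul_inv_cancel_right]; exact mem_zpowers z)

theorem n2_not_dvd {p : ℕ} (hp : p = 5 ∨ p = 17) : ¬ p ∣ Nat.card (NZ z) := by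
  have := h.finite
  intro hd
  have hpp : p.Prime := by rcases hp with rfl | rfl <;> norm_num
  have : Fact p.Prime := ⟨hpp⟩
  obtain ⟨g, hg⟩ := exists_prime_orderOf_dvd_card' p hd
  have hg' : orderOf (g : S) = p := by rw [Subgroup.orderOf_coe, hg]
  obtain ⟨k, hk⟩ := (mem_normalizer_iff.1 g.2 z).1 (mem_zpowers z)
  simp only at hk
  have hpow : ∀ i : ℕ, (g : S) ^ i * z * ((g : S) ^ i)⁻¹ = z ^ (k ^ i) := by
    intro i
    induction i with
    | zero => simp
    | succ i ih =>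
      calc (g : S) ^ (i + 1) * z * ((g : S) ^ (i + 1))⁻¹
          = g * ((g : S) ^ i * z * ((g : S) ^ i)⁻¹) * (g : S)⁻¹ := by rw [pow_succ']; group
        _ = z ^ (k ^ (i + 1)) := by
          rw [ih, ← conj_zpow, ← hk, ← zpow_mul, pow_succ']
  have hk7 : ¬ (7 : ℤ) ∣ k := by
    intro hd7
    have : z ^ k = 1 := by
      rw [← orderOf_dvd_iff_zpow_eq_one, h.zord]; exact_mod_cast hd7
    rw [this] at hk
    apply h.z_ne_one
    have : z = (g : S)⁻¹ * ((g : S) * z * (g : S)⁻¹) * g := by group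
    rw [this, ← hk]; simp
  have h6 : z ^ (k ^ 6) = z := by
    have : (7 : ℤ) ∣ k ^ 6 - 1 := by
      have := Int.ModEq.pow_card_sub_one_eq_one (p := 7) (by norm_num) (n := k)
        ((Int.prime_iff_natAbs_prime.2 (by norm_num) : Prime (7 : ℤ)).coprime_iff_not_dvd.2 hk7).symm
      exact (Int.ModEq.dvd this.symm)
    obtain ⟨c, hc⟩ := this
    have e : k ^ 6 = 7 * c + 1 := by linarith
    have h7 : z ^ (7 : ℤ) = 1 := by
      have := pow_orderOf_eq_one z
      rw [h.zord] at this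
      exact_mod_cast this
    rw [e, zpow_add, zpow_mul, h7]; simp
  have hc : Commute ((g : S) ^ 6) z := by
    have := hpow 6
    rw [h6, mul_inv_eq_iff_eq_mul] at this
    exact this
  have ho : orderOf ((g : S) ^ 6) = p := by
    rw [orderOf_pow' _ (by norm_num), hg']
    rcases hp with rfl | rfl <;> norm_num
  refine h.hh.not_dvd_cent h.zord hc (k := p) ?_ (by rw [ho])
  rcases hp with rfl | rfl <;> simp

/-- `P ≤ N(⟨z⟩)`, and `5, 17 ∤ |N(⟨z⟩)|` (an element of order `5` or `17` acts trivially on `⟨z⟩`: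
`HH.not_dvd_cent`). -/
theorem index_form : ∃ a b : ℕ, a ≤ 10 ∧ b ≤ 3 ∧ (NZ z).index = 425 * 2 ^ a * 3 ^ b := by
  have e := (NZ z).card_mul_index
  rw [h.hh.card] at e
  have h343 : 343 ∣ Nat.card (NZ z) := h.card ▸ card_dvd_of_le h.n2_le
  have h5 : Nat.Coprime 25 (Nat.card (NZ z)) :=
    Nat.Coprime.pow_left 2 (((Nat.Prime.coprime_iff_not_dvd (by norm_num : Nat.Prime 5))).2
      (h.n2_not_dvd (Or.inl rfl)))
  have h17 : Nat.Coprime 17 (Nat.card (NZ z)) :=
    ((Nat.Prime.coprime_iff_not_dvd (by norm_num : Nat.Prime 17))).2 (h.n2_not_dvd (Or.inr rfl))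
  have h425 : 425 ∣ (NZ z).index := by
    have : Nat.Coprime 425 (Nat.card (NZ z)) := Nat.Coprime.mul_left h5 h17
    exact this.dvd_of_dvd_mul_left (by rw [e]; norm_num)
  obtain ⟨m, hm⟩ := h425
  obtain ⟨n, hn⟩ := h343
  rw [hm, hn] at e
  have hmn : m ∣ 2 ^ 10 * 3 ^ 3 := ⟨n, by nlinarith⟩
  obtain ⟨m1, m2, h1, h2, rfl⟩ := (Nat.dvd_mul).1 hmn
  obtain ⟨a, ha, rfl⟩ := (Nat.dvd_prime_pow Nat.prime_two).1 h1
  obtain ⟨b, hb, rfl⟩ := (Nat.dvd_prime_pow Nat.prime_three).1 h2
  exact ⟨a, b, ha, hb, by rw [hm, mul_assoc]⟩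

theorem n2_z6 : ((zpowers z : Set S) \ {1}).ncard = 6 := by
  have := h.finite
  rw [Set.ncard_diff_singleton_of_mem (one_mem _), ← Nat.card_coe_set_eq]
  change Nat.card (zpowers z) - 1 = 6
  rw [h.n2_card_z]

theorem n2_A : {v : S | v ≠ 1 ∧ Ct z v}.ncard = 6 * (NZ z).index := by
  have := h.finite
  have key := n2_dc {v : S | v ≠ 1 ∧ Ct z v} (Set.univ : Set S)
    (fun v g => g * v * g⁻¹ ∈ zpowers z) (Nat.card (NZ z)) 6 ?_ ?_
  · rw [Set.ncard_univ, ← (NZ z).card_mul_index] at key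
    have hpos : 0 < Nat.card (NZ z) := Nat.card_pos
    refine Nat.eq_of_mul_eq_mul_right hpos ?_
    rw [key]; ring
  · rintro v ⟨hv1, g0, hg0⟩
    have hw1 : g0 * v * g0⁻¹ ≠ 1 := fun e => hv1 (by
      have : v = g0⁻¹ * (g0 * v * g0⁻¹) * g0 := by group
      rw [this, e]; simp)
    have e : {g | g ∈ (Set.univ : Set S) ∧ g * v * g⁻¹ ∈ zpowers z} =
        (fun n => n * g0) '' (NZ z : Set S) := by
      ext g
      simp only [Set.mem_univ, true_and, Set.mem_setOf_eq, Set.mem_image, SetLike.mem_coe]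
      constructor
      · intro hg
        refine ⟨g * g0⁻¹, (h.n2_mem_NZ hg0 hw1).1 ?_, by group⟩
        convert hg using 1
        group
      · rintro ⟨n, hn, rfl⟩
        convert (h.n2_mem_NZ hg0 hw1).2 hn using 1
        group
    rw [e, Set.ncard_image_of_injective _ (mul_left_injective g0), ← Nat.card_coe_set_eq]
    rfl
  · rintro g -
    have e : {v | v ∈ {v : S | v ≠ 1 ∧ Ct z v} ∧ g * v * g⁻¹ ∈ zpowers z} =
        (fun w => g⁻¹ * w * g) '' ((zpowers z : Set S) \ {1}) := by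
      ext v
      simp only [Set.mem_setOf_eq, Set.mem_image, Set.mem_diff, SetLike.mem_coe,
        Set.mem_singleton_iff]
      constructor
      · rintro ⟨⟨hv1, -⟩, hv⟩
        refine ⟨g * v * g⁻¹, ⟨hv, fun e => hv1 ?_⟩, by group⟩
        have : v = g⁻¹ * (g * v * g⁻¹) * g := by group
        rw [this, e]; simp
      · rintro ⟨w, ⟨hw, hw1⟩, rfl⟩
        have e : g * (g⁻¹ * w * g) * g⁻¹ = w := by group
        refine ⟨⟨fun e1 => hw1 ?_, g, by rw [e]; exact hw⟩, by rw [e]; exact hw⟩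
        rw [← e, e1]; simp
    rw [e, Set.ncard_image_of_injective _ (fun a b hab => by simpa using hab), h.n2_z6]

theorem n2_ord {v : S} (hv1 : v ≠ 1) (hv : Ct z v) : orderOf v = 7 := by
  obtain ⟨g, hg⟩ := hv
  have hw1 : g * v * g⁻¹ ≠ 1 := fun e => hv1 (by
    have : v = g⁻¹ * (g * v * g⁻¹) * g := by group
    rw [this, e]; simp)
  have := h.ord (h.zpowers_le hg) hw1
  rwa [show g * v * g⁻¹ = MulAut.conj g v from rfl, MulEquiv.orderOf_eq] at this

theorem n2_rel {v : S} (hv : orderOf v = 7) (hP : v ∉ P) :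
    49 ∣ (centralizer ({v} : Set S)).relIndex P := by
  have := h.finite
  have : Fact (Nat.Prime 7) := ⟨by norm_num⟩
  set C := P ⊓ centralizer ({v} : Set S) with hC
  have hmul : Nat.card C * (centralizer ({v} : Set S)).relIndex P = 343 := by
    rw [← h.card, ← inf_relIndex_left, ← hC, relIndex,
      ← Nat.card_congr (subgroupOfEquivOfLe (show C ≤ P from inf_le_left)).toEquiv,
      card_mul_index]
  have hCp : IsPGroup 7 C := h.isPGroup.to_le inf_le_left
  have hvp : IsPGroup 7 (zpowers v) := IsPGroup.of_card (n := 1) (by rw [Nat.card_zpowers, hv]; rfl)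
  have hcv : ∀ x ∈ C, Commute x v := fun x hx => mem_centralizer_singleton_iff.1 hx.2
  have hQp : IsPGroup 7 (C ⊔ zpowers v : Subgroup S) := by
    refine hCp.to_sup_of_normal_right' hvp fun x hx => mem_normalizer_fintype fun y hy => ?_
    obtain ⟨k, rfl⟩ := hy
    simp only
    rw [((hcv x hx).zpow_right k).eq, mul_inv_cancel_right]
    exact zpow_mem (mem_zpowers v) k
  obtain ⟨g, -, hg⟩ := h.conj_into (Y := ⊤) le_top le_top hQp
  set Q := C ⊔ zpowers v with hQ
  have hle : Q.map (MulAut.conj g).toMonoidHom ≤ P := by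
    rintro _ ⟨x, hx, rfl⟩
    exact hg x hx
  have hcard : Nat.card (Q.map (MulAut.conj g).toMonoidHom) = Nat.card Q :=
    card_map_of_injective (MulAut.conj g).injective
  have hQd : Nat.card Q ∣ 7 ^ 3 := by
    rw [← hcard]; exact (show (343 : ℕ) = 7 ^ 3 by norm_num) ▸ h.card ▸ card_dvd_of_le hle
  have hlt : Nat.card C < Nat.card Q := by
    by_contra hge
    have e : C = Q := eq_of_le_of_card_ge le_sup_left (not_lt.1 hge)
    have : v ∈ Q := (le_sup_right : zpowers v ≤ Q) (mem_zpowers v)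
    rw [← e] at this
    exact hP this.1
  have hCd : Nat.card C ∣ 7 ^ 3 := Dvd.intro _ (by rw [hmul]; norm_num)
  obtain ⟨i, hi, hCi⟩ := (Nat.dvd_prime_pow (by norm_num : Nat.Prime 7)).1 hCd
  obtain ⟨j, hj, hQj⟩ := (Nat.dvd_prime_pow (by norm_num : Nat.Prime 7)).1 hQd
  rw [hCi, hQj] at hlt
  have hij : i < j := (Nat.pow_lt_pow_iff_right (by norm_num)).1 hlt
  rw [hCi] at hmul
  by_cases h2 : i = 2
  · exfalso
    subst h2
    have hj3 : j = 3 := by omega
    subst hj3
    have hE : C ∈ Ln P := ⟨inf_le_left, by rw [hCi]; norm_num⟩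
    have heq : Q.map (MulAut.conj g).toMonoidHom = P :=
      eq_of_le_of_card_ge hle (by rw [hcard, hQj, h.card]; norm_num)
    have hab : ∀ y ∈ Q, Q ≤ centralizer ({y} : Set S) := by
      intro y hy
      have h1 : ∀ x ∈ C, Commute x y := by
        intro x hx
        have : Q ≤ centralizer ({x} : Set S) := sup_le
          (fun a ha => mem_centralizer_singleton_iff.2 (h.ln_comm hE ha hx).eq)
          (zpowers_le_of_mem (mem_centralizer_singleton_iff.2 (hcv x hx).symm.eq))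
        exact (mem_centralizer_singleton_iff.1 (this hy)).symm
      have h2 : Commute v y := by
        have : Q ≤ centralizer ({v} : Set S) := sup_le inf_le_right
          (zpowers_le_of_mem (mem_centralizer_singleton_iff.2 rfl))
        exact (mem_centralizer_singleton_iff.1 (this hy)).symm
      exact sup_le (fun a ha => mem_centralizer_singleton_iff.2 (h1 a ha).eq)
        (zpowers_le_of_mem (mem_centralizer_singleton_iff.2 h2.eq))
    obtain ⟨x, hx, y, hy, hxy⟩ := h.nab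
    rw [← heq] at hx hy
    obtain ⟨x, hx, rfl⟩ := hx
    obtain ⟨y, hy, rfl⟩ := hy
    exact hxy (Commute.map (mem_centralizer_singleton_iff.1 (hab y hy hx)) _)
  · have hi1 : i ≤ 1 := by omega
    interval_cases i <;> omega

theorem n2_B : 49 ∣ ({v : S | v ≠ 1 ∧ Ct z v} \ (P : Set S)).ncard := by
  have := h.finite
  refine n2_dvd_conj P _ ?_ 49 ?_
  · rintro g hg x ⟨⟨hx1, a, ha⟩, hxP⟩
    refine ⟨⟨fun e => hx1 ?_, a * g⁻¹, ?_⟩, fun hm => hxP ?_⟩
    · have : x = g⁻¹ * (g * x * g⁻¹) * g := by group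
      rw [this, e]; simp
    · convert ha using 1
      group
    · have : x = g⁻¹ * (g * x * g⁻¹) * g := by group
      rw [this]
      exact mul_mem (mul_mem (inv_mem hg) hm) hg
  · rintro x ⟨⟨hx1, hx⟩, hxP⟩
    exact h.n2_rel (h.n2_ord hx1 hx) hxP

theorem n2_C : ({v : S | v ≠ 1 ∧ Ct z v} ∩ (P : Set S)).ncard = 6 + 42 * eps P z := by
  have := h.finite
  have key := n2_dc (({v : S | v ≠ 1 ∧ Ct z v} ∩ (P : Set S)) \ (zpowers z : Set S))
    {E | E ∈ Ln P ∧ Es z E} (fun v E => v ∈ E) 1 42 ?_ ?_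
  · have e : ({v : S | v ≠ 1 ∧ Ct z v} ∩ (P : Set S)) ∩ (zpowers z : Set S) =
        (zpowers z : Set S) \ {1} := by
      ext v
      simp only [Set.mem_inter_iff, Set.mem_setOf_eq, SetLike.mem_coe, Set.mem_diff,
        Set.mem_singleton_iff]
      constructor
      · rintro ⟨⟨⟨h1, -⟩, -⟩, h2⟩
        exact ⟨h2, h1⟩
      · rintro ⟨h2, h1⟩
        exact ⟨⟨⟨h1, 1, by simpa using h2⟩, h.zpowers_le h2⟩, h2⟩
    rw [← Set.ncard_inter_add_ncard_diff_eq_ncard _ (zpowers z : Set S), e, h.n2_z6, eps]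
    omega
  · rintro v ⟨⟨⟨hv1, hv⟩, hvP⟩, hvz⟩
    obtain ⟨E, hE, hvE⟩ := h.ln_ex hvP hvz
    rw [Set.ncard_eq_one]
    refine ⟨E, ?_⟩
    ext E'
    simp only [Set.mem_setOf_eq, Set.mem_singleton_iff]
    constructor
    · rintro ⟨⟨hE', -⟩, hvE'⟩
      exact h.ln_eq hE' hE hvE' hvE hvz
    · rintro rfl
      exact ⟨⟨hE, v, hvE, hvz, hv⟩, hvE⟩
  · rintro E ⟨hE, hes⟩
    have e : {a | a ∈ (({v : S | v ≠ 1 ∧ Ct z v} ∩ (P : Set S)) \ (zpowers z : Set S)) ∧ a ∈ E} =
        (E : Set S) \ (zpowers z : Set S) := by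
      ext v
      simp only [Set.mem_inter_iff, Set.mem_setOf_eq, SetLike.mem_coe, Set.mem_diff]
      constructor
      · rintro ⟨⟨-, h2⟩, h1⟩
        exact ⟨h1, h2⟩
      · rintro ⟨h1, h2⟩
        exact ⟨⟨⟨⟨fun e => h2 (e ▸ one_mem _), h.ct_of_es hE hes h1⟩, hE.1 h1⟩, h2⟩, h1⟩
    have hz : (zpowers z : Set S) ⊆ E := zpowers_le_of_mem (h.ln_z hE)
    rw [e, Set.ncard_diff hz, ← Nat.card_coe_set_eq, ← Nat.card_coe_set_eq]
    change Nat.card E - Nat.card (zpowers z) = 42
    rw [hE.2, h.n2_card_z]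

/-- `Ω` = conjugates of `Z = ⟨z⟩`, `|Ω| = |S : N(Z)|` (or count the `6 |Ω|` elements `v ≠ 1` with `Ct z v`). `P` acts by
conjugation; the stabiliser of `Z'` is `C_P(Z')`. If it has order `≥ 49` it contains a line `E` and `Z' ≤ E`
(else `E Z'` is an abelian group of order `343`, conjugate to `P`: `conj_into`). Conversely members of `Ω` inside `P` are `Z`
and the `7` other subgroups of order `7` of each essential line (`ct_of_es`, `ln_eq`, `ln_ex`): `1 + 7 ε` of them. All other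
orbits have length divisible by `49`. -/
theorem index_mod : (NZ z).index ≡ 1 + 7 * eps P z [MOD 49] := by
  have := h.finite
  have e := Set.ncard_inter_add_ncard_diff_eq_ncard {v : S | v ≠ 1 ∧ Ct z v} (P : Set S)
  obtain ⟨c, hc⟩ := h.n2_B
  rw [h.n2_A, h.n2_C, hc] at e
  unfold Nat.ModEq
  omega

/-- Arithmetic: `index_form`, `index_mod`, `|N| · index = |S|`. -/
theorem cand :
    (Nat.card (NZ z) = 343 * 9216 ∧ eps P z % 7 = 0) ∨ (Nat.card (NZ z) = 343 * 256 ∧ eps P z % 7 = 5) ∨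
    (Nat.card (NZ z) = 343 * 1152 ∧ eps P z % 7 = 1) ∨ (Nat.card (NZ z) = 343 * 32 ∧ eps P z % 7 = 6) ∨
    (Nat.card (NZ z) = 343 * 144 ∧ eps P z % 7 = 2) ∨ (Nat.card (NZ z) = 343 * 4 ∧ eps P z % 7 = 0) ∨
    (Nat.card (NZ z) = 343 * 18 ∧ eps P z % 7 = 3) := by
  obtain ⟨a, b, ha, hb, hi⟩ := h.index_form
  have hm := h.index_mod
  have e := (NZ z).card_mul_index
  rw [h.hh.card, hi] at e
  rw [hi] at hm
  unfold Nat.ModEq at hm
  generalize Nat.card (NZ z) = n at e ⊢
  generalize eps P z = t at hm ⊢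
  interval_cases a <;> interval_cases b <;> norm_num at e hm ⊢ <;> omega

end XP

end Cfsg.Agent.ISO
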