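import Cfsg.Agent.ISO.HeN2

set_option autoImplicit false

namespace Cfsg.Agent.ISO

open ISP Subgroup

variable {S : Type*} [Group S]

theorem n3_dc {α β : Type*} [Finite α] [Finite β] (s : Set α) (t : Set β) (r : α → β → Prop) {m n : ℕ}
    (hm : ∀ a ∈ s, {b | b ∈ t ∧ r a b}.ncard = m) (hn : ∀ b ∈ t, {a | a ∈ s ∧ r a b}.ncard = n) :
    s.ncard * m = t.ncard * n := by
  classical
  rw [Set.ncard_eq_toFinset_card s, Set.ncard_eq_toFinset_card t]
  refine Finset.card_mul_eq_card_mul r (fun a ha => ?_) fun b hb => ?_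
  · rw [← hm a (by simpa using ha), ← Set.ncard_coe_finset]
    congr 1
    ext b
    simp [Finset.bipartiteAbove]
  · rw [← hn b (by simpa using hb), ← Set.ncard_coe_finset]
    congr 1
    ext a
    simp [Finset.bipartiteBelow]

theorem n3_free (P : Subgroup S) (T : Set S) (hc : ∀ g ∈ P, ∀ v ∈ T, g * v * g⁻¹ ∈ T)
    (hf : ∀ g ∈ P, ∀ v ∈ T, Commute g v → g = 1) : Nat.card P ∣ T.ncard := by
  let : MulAction P T :=
    { smul := fun g v => ⟨g * v * (g : S)⁻¹, hc g g.2 v v.2⟩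
      one_smul := fun v => Subtype.ext (by
        show ((1 : P) : S) * v * ((1 : P) : S)⁻¹ = v
        simp)
      mul_smul := fun a b v => Subtype.ext (by
        show ((a * b : P) : S) * v * ((a * b : P) : S)⁻¹ = a * (b * v * (b : S)⁻¹) * (a : S)⁻¹
        rw [Subgroup.coe_mul]; group) }
  have e := MulAction.selfEquivOrbitsQuotientProd (G := P) (X := T) fun v => by
    rw [eq_bot_iff]
    intro g hg
    have h1 : (g : S) * v * (g : S)⁻¹ = v := congrArg Subtype.val hg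
    exact Subtype.ext (hf g g.2 v v.2 (mul_inv_eq_iff_eq_mul.1 h1))
  rw [← Nat.card_coe_set_eq, Nat.card_congr e, Nat.card_prod]
  exact Dvd.intro_left _ rfl

theorem n3_zp {a w : S} (ha : orderOf a = 7) (hw : w ∈ zpowers a) (h1 : w ≠ 1) :
    orderOf w = 7 ∧ zpowers w = zpowers a := by
  have h2 : orderOf w = 7 := by
    have := orderOf_dvd_of_mem_zpowers hw
    rw [ha] at this
    exact ((Nat.dvd_prime (by norm_num)).1 this).resolve_left fun e => h1 (orderOf_eq_one_iff.1 e)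
  have : Finite (zpowers a) := Nat.finite_of_card_ne_zero (by rw [Nat.card_zpowers, ha]; norm_num)
  exact ⟨h2, eq_of_le_of_card_ge (zpowers_le_of_mem hw) (by rw [Nat.card_zpowers, Nat.card_zpowers, ha, h2])⟩

theorem n3_sh [Finite S] (H : Subgroup S) : ((H : Set S) \ {1}).ncard + 1 = Nat.card H := by
  rw [Set.ncard_sdiff_singleton_add_one (show (1 : S) ∈ (H : Set S) from one_mem H)]
  rfl

theorem n3_cj (g : S) (T : Set S) : ((fun v => g * v * g⁻¹) ⁻¹' T).ncard = T.ncard :=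
  Set.ncard_preimage_of_injective_subset_range (MulAut.conj g).injective
    fun v _ => (MulAut.conj g).surjective v

theorem n3_ct {z v : S} (hv : Ct z v) (g : S) : Ct z (g * v * g⁻¹) := by
  obtain ⟨k, hk⟩ := hv
  exact ⟨k * g⁻¹, by convert hk using 1; group⟩

/-- the nontrivial conjugates of powers of `z` -/
def n3X (z : S) : Set S := {v | v ≠ 1 ∧ Ct z v}

theorem n3X_cj {z v : S} (g : S) : g * v * g⁻¹ ∈ n3X z ↔ v ∈ n3X z :=
  ⟨fun h => ⟨fun e => h.1 (by simp [e]), by simpa [mul_assoc] using n3_ct h.2 g⁻¹⟩,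
    fun h => ⟨fun e => h.1 (conj_eq_one_iff.1 e), n3_ct h.2 g⟩⟩

namespace XP

variable {P : Subgroup S} {z : S} (h : XP P z)
include h

theorem n3_ord {v : S} (hv : v ∈ n3X z) : orderOf v = 7 := by
  obtain ⟨h1, g, hg⟩ := hv
  rw [← (n3_zp h.zord hg fun e => h1 (conj_eq_one_iff.1 e)).1]
  exact ((MulAut.conj g).orderOf_eq v).symm

theorem n3_six : ((zpowers z : Set S) \ {1}).ncard = 6 := by
  have := h.finite
  have := n3_sh (zpowers z)
  rw [Nat.card_zpowers, h.zord] at this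
  omega

theorem n3_cardX : (n3X z).ncard = 6 * (NZ z).index := by
  have := h.finite
  have h1 := n3_dc (Set.univ : Set S) (n3X z) (fun g v => g * v * g⁻¹ ∈ zpowers z) (m := 6)
    (n := Nat.card (NZ z)) (fun g _ => by
      rw [← h.n3_six, ← n3_cj g (_ \ _)]
      congr 1
      ext v
      exact ⟨fun a => ⟨a.2, fun e => a.1.1 (conj_eq_one_iff.1 e)⟩,
        fun a => ⟨⟨fun e => a.2 (by simp [e]), g, a.1⟩, a.1⟩⟩) (by
      rintro v ⟨h1, k, hk⟩
      have e := (n3_zp h.zord hk fun e => h1 (conj_eq_one_iff.1 e)).2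
      have : {a | a ∈ (Set.univ : Set S) ∧ a * v * a⁻¹ ∈ zpowers z} = (fun a => a * k⁻¹) ⁻¹' (NZ z) := by
        ext a
        have e2 : a * v * a⁻¹ = (a * k⁻¹) * (k * v * k⁻¹) * (a * k⁻¹)⁻¹ := by group
        simp only [Set.mem_ofPred_eq, Set.mem_univ, true_and, Set.mem_preimage, SetLike.mem_coe]
        rw [e2]
        refine ⟨fun ha => mem_normalizer_fintype fun n hn => ?_, fun ha => (mem_normalizer_iff.1 ha _).1 hk⟩
        rw [SetLike.mem_coe, ← e] at hn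
        obtain ⟨i, rfl⟩ := hn
        show _ ∈ zpowers z
        rw [← conj_zpow]
        exact zpow_mem ha i
      rw [this, Set.ncard_preimage_of_injective_subset_range (mul_left_injective k⁻¹)
        fun v _ => mul_right_surjective k⁻¹ v]
      rfl)
  rw [Set.ncard_univ, ← (NZ z).index_mul_card] at h1
  exact Nat.eq_of_mul_eq_mul_right (Nat.card_pos (α := NZ z)) (by rw [← h1]; ring)

theorem n3_cardA : {v | v ∈ P ∧ v ∉ zpowers z ∧ Ct z v}.ncard = 42 * eps P z := by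
  have := h.finite
  have h1 := n3_dc {E | E ∈ Ln P ∧ Es z E} {v | v ∈ P ∧ v ∉ zpowers z ∧ Ct z v} (fun E v => v ∈ E)
    (m := 42) (n := 1) (fun E hE => by
      have e : {b | b ∈ {v | v ∈ P ∧ v ∉ zpowers z ∧ Ct z v} ∧ b ∈ E} = (E : Set S) \ (zpowers z : Set S) := by
        ext v
        exact ⟨fun a => ⟨a.2, a.1.2.1⟩, fun a => ⟨⟨hE.1.1 a.1, a.2, h.ct_of_es hE.1 hE.2 a.1⟩, a.1⟩⟩
      have h2 : (E : Set S).ncard = 49 := hE.1.2
      have h3 : (zpowers z : Set S).ncard = 7 := (Nat.card_zpowers z).trans h.zord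
      rw [e, Set.ncard_sdiff (zpowers_le_of_mem (h.ln_z hE.1)), h2, h3]) (by
      rintro v ⟨a1, a2, a3⟩
      obtain ⟨E, hE, hv⟩ := h.ln_ex a1 a2
      rw [Set.ncard_eq_one]
      refine ⟨E, Set.eq_singleton_iff_unique_mem.2 ⟨⟨⟨hE, v, hv, a2, a3⟩, hv⟩, fun E' b => ?_⟩⟩
      exact h.ln_eq b.1.1 hE b.2 hv a2)
  rw [mul_one] at h1
  rw [← h1, mul_comm]
  rfl

theorem n3_card0 : (n3X z ∩ P).ncard = 6 + 42 * eps P z := by
  have := h.finite
  rw [← h.n3_cardA, ← h.n3_six, ← Set.ncard_union_eq (Set.disjoint_left.2 fun v a b => b.2.1 a.1)]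
  congr 1
  ext v
  constructor
  · rintro ⟨a, b⟩
    by_cases c : v ∈ zpowers z
    · exact Or.inl ⟨c, a.1⟩
    · exact Or.inr ⟨b, c, a.2⟩
  · rintro (a | a)
    · exact ⟨⟨a.2, 1, by simpa using a.1⟩, h.zpowers_le a.1⟩
    · exact ⟨⟨fun e => a.2.1 (e ▸ one_mem _), a.2.2⟩, a.1⟩

theorem n3_key (hN : ∀ E ∈ Ln P, ¬ Es z E → NSl z E)
    (hz : (∃ E ∈ Ln P, Es z E) → centralizer ({z} : Set S) ≤ normalizer (P : Set S)) {v x : S}
    (hv : v ∈ n3X z) (hvP : v ∉ P) (hx : x ∈ P) (h1 : x ≠ 1) (hc : Commute x v) :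
    x ∉ zpowers z ∧ Ct z x := by
  have := h.finite
  have o7 := h.n3_ord hv
  have v7 : v ^ 7 = 1 := by rw [← o7, pow_orderOf_eq_one]
  have hxz : x ∉ zpowers z := by
    intro hxz
    have hzv : v ∈ centralizer ({z} : Set S) := by
      have : z ∈ zpowers x := (n3_zp h.zord hxz h1).2.symm ▸ mem_zpowers z
      obtain ⟨i, rfl⟩ := this
      exact mem_centralizer_singleton_iff.2 (hc.zpow_left i).symm
    by_cases he : ∃ E ∈ Ln P, Es z E
    · exact hvP (h.mem_of_norm (hz he hzv) v7)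
    obtain ⟨c, hc1, hc2⟩ := h.conj_into (Y := centralizer ({z} : Set S)) (Q := zpowers v)
      (fun y hy => mem_centralizer_singleton_iff.2 (h.zcen y hy)) (zpowers_le_of_mem hzv)
      (IsPGroup.of_card (n := 1) (by rw [Nat.card_zpowers, o7, pow_one]))
    have h2 := hc2 v (mem_zpowers v)
    by_cases h3 : c * v * c⁻¹ ∈ zpowers z
    · obtain ⟨i, hi⟩ := h3
      have h4 : Commute c (z ^ i) := (show Commute c z from mem_centralizer_singleton_iff.1 hc1).zpow_right i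
      apply hvP
      have : v = z ^ i := by
        calc v = c⁻¹ * (c * v * c⁻¹) * c := by group
          _ = c⁻¹ * (z ^ i * c) := by rw [← hi, mul_assoc]
          _ = _ := by rw [← h4.eq]; group
      rw [this]
      exact zpow_mem h.zmem i
    · obtain ⟨E, hE, hm⟩ := h.ln_ex h2 h3
      exact he ⟨E, hE, _, hm, h3, n3_ct hv.2 c⟩
  refine ⟨hxz, ?_⟩
  obtain ⟨E, hE, hm⟩ := h.ln_ex hx hxz
  by_cases he : Es z E
  · exact h.ct_of_es hE he hm
  exfalso
  have h2 := h.not_dvd_relIndex hE he hm hxz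
  have hle : E ≤ centralizer ({x} : Set S) := fun y hy =>
    mem_centralizer_singleton_iff.2 (h.ln_comm hE hy hm)
  have := (normal_subgroupOf_iff_le_normalizer hle).2 (hN E hE he x hm hxz)
  have h3 : v ^ E.relIndex (centralizer ({x} : Set S)) ∈ E :=
    (E.subgroupOf (centralizer ({x} : Set S))).pow_index_mem ⟨v, mem_centralizer_singleton_iff.2 hc.symm⟩
  have h4 := (n3_zp o7 (pow_mem (mem_zpowers v) (E.relIndex (centralizer ({x} : Set S))))
    fun e => h2 (o7 ▸ orderOf_dvd_of_pow_eq_one e)).2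
  exact hvP (hE.1 (zpowers_le_of_mem h3 (h4.symm ▸ mem_zpowers v)))

theorem n3_card1 (hN : ∀ E ∈ Ln P, ¬ Es z E → NSl z E)
    (hz : (∃ E ∈ Ln P, Es z E) → centralizer ({z} : Set S) ≤ normalizer (P : Set S)) :
    42 * eps P z * (42 * eps P z - 42) =
      {v | v ∈ n3X z ∧ v ∉ P ∧ ∃ x ∈ P, x ≠ 1 ∧ Commute x v}.ncard * 6 := by
  have := h.finite
  rw [← h.n3_cardA]
  refine n3_dc _ _ (fun x v => Commute x v) ?_ ?_
  · rintro x ⟨a1, a2, g, hg⟩
    obtain ⟨E, hE, hm⟩ := h.ln_ex a1 a2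
    have he : Es z E := ⟨x, hm, a2, g, hg⟩
    have x1 : x ≠ 1 := fun e => a2 (e ▸ one_mem _)
    have ez := (n3_zp h.zord hg fun e => x1 (conj_eq_one_iff.1 e)).2
    have e1 : {v | v ∈ n3X z ∧ Commute x v} = (fun v => g * v * g⁻¹) ⁻¹' (n3X z ∩ P) := by
      ext v
      simp only [Set.mem_ofPred_eq, Set.mem_preimage, Set.mem_inter_iff, n3X_cj, SetLike.mem_coe]
      refine and_congr_right fun hv => ⟨fun c => ?_, fun c => ?_⟩
      · have c1 : Commute (g * x * g⁻¹) (g * v * g⁻¹) := c.map (MulAut.conj g)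
        obtain ⟨i, hi⟩ : z ∈ zpowers (g * x * g⁻¹) := ez.symm ▸ mem_zpowers z
        refine h.mem_of_norm (hz ⟨E, hE, he⟩ (mem_centralizer_singleton_iff.2 ?_)) ?_
        · rw [← hi]; exact (c1.zpow_left i).symm
        · rw [← h.n3_ord ((n3X_cj g).2 hv), pow_orderOf_eq_one]
      · obtain ⟨i, hi⟩ := hg
        have c1 : Commute (g * x * g⁻¹) (g * v * g⁻¹) := by
          rw [← hi]; exact ((h.zcen _ c).zpow_right i).symm
        exact Commute.of_map (MulAut.conj g).injective c1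
    have e2 : {b | b ∈ {v | v ∈ n3X z ∧ v ∉ P ∧ ∃ x ∈ P, x ≠ 1 ∧ Commute x v} ∧ Commute x b} =
        {v | v ∈ n3X z ∧ Commute x v} \ ((E : Set S) \ {1}) := by
      ext v
      constructor
      · rintro ⟨⟨b1, b2, -⟩, b3⟩
        exact ⟨⟨b1, b3⟩, fun c => b2 (hE.1 c.1)⟩
      · rintro ⟨⟨b1, b2⟩, b3⟩
        refine ⟨⟨b1, fun c => b3 ⟨?_, b1.1⟩, x, a1, x1, b2⟩, b2⟩
        rw [← h.ln_cent hE hm a2]
        exact ⟨c, mem_centralizer_singleton_iff.2 b2.symm⟩
    have h3 := n3_sh E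
    rw [hE.2] at h3
    have hs : (E : Set S) \ {1} ⊆ {v | v ∈ n3X z ∧ Commute x v} :=
      fun v c => ⟨⟨c.2, h.ct_of_es hE he c.1⟩, h.ln_comm hE hm c.1⟩
    rw [e2, Set.ncard_sdiff hs, e1, n3_cj, h.n3_card0, h.n3_cardA]
    omega
  · rintro v ⟨a1, a2, x, a3, a4, a5⟩
    have e : {a | a ∈ {v | v ∈ P ∧ v ∉ zpowers z ∧ Ct z v} ∧ Commute a v} =
        ((P ⊓ centralizer ({v} : Set S) : Subgroup S) : Set S) \ {1} := by
      ext y
      constructor
      · rintro ⟨⟨b1, b2, -⟩, b3⟩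
        exact ⟨⟨b1, mem_centralizer_singleton_iff.2 b3⟩, fun e => b2 (by rw [show y = 1 from e]; exact one_mem _)⟩
      · rintro ⟨⟨b1, b2⟩, b3⟩
        have c : Commute y v := mem_centralizer_singleton_iff.1 b2
        exact ⟨⟨b1, h.n3_key hN hz a1 a2 b1 b3 c⟩, c⟩
    have h3 := n3_sh (P ⊓ centralizer ({v} : Set S))
    have hzn : z ∉ P ⊓ centralizer ({v} : Set S) := fun c =>
      (h.n3_key hN hz a1 a2 h.zmem h.z_ne_one (mem_centralizer_singleton_iff.1 c.2)).1 (mem_zpowers z)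
    have h4 : Nat.card (P ⊓ centralizer ({v} : Set S) : Subgroup S) ∣ 7 ^ 3 := by
      have := card_dvd_of_le (inf_le_left : P ⊓ centralizer ({v} : Set S) ≤ P)
      rwa [h.card] at this
    obtain ⟨j, hj, h5⟩ := (Nat.dvd_prime_pow (by norm_num : Nat.Prime 7)).1 h4
    rw [e]
    interval_cases j
    · have : x ∈ P ⊓ centralizer ({v} : Set S) := ⟨a3, mem_centralizer_singleton_iff.2 a5⟩
      rw [eq_bot_of_card_eq _ h5] at this
      exact absurd this a4
    · omega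
    · exact absurd (h.ln_z ⟨inf_le_left, h5⟩) hzn
    · refine absurd ?_ hzn
      rw [eq_of_le_of_card_ge (inf_le_left : P ⊓ centralizer ({v} : Set S) ≤ P) (by rw [h.card, h5]; norm_num)]
      exact h.zmem

/-- The count modulo `343`. `Ω` = conjugates of `Z = ⟨z⟩` (or the `6 |Ω|` elements `v ≠ 1` with `Ct z v`), `P` acts, points
with trivial stabiliser come in orbits of length `343`. `F₀ = {Z' ≤ P}` has `1 + 7 ε` members. Let `Z' ∈ Ω - F₀` be
centralised by `1 ≠ x ∈ P`. `x ∉ Z`: otherwise `Z' ≤ C(z)`; if `ε ≠ 0`, `Z' ≤ N(P)`, `mem_of_norm`; if `ε = 0`, `conj_into` with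
`Y = C(z)` gives `c Z' c⁻¹ ≤ P`, so `= Z`, `Z' = Z`. So `x ∈ E - Z`, `E` a line; `E` nonessential gives `Z' ≤ N(E) ∩ C(x)`, `Z' E` is a
`7`-subgroup of `C(x)`, `Z' ≤ E` (`not_dvd_relIndex`). So `E` is essential, `U = ⟨x⟩ ∈ F₀ - {Z}`, and `C_P(Z') = U`
(it meets `Z` trivially). For `U = g⁻¹ Z g ∈ F₀ - {Z}`: the members of `Ω` in `C(U)` are those in `g⁻¹ P g` (`hz`), `1 + 7 ε` of them,
and those in `P` are the `8` subgroups of `C_P(U) = E`. Total `1 + 7 ε + 7 ε (7 ε - 7)`. -/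
theorem index_mod343 (hN : ∀ E ∈ Ln P, ¬ Es z E → NSl z E)
    (hz : (∃ E ∈ Ln P, Es z E) → centralizer ({z} : Set S) ≤ normalizer (P : Set S)) :
    (NZ z).index + 49 * eps P z ≡ 1 + 7 * eps P z + 49 * eps P z ^ 2 [MOD 343] := by
  have := h.finite
  have h1 := h.n3_card1 hN hz
  obtain ⟨k, h2⟩ := n3_free P {v | v ∈ n3X z ∧ v ∉ P ∧ ¬ ∃ x ∈ P, x ≠ 1 ∧ Commute x v} (by
      rintro g hg v ⟨a1, a2, a3⟩
      refine ⟨(n3X_cj g).2 a1, fun c => a2 ?_, ?_⟩
      · simpa [mul_assoc] using mul_mem (mul_mem (inv_mem hg) c) hg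
      · rintro ⟨x, b1, b2, b3⟩
        refine a3 ⟨g⁻¹ * x * g⁻¹⁻¹, mul_mem (mul_mem (inv_mem hg) b1) (inv_mem (inv_mem hg)),
          fun e => b2 (conj_eq_one_iff.1 e), ?_⟩
        have := b3.map (MulAut.conj g⁻¹)
        simpa [mul_assoc] using this) (by
      rintro g hg v ⟨-, -, a3⟩ c
      by_contra h1
      exact a3 ⟨g, hg, h1, c⟩)
  rw [h.card] at h2
  have h3 : (n3X z).ncard = (n3X z ∩ P).ncard +
      ({v | v ∈ n3X z ∧ v ∉ P ∧ ∃ x ∈ P, x ≠ 1 ∧ Commute x v}.ncard +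
        {v | v ∈ n3X z ∧ v ∉ P ∧ ¬ ∃ x ∈ P, x ≠ 1 ∧ Commute x v}.ncard) := by
    rw [← Set.ncard_union_eq (Set.disjoint_left.2 fun v a b => b.2.2 a.2.2),
      ← Set.ncard_union_eq (Set.disjoint_left.2 fun v a b => b.elim (fun c => c.2.1 a.2) fun c => c.2.1 a.2)]
    congr 1
    ext v
    simp only [Set.mem_union, Set.mem_inter_iff, Set.mem_ofPred_eq, SetLike.mem_coe]
    generalize (∃ x ∈ P, x ≠ 1 ∧ Commute x v) = r
    generalize (v ∈ n3X z) = p
    generalize (v ∈ P) = q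
    tauto
  rw [h.n3_cardX, h.n3_card0, h2] at h3
  generalize {v | v ∈ n3X z ∧ v ∉ P ∧ ∃ x ∈ P, x ≠ 1 ∧ Commute x v}.ncard = c at h1 h3
  generalize eps P z = e at h1 h3 ⊢
  generalize (NZ z).index = n at h3 ⊢
  rcases e with _ | e
  · unfold Nat.ModEq; omega
  · rw [show 42 * (e + 1) - 42 = 42 * e by omega] at h1
    have h4 : (e + 1) ^ 2 = (e + 1) * e + e + 1 := by ring
    have h5 : 42 * (e + 1) * (42 * e) = 1764 * ((e + 1) * e) := by ring
    rw [h4]
    rw [h5] at h1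
    generalize (e + 1) * e = f at h1 ⊢
    unfold Nat.ModEq; omega

/-- Arithmetic: `ε ≤ 8` (`ln_ncard`), `index_form`; no solution. -/
theorem not_ns (hN : ∀ E ∈ Ln P, ¬ Es z E → NSl z E)
    (hz : (∃ E ∈ Ln P, Es z E) → centralizer ({z} : Set S) ≤ normalizer (P : Set S)) : False := by
  have := h.finite
  have h1 := h.index_mod343 hN hz
  obtain ⟨a, b, ha, hb, e⟩ := h.index_form
  have h2 : eps P z ≤ 8 := by
    rw [← h.ln_ncard]
    exact Set.ncard_le_ncard fun E hE => hE.1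
  rw [e] at h1
  have key : ∀ a ≤ 10, ∀ b ≤ 3, ∀ c ≤ 8,
      (425 * 2 ^ a * 3 ^ b + 49 * c) % 343 ≠ (1 + 7 * c + 49 * c ^ 2) % 343 := by decide +kernel
  exact key a ha b hb _ h2 h1

end XP

end Cfsg.Agent.ISO
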