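import Cfsg.Agent.ISO.HeQ

set_option autoImplicit false

namespace Cfsg.Agent.ISO

open ISP Subgroup

variable {S : Type*} [Group S]

/-- `g` acts on `z, v` by the given matrix -/
def N7Ac (z v g : S) (a b c d : ℕ) : Prop :=
  g * z * g⁻¹ = z ^ a * v ^ b ∧ g * v * g⁻¹ = z ^ c * v ^ d

theorem N7Ac.app {z v g : S} {a b c d : ℕ} (hc : Commute z v) (h : N7Ac z v g a b c d) (i j : ℕ) :
    g * (z ^ i * v ^ j) * g⁻¹ = z ^ (a * i + c * j) * v ^ (b * i + d * j) := by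
  rw [← conj_mul, ← conj_pow, ← conj_pow, h.1, h.2, (hc.pow_pow a b).mul_pow, (hc.pow_pow c d).mul_pow,
    ← pow_mul, ← pow_mul, ← pow_mul, ← pow_mul, (hc.symm.pow_pow _ _).mul_mul_mul_comm, pow_add, pow_add]

theorem N7Ac.mul {z v g g' : S} {a b c d a' b' c' d' : ℕ} (hc : Commute z v) (h : N7Ac z v g a b c d)
    (h' : N7Ac z v g' a' b' c' d') :
    N7Ac z v (g * g') (a * a' + c * b') (b * a' + d * b') (a * c' + c * d') (b * c' + d * d') := by
  constructor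
  · rw [← h.app hc, ← h'.1]; group
  · rw [← h.app hc, ← h'.2]; group

theorem N7Ac.md {z v g : S} {a b c d : ℕ} (hz : z ^ 7 = 1) (hv : v ^ 7 = 1) (h : N7Ac z v g a b c d) :
    N7Ac z v g (a % 7) (b % 7) (c % 7) (d % 7) := by
  unfold N7Ac
  rw [← pow_eq_pow_mod a hz, ← pow_eq_pow_mod c hz, ← pow_eq_pow_mod b hv, ← pow_eq_pow_mod d hv]
  exact h

theorem N7Ac.powx {z v g : S} (hc : Commute z v) (h : N7Ac z v g 1 0 1 1) (n : ℕ) :
    N7Ac z v (g ^ n) 1 0 n 1 := by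
  induction n with
  | zero => exact ⟨by simp, by simp⟩
  | succ n ih =>
    have := h.mul hc ih
    rw [pow_succ']
    simpa using this

theorem N7Ac.powy {z v g : S} (hc : Commute z v) (h : N7Ac z v g 1 1 0 1) (n : ℕ) :
    N7Ac z v (g ^ n) 1 n 0 1 := by
  induction n with
  | zero => exact ⟨by simp, by simp⟩
  | succ n ih =>
    have := ih.mul hc h
    rw [pow_succ]
    simpa using this

namespace XP

variable {P : Subgroup S} {z : S} (h : XP P z)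
include h

theorem n7_conj (a : S) {w : S} (hw : a⁻¹ * w * a ∈ zpowers z) (h1 : w ≠ 1) :
    XP (P.map (MulAut.conj a).toMonoidHom) w := by
  refine ⟨h.hh, ?_, ⟨_, h.zpowers_le hw, by simp [mul_assoc]⟩, h.hh.ord_seven (k := 1) ?_ h1, ?_, ?_⟩
  · rw [card_map_of_injective (MulAut.conj a).injective, h.card]
  · have := h.pow_seven (h.zpowers_le hw)
    have e : w = a * (a⁻¹ * w * a) * a⁻¹ := by group
    rw [pow_one, e, conj_pow, this]
    group
  · rintro _ ⟨x, hx, rfl⟩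
    obtain ⟨k, hk⟩ := mem_zpowers_iff.1 hw
    have := ((h.zcen x hx).zpow_right k).eq
    rw [hk] at this
    change a * x * a⁻¹ * w = w * (a * x * a⁻¹)
    calc _ = a * (x * (a⁻¹ * w * a)) * a⁻¹ := by group
      _ = _ := by rw [this]; group
  · obtain ⟨x, hx, y, hy, e⟩ := h.nab
    refine ⟨_, ⟨x, hx, rfl⟩, _, ⟨y, hy, rfl⟩, fun e' => e ?_⟩
    have := e'.eq
    rw [← map_mul, ← map_mul] at this
    exact (MulAut.conj a).injective this

/-- `N(E)` induces `SL₂(7)` on an essential line. `v ∈ E - ⟨z⟩`, `g v g⁻¹ = z ^ k`; `P' ⊇ E` Sylow in `C(v)` (order `343`, `XP P' v`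
holds), so `ln_shift` for `P` and for `P'` gives `x, y ∈ N(E)` with `x v x⁻¹ = v z`, `x z x⁻¹ = z`, `y z y⁻¹ = z v`, `y v y⁻¹ = v`.
On the basis `z, v` these are the elementary matrices; `s = x⁻¹ y x⁻¹` (or a similar word) acts as `(0 ∓1; ±1 0)`, `s² = -1`;
`w(a) = x^a y^(-1/a) x^a` is antidiagonal and `w(a) w(1)⁻¹` is diagonal: `z ↦ z ^ 2`. Use `ln_gen`. -/
theorem sl2 {E : Subgroup S} (hE : E ∈ Ln P) (he : Es z E) :
    (∃ s ∈ normalizer (E : Set S), ∀ e ∈ E, s * s * e * (s * s)⁻¹ = e⁻¹) ∧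
      ∃ d ∈ normalizer (E : Set S), d * z * d⁻¹ = z ^ 2 := by
  have := h.finite
  obtain ⟨v, hv, hvz, g, hg⟩ := he
  have hv1 : v ≠ 1 := fun e => hvz (e ▸ one_mem _)
  have hzE := h.ln_z hE
  have hc : Commute z v := h.ln_comm hE hzE hv
  have h1 := h.n7_conj g⁻¹ (w := v) (by rwa [inv_inv]) hv1
  obtain ⟨c, hc1, hc2⟩ := h1.conj_into (Y := centralizer {v}) (Q := E)
    (fun x hx => mem_centralizer_singleton_iff.2 (h1.zcen x hx).eq)
    (fun x hx => mem_centralizer_singleton_iff.2 (h.ln_comm hE hx hv).eq) (h.isPGroup.to_le hE.1)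
  have h2 := h1.n7_conj c⁻¹ (w := v) (by
    rw [inv_inv, mem_centralizer_singleton_iff.1 hc1, mul_inv_cancel_right]
    exact mem_zpowers v) hv1
  have hE' : E ∈ Ln ((P.map (MulAut.conj g⁻¹).toMonoidHom).map (MulAut.conj c⁻¹).toMonoidHom) :=
    ⟨fun x hx => ⟨_, hc2 x hx, by simp [mul_assoc]⟩, hE.2⟩
  generalize (P.map (MulAut.conj g⁻¹).toMonoidHom).map (MulAut.conj c⁻¹).toMonoidHom = Q at h2 hE'
  have hzv : z ∉ zpowers v := by
    intro e
    rw [eq_of_le_of_card_ge (zpowers_le_of_mem e) (by rw [Nat.card_zpowers, Nat.card_zpowers, h.zord, h2.zord])] at hvz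
    exact hvz (mem_zpowers v)
  obtain ⟨x, hx, ex⟩ := h.ln_shift (hE.1 hv) hvz
  obtain ⟨y, hy, ey⟩ := h2.ln_shift (hE'.1 hzE) hzv
  have hxN := h.ln_norm hE hx
  have hyN := h2.ln_norm hE' hy
  have z7 := h.pow_seven h.zmem
  have v7 := h.pow_seven (hE.1 hv)
  have ax : N7Ac z v x 1 0 1 1 :=
    ⟨by rw [(h.zcen x hx).eq]; simp, by rw [ex, ← hc.eq]; simp⟩
  have ay : N7Ac z v y 1 1 0 1 :=
    ⟨by rw [ey]; simp, by rw [(h2.zcen y hy).eq]; simp⟩
  have a1 : N7Ac z v (x ^ 6 * y * x ^ 6) 0 1 6 0 :=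
    (((ax.powx hc 6).mul hc ay).mul hc (ax.powx hc 6)).md z7 v7
  have n1 : x ^ 6 * y * x ^ 6 ∈ normalizer (E : Set S) :=
    mul_mem (mul_mem (pow_mem hxN 6) hyN) (pow_mem hxN 6)
  generalize x ^ 6 * y * x ^ 6 = s at a1 n1
  have a2 : N7Ac z v (s * s) 6 0 0 6 := (a1.mul hc a1).md z7 v7
  have a3 : N7Ac z v (x ^ 2 * y ^ 3 * x ^ 2 * s) 2 0 0 4 :=
    ((((ax.powx hc 2).mul hc (ay.powy hc 3)).mul hc (ax.powx hc 2)).mul hc a1).md z7 v7
  refine ⟨⟨s, n1, fun e he => ?_⟩, _,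
    mul_mem (mul_mem (mul_mem (pow_mem hxN 2) (pow_mem hyN 3)) (pow_mem hxN 2)) n1, by simpa using a3.1⟩
  obtain ⟨i, j, rfl⟩ := h.ln_gen hE hv hvz he
  rw [← (hc.pow_pow j i).eq, a2.app hc, eq_inv_iff_mul_eq_one, (hc.symm.pow_pow _ _).mul_mul_mul_comm,
    ← pow_add, ← pow_add, show 6 * j + 0 * i + j = 7 * j by ring, show 0 * j + 6 * i + i = 7 * i by ring,
    pow_mul, pow_mul, z7, v7, one_pow, one_pow, one_mul]

end XP

end Cfsg.Agent.ISO
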