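import Cfsg.Agent.ISO.HeN7

set_option autoImplicit false

namespace Cfsg.Agent.ISO

open ISP Subgroup

variable {S : Type*} [Group S]

theorem n8_card {H K : Subgroup S} (h : H ≤ K) : Nat.card H * H.relIndex K = Nat.card K := by
  rw [← relIndex_bot_left, ← relIndex_bot_left]
  exact relIndex_mul_relIndex ⊥ H K bot_le h

theorem n8_conj [Finite S] {p : ℕ} [Fact p.Prime] {A Y Q : Subgroup S} (hA : IsPGroup p A)
    (hi : ¬ p ∣ A.relIndex Y) (hQ : Q ≤ Y) (hp : IsPGroup p Q) :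
    ∃ g ∈ Y, ∀ x ∈ Q, g * x * g⁻¹ ∈ A := by
  have h1 : IsPGroup p (A.subgroupOf Y) := hA.comap_subtype
  obtain ⟨Q', hQ'⟩ := (hp.comap_subtype (K := Y)).exists_le_sylow
  obtain ⟨g, hg⟩ := MulAction.exists_smul_eq Y Q' (h1.toSylow hi)
  refine ⟨g, g.2, fun x hx => ?_⟩
  have a1 : (⟨x, hQ hx⟩ : Y) ∈ (Q' : Subgroup Y) := hQ' hx
  have a2 : g * ⟨x, hQ hx⟩ * g⁻¹ ∈ ((g • Q' : Sylow p Y) : Subgroup Y) := by
    rw [Sylow.coe_subgroup_smul]
    exact smul_mem_pointwise_smul _ (MulAut.conj g) _ a1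
  rw [hg] at a2
  exact a2

theorem n8_nz [Finite S] {n z : S} (h1 : n * z * n⁻¹ ∈ zpowers z) : n ∈ NZ z := by
  refine mem_normalizer_fintype ?_
  rintro _ ⟨k, rfl⟩
  have : n * z ^ k * n⁻¹ = (n * z * n⁻¹) ^ k := conj_zpow.symm
  show n * z ^ k * n⁻¹ ∈ zpowers z
  rw [this]; exact zpow_mem h1 k

theorem n8_odd {E : Subgroup S} {t : S} (hi : ∀ e ∈ E, t * e * t⁻¹ = e⁻¹) {m : ℕ} (hm : Odd m) :
    ∀ e ∈ E, t ^ m * e * (t ^ m)⁻¹ = e⁻¹ := fun e he => by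
  obtain ⟨j, rfl⟩ := hm
  have c : Commute (t ^ 2) e := by
    have : t * (t * e * t⁻¹) * t⁻¹ = e := by rw [hi e he, hi _ (inv_mem he), inv_inv]
    show t ^ 2 * e = e * t ^ 2
    calc t ^ 2 * e = t * (t * e * t⁻¹) * t⁻¹ * t ^ 2 := by rw [sq]; group
      _ = _ := by rw [this]
  calc t ^ (2 * j + 1) * e * (t ^ (2 * j + 1))⁻¹
      = t * ((t ^ 2) ^ j * e * ((t ^ 2) ^ j)⁻¹) * t⁻¹ := by rw [pow_succ', pow_mul]; group
    _ = _ := by rw [(c.pow_left j).eq, mul_inv_cancel_right, hi e he]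

theorem n8_iter {t z : S} {a : ℕ} (h : t * z * t⁻¹ = z ^ a) (n : ℕ) :
    t ^ n * z * (t ^ n)⁻¹ = z ^ a ^ n := by
  induction n with
  | zero => simp
  | succ n ih =>
    calc t ^ (n + 1) * z * (t ^ (n + 1))⁻¹ = t * (t ^ n * z * (t ^ n)⁻¹) * t⁻¹ := by rw [pow_succ']; group
      _ = _ := by rw [ih, ← conj_pow, h, ← pow_mul, pow_succ']

theorem n8_three {t z : S} (hz : orderOf z = 7) (h : t * z * t⁻¹ = z ^ 2) {n : ℕ}
    (c : t ^ n * z * (t ^ n)⁻¹ = z) : 3 ∣ n := by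
  have e : z ^ 2 ^ n = z ^ 1 := by rw [← n8_iter h, c, pow_one]
  rw [pow_eq_pow_iff_modEq, hz] at e
  have e2 : (2 : ZMod 7) ^ n = 1 := by
    simpa using (ZMod.natCast_eq_natCast_iff _ _ _).2 e
  have : Fact (Nat.Prime 3) := ⟨by norm_num⟩
  have o : orderOf (2 : ZMod 7) = 3 := orderOf_eq_prime (by decide) (by decide)
  exact o ▸ orderOf_dvd_of_pow_eq_one e2

namespace XP

variable {P : Subgroup S} {z : S} (h : XP P z)
include h

theorem n8_ex {E : Subgroup S} (hE : E ∈ Ln P) : ∃ x ∈ P, x ∉ E := by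
  have := h.finite
  by_contra k
  push Not at k
  have := card_le_of_le (show P ≤ E from k)
  rw [h.card, hE.2] at this
  omega

theorem n8_pair {E : Subgroup S} (hE : E ∈ Ln P) {t : S} (ht : t ∈ normalizer (P : Set S))
    (hi : ∀ e ∈ E, t * e * t⁻¹ = e⁻¹) :
    t ∈ normalizer (E : Set S) ∧ ∀ x ∈ P, t * x * t⁻¹ * x⁻¹ ∈ E := by
  have := h.finite
  have i6 : ∀ e ∈ E, e⁻¹ = e ^ 6 := fun e he =>
    inv_eq_of_mul_eq_one_right (by rw [← pow_succ']; exact h.pow_seven (hE.1 he))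
  refine ⟨mem_normalizer_fintype fun e he => ?_, fun x hx => h.pair hE ht (a := 6) (by norm_num)
    ((hi z (h.ln_z hE)).trans (i6 z (h.ln_z hE))) (fun e he => ?_) hx⟩
  · rw [hi e he]; exact inv_mem he
  · rw [hi e he, i6 e he, mul_inv_cancel]; exact one_mem _

theorem n8_even {E : Subgroup S} (hE : E ∈ Ln P) {t : S} (hi : ∀ e ∈ E, t * e * t⁻¹ = e⁻¹) :
    2 ∣ orderOf t := by
  by_contra k
  have := n8_odd hi (Nat.not_even_iff_odd.1 fun e => k e.two_dvd) z (h.ln_z hE)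
  rw [pow_orderOf_eq_one, one_mul, inv_one, mul_one, eq_inv_iff_mul_eq_one, ← sq] at this
  have := orderOf_dvd_of_pow_eq_one this
  rw [h.zord] at this
  norm_num at this

/-- `lift` (`Y = ⊤`) of `s * s`: `t₀ ∈ N(P)` inverts `E`; `o(t₀) = 2 ^ k m`, `m` odd, `t = t₀ ^ m` inverts `E`; `pair` (`a = 6`) and
`fix_coset` (`A = E`, `x ∈ P - E`): `t` commutes with an element of order `7`, so `o(t) = 2`. -/
theorem exists_inv {E : Subgroup S} (hE : E ∈ Ln P) (he : Es z E) :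
    ∃ t ∈ normalizer (P : Set S), orderOf t = 2 ∧ ∀ e ∈ E, t * e * t⁻¹ = e⁻¹ := by
  have := h.finite
  obtain ⟨⟨s, hs, ss⟩, -⟩ := h.sl2 hE he
  obtain ⟨t₀, -, h0, e0⟩ := h.lift hE (Y := ⊤) le_top (mem_top (s * s)) (mul_mem hs hs)
    (n8_nz (by rw [ss z (h.ln_z hE)]; exact inv_mem (mem_zpowers z)))
  have i0 : ∀ e ∈ E, t₀ * e * t₀⁻¹ = e⁻¹ := fun e he => (e0 e he).trans (ss e he)
  obtain ⟨k, m, hm, ho⟩ := Nat.exists_eq_two_pow_mul_odd (orderOf_pos t₀).ne'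
  have i1 := n8_odd i0 hm
  have d : orderOf (t₀ ^ m) ∣ 2 ^ k :=
    orderOf_dvd_of_pow_eq_one (by rw [← pow_mul, mul_comm, ← ho, pow_orderOf_eq_one])
  refine ⟨t₀ ^ m, pow_mem h0 m, ?_, i1⟩
  obtain ⟨nE, hp⟩ := h.n8_pair hE (pow_mem h0 m) i1
  obtain ⟨x, hx, xE⟩ := h.n8_ex hE
  obtain ⟨a, ha, c⟩ := fix_coset nE (by
    rw [hE.2]
    exact Nat.Coprime.coprime_dvd_left d (Nat.Coprime.pow_left k (by norm_num))) (hp x hx)
  have o7 : orderOf (a * x) = 7 := h.ord (mul_mem (hE.1 ha) hx) fun e =>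
    xE (by rw [eq_inv_of_mul_eq_one_right e]; exact inv_mem ha)
  have n4 := h.hh.not_dvd_cent o7 c (k := 4) (by norm_num)
  have d2 := h.n8_even hE i1
  obtain ⟨j, -, hj⟩ := (Nat.dvd_prime_pow Nat.prime_two).1 d
  rw [hj] at n4 d2 ⊢
  rcases j with _ | _ | j
  · norm_num at d2
  · rfl
  · exact (n4 ⟨2 ^ j, by ring⟩).elim

/-- `lift` of `d` gives `3 ∣ |N(P)|`; the number `|N(⟨z⟩) : N(P)|` of Sylow `7`-subgroups of `N(⟨z⟩)` is `2 ^ a` or `3 · 2 ^ a`
(`5, 17 ∤`; or use `hc`) and `≡ 1 (mod 7)`, so it is prime to `3`. -/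
theorem nine_dvd {E : Subgroup S} (hE : E ∈ Ln P) (he : Es z E)
    (hc : Nat.card (NZ z) ∣ 343 * 1152) (h9 : 9 ∣ Nat.card (NZ z)) :
    9 ∣ Nat.card (normalizer (P : Set S)) := by
  have := h.finite
  have : Fact (Nat.Prime 7) := ⟨by norm_num⟩
  obtain ⟨-, d, hd, dz⟩ := h.sl2 hE he
  obtain ⟨t, -, h0, e0⟩ := h.lift hE (Y := ⊤) le_top (mem_top d) hd
    (n8_nz (by rw [dz]; exact pow_mem (mem_zpowers z) 2))
  have h3 : 3 ∣ Nat.card (normalizer (P : Set S)) :=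
    (n8_three h.zord ((e0 z (h.ln_z hE)).trans dz) (n := orderOf t)
      (by rw [pow_orderOf_eq_one]; simp)).trans (orderOf_dvd_natCard _ h0)
  have h7 : 343 ∣ Nat.card (normalizer (P : Set S)) := h.card ▸ card_dvd_of_le le_normalizer
  have PZ : P ≤ NZ z := le_normalizer.trans h.norm_le
  have e1 := n8_card h.norm_le
  have hi : ¬ 7 ∣ P.relIndex (NZ z) := fun k => by
    have e := n8_card PZ
    rw [h.card] at e
    have := (Nat.mul_dvd_mul_left 343 k).trans (e ▸ hc)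
    norm_num at this
  have h1 : IsPGroup 7 (P.subgroupOf (NZ z)) := h.isPGroup.comap_subtype
  have m := card_sylow_modEq_one 7 (NZ z)
  rw [Sylow.card_eq_index_normalizer (h1.toSylow hi)] at m
  have m' : (normalizer (P : Set S)).relIndex (NZ z) ≡ 1 [MOD 7] := by
    rw [relIndex, subgroupOf_normalizer_eq PZ]; exact m
  generalize (normalizer (P : Set S)).relIndex (NZ z) = n at e1 m'
  obtain ⟨c, hc'⟩ := Nat.Coprime.mul_dvd_of_dvd_of_dvd (by norm_num : Nat.Coprime 343 3) h7 h3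
  have dn : n ∣ 384 := by
    rw [← e1, hc', show 343 * 1152 = 343 * 3 * 384 by norm_num, mul_assoc] at hc
    exact (Dvd.intro_left c rfl).trans (Nat.dvd_of_mul_dvd_mul_left (by norm_num) hc)
  have co : Nat.Coprime 9 n :=
    (by decide +kernel : ∀ n ∈ Nat.divisors 384, n % 7 = 1 % 7 → Nat.gcd 9 n = 1) n
      (Nat.mem_divisors.2 ⟨dn, by norm_num⟩) m'
  exact co.dvd_of_dvd_mul_right (e1 ▸ h9)

/-- Suppose `w ∈ C(P)` has order `3`. `9 ∤ |C(E)|`: `C(E) ⊴ N(E) ∩ N(⟨z⟩) ∋ d`, the quotient has order divisible by `3`. So `⟨w⟩` is Sylow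
in `C(E)`: `s ⟨w⟩ s⁻¹ = c ⟨w⟩ c⁻¹`, `c ∈ C(E)`, `n = c⁻¹ s` normalises `⟨w⟩`, `n²` centralises `w` and inverts `E`. `lift` with
`Y = C(w)`: `t ∈ C(w) ∩ N(P)` inverts `E`. `o(t)` is even; `g = t` if `3 ∣ o(t)`, else `g = t w`: `6 ∣ o(g)`; `pair` (`a = 6`), `lemX`
with `A = E`. -/
theorem not_three_cent {E : Subgroup S} (hE : E ∈ Ln P) (he : Es z E)
    (h27 : ¬ 27 ∣ Nat.card (NZ z)) : ¬ 3 ∣ Nat.card (centralizer (P : Set S)) := by
  intro h3
  have := h.finite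
  have : Fact (Nat.Prime 3) := ⟨by norm_num⟩
  obtain ⟨⟨w, hw⟩, ow⟩ := exists_prime_orderOf_dvd_card' 3 h3
  have ow : orderOf w = 3 := (orderOf_coe (⟨w, hw⟩ : centralizer (P : Set S))).trans ow
  obtain ⟨⟨s, hs, ss⟩, d, hd, dz⟩ := h.sl2 hE he
  have zE := h.ln_z hE
  have dN : d ∈ NZ z := n8_nz (by rw [dz]; exact pow_mem (mem_zpowers z) 2)
  have h9 : ¬ 9 ∣ Nat.card (centralizer (E : Set S)) := fun k => by
    have k1 : centralizer (E : Set S) ≤ centralizer ((zpowers z : Subgroup S) : Set S) :=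
      centralizer_le (zpowers_le_of_mem zE)
    have k2 := n8_card (centralizer_le_normalizer ((zpowers z : Subgroup S) : Set S))
    have k3 := ((centralizer ((zpowers z : Subgroup S) : Set S)).subgroupOf (NZ z)).pow_index_mem ⟨d, dN⟩
    have k4 : z * d ^ (centralizer ((zpowers z : Subgroup S) : Set S)).relIndex (NZ z) =
        d ^ (centralizer ((zpowers z : Subgroup S) : Set S)).relIndex (NZ z) * z := k3 z (mem_zpowers z)
    have k5 := n8_three h.zord dz (by rw [← k4, mul_inv_cancel_right])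
    exact h27 (k2 ▸ Nat.mul_dvd_mul (k.trans (card_dvd_of_le k1)) k5)
  have wE : w ∈ centralizer (E : Set S) := centralizer_le hE.1 hw
  have cw : Nat.card (zpowers w) = 3 := (Nat.card_zpowers w).trans ow
  have pw : IsPGroup 3 (zpowers w) := IsPGroup.of_card (n := 1) cw
  have sw : s * w * s⁻¹ ∈ centralizer (E : Set S) := fun e he => by
    have := wE _ ((mem_normalizer_iff.1 (inv_mem hs) e).1 he)
    calc e * (s * w * s⁻¹) = s * (s⁻¹ * e * s⁻¹⁻¹ * w) * s⁻¹ := by group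
      _ = _ := by rw [this]; group
  obtain ⟨c, hc, cc⟩ := n8_conj (Y := centralizer (E : Set S)) (Q := zpowers (s * w * s⁻¹)) pw (fun k => h9 (by
      rw [← n8_card (zpowers_le_of_mem wE), cw]
      exact Nat.mul_dvd_mul_left 3 k)) (zpowers_le_of_mem sw)
    (IsPGroup.of_card (n := 1) (by
      rw [Nat.card_zpowers, ← ow, pow_one]
      exact (MulAut.conj s).orderOf_eq w))
  obtain ⟨i, hi⟩ := mem_powers_iff_mem_zpowers.2 (cc _ (mem_zpowers _))
  have nw : c * s * w * (c * s)⁻¹ = w ^ i := by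
    have e : w ^ i = c * (s * w * s⁻¹) * c⁻¹ := hi
    rw [e]; group
  have i3 : ¬ 3 ∣ i := fun k => by
    rw [(orderOf_dvd_iff_pow_eq_one.1 (ow ▸ k) : w ^ i = 1), conj_eq_one_iff] at nw
    rw [nw, orderOf_one] at ow
    omega
  have n2 : (c * s) ^ 2 * w * ((c * s) ^ 2)⁻¹ = w := by
    rw [n8_iter nw 2]
    conv_rhs => rw [← pow_one w]
    rw [pow_eq_pow_iff_modEq, ow, Nat.ModEq, Nat.pow_mod]
    have : i % 3 = 1 ∨ i % 3 = 2 := by omega
    rcases this with e | e <;> rw [e]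
  have nE : c * s ∈ normalizer (E : Set S) := mul_mem (centralizer_le_normalizer _ hc) hs
  have ne : ∀ e ∈ E, c * s * e * (c * s)⁻¹ = s * e * s⁻¹ := fun e he => by
    have := hc _ ((mem_normalizer_iff.1 hs e).1 he)
    calc c * s * e * (c * s)⁻¹ = c * (s * e * s⁻¹) * c⁻¹ := by group
      _ = _ := by rw [← this, mul_inv_cancel_right]
  have ni : ∀ e ∈ E, (c * s) ^ 2 * e * ((c * s) ^ 2)⁻¹ = e⁻¹ := fun e he => by
    calc (c * s) ^ 2 * e * ((c * s) ^ 2)⁻¹ = c * s * (c * s * e * (c * s)⁻¹) * (c * s)⁻¹ := by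
          rw [sq]; group
      _ = s * s * e * (s * s)⁻¹ := by
          rw [ne e he, ne _ ((mem_normalizer_iff.1 hs e).1 he)]; group
      _ = _ := ss e he
  obtain ⟨t, tw, tP, te⟩ := h.lift hE (Y := centralizer ({w} : Set S))
    (fun p hp => mem_centralizer_singleton_iff.2 (hw p hp)) (y := (c * s) ^ 2)
    (mem_centralizer_singleton_iff.2 (mul_inv_eq_iff_eq_mul.1 n2)) (pow_mem nE 2)
    (n8_nz (by rw [ni z zE]; exact inv_mem (mem_zpowers z)))
  have ti : ∀ e ∈ E, t * e * t⁻¹ = e⁻¹ := fun e he => (te e he).trans (ni e he)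
  have key : ∀ g ∈ normalizer (P : Set S), (∀ e ∈ E, g * e * g⁻¹ = e⁻¹) → ¬ 3 ∣ orderOf g :=
    fun g hg gi g3 => by
      obtain ⟨gE, hp⟩ := h.n8_pair hE hg gi
      obtain ⟨x, hx, xE⟩ := h.n8_ex hE
      exact h.lemX (Nat.Coprime.mul_dvd_of_dvd_of_dvd (by norm_num : Nat.Coprime 2 3) (h.n8_even hE gi) g3)
        hE.1 gE hx xE (hp x hx)
  have ct : Commute t w := mem_centralizer_singleton_iff.1 tw
  refine key (t * w) (mul_mem tP (centralizer_le_normalizer _ hw)) (fun e he => ?_) ?_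
  · calc t * w * e * (t * w)⁻¹ = t * (w * e * w⁻¹) * t⁻¹ := by group
      _ = _ := by rw [← wE e he, mul_inv_cancel_right, ti e he]
  · rw [ct.orderOf_mul_eq_mul_orderOf_of_coprime (by
      rw [ow]
      exact ((Nat.Prime.coprime_iff_not_dvd Nat.prime_three).2 (key t tP ti)).symm), ow]
    exact Dvd.intro_left _ rfl

end XP

end Cfsg.Agent.ISO
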