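import Cfsg.Agent.ISO.HeDefs

set_option autoImplicit false
set_option linter.unusedSectionVars false

namespace Cfsg.Agent.ISO

open ISP Subgroup

variable {S : Type*} [Group S]

/-! Structure of `P = 7^{1+2}` (nonabelian of order `343`, exponent `7`: `XP.pow_seven`). -/

theorem hp_lt [Finite S] {A B : Subgroup S} (h : A ≤ B) {x : S} (hB : x ∈ B) (hA : x ∉ A) :
    Nat.card A < Nat.card B :=
  lt_of_le_of_ne (card_le_of_le h) fun e => hA ((eq_of_le_of_card_ge h e.ge).ge hB)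

theorem hp_pow {x u c : S} (e : x * u * x⁻¹ = u * c) (h1 : Commute x c) (n : ℕ) :
    x ^ n * u * (x ^ n)⁻¹ = u * c ^ n := by
  induction n with
  | zero => simp
  | succ n ih =>
    calc x ^ (n + 1) * u * (x ^ (n + 1))⁻¹ = x * (x ^ n * u * (x ^ n)⁻¹) * x⁻¹ := by
          rw [pow_succ']; group
      _ = x * u * x⁻¹ * (x * c ^ n * x⁻¹) := by rw [ih]; group
      _ = u * c ^ (n + 1) := by
          rw [e, (h1.pow_right n).eq, pow_succ']; group

namespace XP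

variable {P : Subgroup S} {z : S} (h : XP P z)
include h

theorem hp_cardZ : Nat.card (zpowers z) = 7 := by rw [Nat.card_zpowers, h.zord]

theorem hp_cases {A : Subgroup S} (hA : A ≤ P) (h7 : 7 < Nat.card A) :
    Nat.card A = 49 ∨ A = P := by
  have := h.finite
  have d := card_dvd_of_le hA
  rw [h.card, show 343 = 7 ^ 3 by norm_num] at d
  obtain ⟨k, hk, e⟩ := (Nat.dvd_prime_pow (by norm_num : Nat.Prime 7)).1 d
  interval_cases k
  · omega
  · omega
  · exact Or.inl e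
  · exact Or.inr (eq_of_le_of_card_ge hA (by rw [e, h.card]; norm_num))

theorem hp_zc {w x : S} (hw : w ∈ zpowers z) (hx : x ∈ P) : Commute x w := by
  obtain ⟨k, rfl⟩ := hw
  exact (h.zcen x hx).zpow_right k

theorem hp_gen {c w : S} (hc : c ∈ zpowers z) (h1 : c ≠ 1) (hw : w ∈ zpowers z) :
    ∃ n : ℕ, c ^ n = w := by
  have := h.finite
  have e : zpowers c = zpowers z := eq_of_le_of_card_ge (zpowers_le_of_mem hc) (by
    rw [h.hp_cardZ, Nat.card_zpowers, h.ord (h.zpowers_le hc) h1])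
  exact mem_powers_iff_mem_zpowers.2 (e.ge hw)

theorem hp_zle (u : S) (hu : u ∈ P) : zpowers z ≤ P ⊓ centralizer ({u} : Set S) := fun _ hw =>
  ⟨h.zpowers_le hw, mem_centralizer_singleton_iff.2 (h.hp_zc hw hu).eq.symm⟩

/-- `Z(P) = ⟨z⟩` (`P / Z(P)` is not cyclic). -/
theorem cen {x : S} (hx : x ∈ P) (hc : ∀ y ∈ P, Commute y x) : x ∈ zpowers z := by
  have := h.finite
  by_contra hn
  obtain ⟨a, ha, b, hb, hab⟩ := h.nab
  have l1 : zpowers z ≤ P ⊓ centralizer (P : Set S) := fun w hw =>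
    ⟨h.zpowers_le hw, fun y hy => (h.hp_zc hw hy).eq⟩
  have c1 := hp_lt l1 (x := x) ⟨hx, fun y hy => (hc y hy).eq⟩ hn
  have l2 : P ⊓ centralizer (P : Set S) ≤ P ⊓ centralizer ({a} : Set S) := fun w hw =>
    ⟨hw.1, mem_centralizer_singleton_iff.2 (hw.2 a ha).symm⟩
  have c2 := hp_lt l2 (x := a) ⟨ha, mem_centralizer_singleton_iff.2 rfl⟩ fun k => hab (k.2 b hb).symm
  have n3 : b ∉ P ⊓ centralizer ({a} : Set S) := fun k =>
    hab (mem_centralizer_singleton_iff.1 k.2).symm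
  rw [h.hp_cardZ] at c1
  rcases h.hp_cases (inf_le_left : P ⊓ centralizer ({a} : Set S) ≤ P) (by omega) with e | e
  · rcases h.hp_cases (inf_le_left : P ⊓ centralizer (P : Set S) ≤ P) c1 with e' | e'
    · omega
    · exact hab ((e'.ge ha).2 b hb).symm
  · exact n3 (e.ge hb)

/-- `P / Z` has order `49`, so is abelian. -/
theorem comm_mem {x y : S} (hx : x ∈ P) (hy : y ∈ P) : x * y * x⁻¹ * y⁻¹ ∈ zpowers z := by
  have := h.finite
  have : Fact (Nat.Prime 7) := ⟨by norm_num⟩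
  have hn : ((zpowers z).subgroupOf P).Normal := ⟨fun w hw g => by
    have e : g * w * g⁻¹ = w := by
      rw [mul_inv_eq_iff_eq_mul]
      exact Subtype.ext (h.hp_zc hw g.2).eq
    rwa [e]⟩
  have c := card_eq_card_quotient_mul_card_subgroup ((zpowers z).subgroupOf P)
  rw [Nat.card_congr (subgroupOfEquivOfLe h.zpowers_le).toEquiv, h.hp_cardZ, h.card] at c
  have k := IsPGroup.isMulCommutative_of_card_eq_prime_sq (p := 7)
    (G := P ⧸ (zpowers z).subgroupOf P) (by omega)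
  have e : ((⟨x, hx⟩ * ⟨y, hy⟩ * ⟨x, hx⟩⁻¹ * ⟨y, hy⟩⁻¹ : P) : P ⧸ (zpowers z).subgroupOf P) = 1 := by
    rw [QuotientGroup.mk_mul, QuotientGroup.mk_mul, QuotientGroup.mk_mul, QuotientGroup.mk_inv,
      QuotientGroup.mk_inv, k.is_comm.comm ((⟨x, hx⟩ : P) : P ⧸ (zpowers z).subgroupOf P)]
    group
  have e' := (QuotientGroup.eq_one_iff _).1 e
  exact e'

theorem norm_le : normalizer (P : Set S) ≤ NZ z := by
  have := h.finite
  intro g hg
  refine mem_normalizer_fintype fun w hw => h.cen ((mem_normalizer_iff.1 hg w).1 (h.zpowers_le hw))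
    fun y hy => ?_
  have e := (h.hp_zc hw ((mem_normalizer_iff.1 (inv_mem hg) y).1 hy)).eq
  calc y * (g * w * g⁻¹) = g * (g⁻¹ * y * g⁻¹⁻¹ * w) * g⁻¹ := by group
    _ = g * w * g⁻¹ * y := by rw [e]; group

theorem hp_comm {E : Subgroup S} (hE : E ∈ Ln P) {a b : S} (ha : a ∈ E) (hb : b ∈ E) :
    Commute a b := by
  have : Fact (Nat.Prime 7) := ⟨by norm_num⟩
  exact congrArg Subtype.val ((IsPGroup.isMulCommutative_of_card_eq_prime_sq (p := 7) (G := E)
    (hE.2.trans (by norm_num))).is_comm.comm ⟨a, ha⟩ ⟨b, hb⟩)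

theorem hp_ne {E : Subgroup S} (hE : E ∈ Ln P) : ∃ u ∈ E, u ∉ zpowers z := by
  have := h.finite
  by_contra! r
  have := card_le_of_le (show E ≤ zpowers z from r)
  rw [hE.2, h.hp_cardZ] at this
  omega

theorem hp_cent {E : Subgroup S} (hE : E ∈ Ln P) {u : S} (hu : u ∈ E) (hz : u ∉ zpowers z) :
    P ⊓ centralizer ({u} : Set S) = E := by
  have := h.finite
  have l : E ≤ P ⊓ centralizer ({u} : Set S) := fun e he =>
    ⟨hE.1 he, mem_centralizer_singleton_iff.2 (h.hp_comm hE he hu).eq⟩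
  have c := card_le_of_le l
  rw [hE.2] at c
  rcases h.hp_cases (inf_le_left : P ⊓ centralizer ({u} : Set S) ≤ P) (by omega) with e | e
  · exact (eq_of_le_of_card_ge l (by rw [e, hE.2])).symm
  · exact absurd (h.cen (hE.1 hu) fun y hy => mem_centralizer_singleton_iff.1 (e.ge hy).2) hz

/-- Otherwise `P = E ⟨z⟩` is abelian. -/
theorem ln_z {E : Subgroup S} (hE : E ∈ Ln P) : z ∈ E := by
  obtain ⟨u, hu, hz⟩ := h.hp_ne hE
  exact (h.hp_cent hE hu hz).le (h.hp_zle u (hE.1 hu) (mem_zpowers z))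

theorem ln_comm {E : Subgroup S} (hE : E ∈ Ln P) {a b : S} (ha : a ∈ E) (hb : b ∈ E) :
    Commute a b :=
  h.hp_comm hE ha hb

theorem ln_norm {E : Subgroup S} (hE : E ∈ Ln P) : P ≤ normalizer (E : Set S) := by
  have := h.finite
  intro x hx
  refine mem_normalizer_fintype fun e he => ?_
  have := mul_mem (zpowers_le_of_mem (h.ln_z hE) (h.comm_mem hx (hE.1 he))) he
  rwa [inv_mul_cancel_right] at this

theorem ln_cent {E : Subgroup S} (hE : E ∈ Ln P) {u : S} (hu : u ∈ E) (hz : u ∉ zpowers z) :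
    P ⊓ centralizer ({u} : Set S) = E :=
  h.hp_cent hE hu hz

theorem hp_ln {u : S} (hu : u ∈ P) (hz : u ∉ zpowers z) : P ⊓ centralizer ({u} : Set S) ∈ Ln P := by
  have := h.finite
  have c := hp_lt (h.hp_zle u hu) (x := u) ⟨hu, mem_centralizer_singleton_iff.2 rfl⟩ hz
  rw [h.hp_cardZ] at c
  rcases h.hp_cases inf_le_left c with e | e
  · exact ⟨inf_le_left, e⟩
  · exact absurd (h.cen hu fun y hy => mem_centralizer_singleton_iff.1 (e.ge hy).2) hz

theorem ln_ex {u : S} (hu : u ∈ P) (hz : u ∉ zpowers z) : ∃ E ∈ Ln P, u ∈ E :=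
  ⟨_, h.hp_ln hu hz, hu, mem_centralizer_singleton_iff.2 rfl⟩

theorem ln_eq {E E' : Subgroup S} (hE : E ∈ Ln P) (hE' : E' ∈ Ln P) {u : S} (hu : u ∈ E)
    (hu' : u ∈ E') (hz : u ∉ zpowers z) : E = E' :=
  (h.ln_cent hE hu hz).symm.trans (h.ln_cent hE' hu' hz)

theorem ln_ne {E : Subgroup S} (hE : E ∈ Ln P) : ∃ u ∈ E, u ∉ zpowers z :=
  h.hp_ne hE

theorem ln_gen {E : Subgroup S} (hE : E ∈ Ln P) {u : S} (hu : u ∈ E) (hz : u ∉ zpowers z) {e : S}
    (he : e ∈ E) : ∃ i j : ℕ, e = u ^ i * z ^ j := by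
  have := h.finite
  have c : Commute u z := h.zcen u (hE.1 hu)
  let F : Subgroup S :=
    { carrier := {e | ∃ i j : ℕ, e = u ^ i * z ^ j}
      one_mem' := ⟨0, 0, by simp⟩
      mul_mem' := by
        rintro _ _ ⟨i, j, rfl⟩ ⟨k, l, rfl⟩
        exact ⟨i + k, j + l, by
          rw [pow_add, pow_add, (c.symm.pow_pow j k).mul_mul_mul_comm]⟩
      inv_mem' := by
        rintro _ ⟨i, j, rfl⟩
        refine ⟨6 * i, 6 * j, inv_eq_of_mul_eq_one_right ?_⟩
        rw [(c.symm.pow_pow j (6 * i)).mul_mul_mul_comm, ← pow_add, ← pow_add,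
          show i + 6 * i = 7 * i by ring, show j + 6 * j = 7 * j by ring, pow_mul, pow_mul,
          h.pow_seven (hE.1 hu), h.pow_seven h.zmem, one_pow, one_pow, one_mul] }
  have l1 : zpowers z ≤ F := zpowers_le_of_mem ⟨0, 1, by simp⟩
  have l2 : F ≤ E := by
    rintro _ ⟨i, j, rfl⟩
    exact mul_mem (pow_mem hu i) (pow_mem (h.ln_z hE) j)
  have c1 := hp_lt l1 (x := u) ⟨1, 0, by simp⟩ hz
  rw [h.hp_cardZ] at c1
  rcases h.hp_cases (l2.trans hE.1) c1 with k | k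
  · exact (eq_of_le_of_card_ge l2 (by rw [k, hE.2])).ge he
  · exact k.ge (hE.1 he)

theorem hp_cm {x u : S} (hx : x ∈ P) (hu : u ∈ P) :
    ∃ c ∈ zpowers z, x * u * x⁻¹ = u * c :=
  ⟨_, h.comm_mem (inv_mem hu) hx, by group⟩

/-- `[x, u] = z ^ c ≠ 1` for `x ∈ P - E`; replace `x` by a power. -/
theorem ln_shift {u : S} (hu : u ∈ P) (hz : u ∉ zpowers z) : ∃ x ∈ P, x * u * x⁻¹ = u * z := by
  obtain ⟨y, hy, hc⟩ : ∃ y ∈ P, ¬ Commute y u := by
    by_contra! r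
    exact hz (h.cen hu r)
  obtain ⟨c, hcz, e⟩ := h.hp_cm hy hu
  obtain ⟨n, hn⟩ := h.hp_gen hcz (fun k => hc (by
    rw [k, mul_one, mul_inv_eq_iff_eq_mul] at e
    exact e)) (mem_zpowers z)
  exact ⟨y ^ n, pow_mem hy n, by rw [hp_pow e (h.hp_zc hcz hy), hn]⟩

/-- Elements of `E - ⟨z⟩` are `P`-conjugate to nontrivial powers of `u`. -/
theorem ln_conj {E : Subgroup S} (hE : E ∈ Ln P) {u v : S} (hu : u ∈ E) (hz : u ∉ zpowers z)
    (hv : v ∈ E) (hv' : v ∉ zpowers z) : ∃ x ∈ P, ∃ i : ℕ, ¬ 7 ∣ i ∧ v = x * u ^ i * x⁻¹ := by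
  obtain ⟨i, j, rfl⟩ := h.ln_gen hE hu hz hv
  have hi : ¬ 7 ∣ i := by
    rintro ⟨k, rfl⟩
    rw [pow_mul, h.pow_seven (hE.1 hu), one_pow, one_mul] at hv'
    exact hv' (pow_mem (mem_zpowers z) j)
  obtain ⟨x, hx, e⟩ := h.ln_shift (hE.1 hu) hz
  obtain ⟨n, hn⟩ := h.hp_gen (pow_mem (mem_zpowers z) i)
    (fun k => hi (h.zord ▸ orderOf_dvd_of_pow_eq_one k)) (pow_mem (mem_zpowers z) j)
  refine ⟨x ^ n, pow_mem hx n, i, hi, ?_⟩
  rw [← conj_pow, hp_pow e (h.zcen x hx), ((h.zcen u (hE.1 hu)).pow_right n).mul_pow, ← hn,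
    ← pow_mul, ← pow_mul, mul_comm n i]

/-- The sets `E - ⟨z⟩` (`42` elements) partition `P - ⟨z⟩` (`336` elements). -/
theorem ln_ncard : (Ln P).ncard = 8 := by
  classical
  have := h.finite
  have := Fintype.ofFinite S
  have cd : ∀ A : Subgroup S, z ∈ A →
      (Finset.univ.filter fun u => u ∈ A ∧ u ∉ zpowers z).card = Nat.card A - 7 := fun A hA => by
    have e : ((Finset.univ.filter fun u => u ∈ A ∧ u ∉ zpowers z : Finset S) : Set S) =
        (A : Set S) \ (zpowers z : Set S) := by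
      ext u
      simp
    rw [← Set.ncard_coe_finset, e, Set.ncard_sdiff (zpowers_le_of_mem hA), ← h.hp_cardZ]
    rfl
  have fin : (Ln P).Finite := Set.toFinite _
  have k := Finset.card_eq_sum_card_fiberwise (f := fun u : S => P ⊓ centralizer ({u} : Set S))
    (s := Finset.univ.filter fun u => u ∈ P ∧ u ∉ zpowers z) (t := fin.toFinset) fun u hu => by
      have hu' := (Finset.mem_filter.1 hu).2
      exact fin.mem_toFinset.2 (h.hp_ln hu'.1 hu'.2)
  rw [cd P h.zmem, h.card, Finset.sum_congr rfl (g := fun _ => 42) fun E hE => by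
    have hE' := fin.mem_toFinset.1 hE
    rw [show 42 = Nat.card E - 7 by rw [hE'.2], ← cd E (h.ln_z hE')]
    congr 1
    ext u
    simp only [Finset.mem_filter, Finset.mem_univ, true_and]
    exact ⟨fun k => ⟨k.2.le ⟨k.1.1, mem_centralizer_singleton_iff.2 rfl⟩, k.1.2⟩,
      fun k => ⟨⟨hE'.1 k.1, k.2⟩, h.ln_cent hE' k.1 k.2⟩⟩, Finset.sum_const, smul_eq_mul] at k
  rw [Set.ncard_eq_toFinset_card _ fin]
  omega

/-- `[x, e] = z ^ c`, `g x g⁻¹ = x ^ b e'`; bilinearity gives `c a = c a b`. -/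
theorem pair {E : Subgroup S} (hE : E ∈ Ln P) {g : S} (hg : g ∈ normalizer (P : Set S)) {a : ℕ}
    (ha : ¬ 7 ∣ a) (hz : g * z * g⁻¹ = z ^ a)
    (he : ∀ e ∈ E, g * e * g⁻¹ * (e ^ a)⁻¹ ∈ zpowers z) {x : S} (hx : x ∈ P) :
    g * x * g⁻¹ * x⁻¹ ∈ E := by
  obtain ⟨u, hu, hu'⟩ := h.ln_ne hE
  have uP := hE.1 hu
  have hx' : g * x * g⁻¹ ∈ P := (mem_normalizer_iff.1 hg x).1 hx
  obtain ⟨c, hc, e⟩ := h.hp_cm hx uP
  obtain ⟨d, hd, e'⟩ := h.hp_cm hx' uP
  have gc : g * c * g⁻¹ = c ^ a := by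
    obtain ⟨k, rfl⟩ := hc
    change g * z ^ k * g⁻¹ = (z ^ k) ^ a
    rw [← conj_zpow, hz, ← zpow_natCast, ← zpow_natCast, ← zpow_mul, ← zpow_mul, mul_comm]
  have hw := he u hu
  generalize hx'' : g * x * g⁻¹ = y at *
  have k1 : y * (g * u * g⁻¹) * y⁻¹ = g * u * g⁻¹ * c ^ a := by
    rw [← gc, ← hx'']
    calc _ = g * (x * u * x⁻¹) * g⁻¹ := by group
      _ = _ := by rw [e]; group
  have k2 : y * (g * u * g⁻¹) * y⁻¹ = g * u * g⁻¹ * d ^ a := by
    have e1 := (h.hp_zc hw hx').eq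
    calc _ = y * (g * u * g⁻¹ * (u ^ a)⁻¹) * y⁻¹ * (y * u ^ a * y⁻¹) := by group
      _ = g * u * g⁻¹ * (u ^ a)⁻¹ * (y * u * y⁻¹) ^ a := by rw [e1, conj_pow]; group
      _ = _ := by rw [e', (h.hp_zc hd uP).mul_pow]; group
  have k3 : c = d := by
    by_contra r
    have k4 : (c * d⁻¹) ^ a = 1 := by
      rw [(h.hp_zc hd (h.zpowers_le hc)).inv_right.mul_pow, inv_pow,
        mul_left_cancel (k1.symm.trans k2), mul_inv_cancel]
    exact ha (h.ord (h.zpowers_le (mul_mem hc (inv_mem hd))) (fun k => r (mul_inv_eq_one.1 k)) ▸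
      orderOf_dvd_of_pow_eq_one k4)
  have k5 : x⁻¹ * y ∈ E := (h.ln_cent hE hu hu').le ⟨P.mul_mem (P.inv_mem hx) hx',
    mem_centralizer_singleton_iff.2 (by
      calc x⁻¹ * y * u = x⁻¹ * (y * u * y⁻¹) * y := by group
        _ = x⁻¹ * (x * u * x⁻¹) * y := by rw [e, e', k3]
        _ = u * (x⁻¹ * y) := by group)⟩
  have := (mem_normalizer_iff.1 (h.ln_norm hE hx) _).1 k5
  rwa [mul_inv_cancel_left] at this

end XP

end Cfsg.Agent.ISO
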