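import Cfsg.Agent.ISO.HeP
import Cfsg.Agent.ISO.HeG

set_option autoImplicit false

namespace Cfsg.Agent.ISO

open ISP Subgroup

variable {S : Type*} [Group S]

/-! Sylow facts for `P`. -/

namespace XP

variable {P : Subgroup S} {z : S} (h : XP P z)
include h

/-- Sylow's theorem inside `Y ≥ P` (`7^4 ∤ |S|`). -/
theorem conj_into {Y Q : Subgroup S} (hY : P ≤ Y) (hQ : Q ≤ Y) (hp : IsPGroup 7 Q) :
    ∃ g ∈ Y, ∀ x ∈ Q, g * x * g⁻¹ ∈ P := by
  haveI := h.finite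
  haveI : Fact (Nat.Prime 7) := ⟨by norm_num⟩
  have hi : ¬ 7 ∣ P.index := by
    have e := P.card_mul_index
    rw [h.card, h.hh.card] at e
    have : P.index = 11750400 := by omega
    rw [this]; norm_num
  have h1 : IsPGroup 7 (P.subgroupOf Y) := h.isPGroup.comap_subtype
  have h2 : ¬ 7 ∣ (P.subgroupOf Y).index := fun d => hi (d.trans (relIndex_dvd_index_of_le hY))
  obtain ⟨Q', hQ'⟩ := (hp.comap_subtype (K := Y)).exists_le_sylow
  obtain ⟨g, hg⟩ := MulAction.exists_smul_eq Y Q' (h1.toSylow h2)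
  refine ⟨g, g.2, fun x hx => ?_⟩
  have a1 : (⟨x, hQ hx⟩ : Y) ∈ (Q' : Subgroup Y) := hQ' hx
  have a2 : g * ⟨x, hQ hx⟩ * g⁻¹ ∈ ((g • Q' : Sylow 7 Y) : Subgroup Y) := by
    rw [Sylow.coe_subgroup_smul]
    exact smul_mem_pointwise_smul _ (MulAut.conj g) _ a1
  rw [hg] at a2
  exact a2

/-- A `7`-element normalising `P` lies in `P`. -/
theorem mem_of_norm {x : S} (hx : x ∈ normalizer (P : Set S)) (h7 : x ^ 7 = 1) : x ∈ P := by
  have hp : IsPGroup 7 (zpowers x) := by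
    rintro ⟨y, k, rfl⟩
    refine ⟨1, Subtype.ext ?_⟩
    show (x ^ k) ^ 7 ^ 1 = 1
    rw [pow_one, ← zpow_natCast, ← zpow_mul, mul_comm, zpow_mul, zpow_natCast, h7, one_zpow]
  obtain ⟨g, hg, hh⟩ := h.conj_into le_normalizer (zpowers_le_of_mem hx) hp
  exact (mem_normalizer_iff.1 hg x).2 (hh x (mem_zpowers x))

/-- A Sylow subgroup `P'` of `C(u)` has order `343` and contains `u` centrally; `g P' g⁻¹ = P`, `cen`. -/
theorem ct_of_dvd {u : S} (hu : orderOf u = 7) (hd : 343 ∣ Nat.card (centralizer ({u} : Set S))) :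
    Ct z u := by
  haveI := h.finite
  haveI : Fact (Nat.Prime 7) := ⟨by norm_num⟩
  obtain ⟨Q0, hQ0⟩ := Sylow.exists_subgroup_card_pow_prime (G := centralizer ({u} : Set S)) 7 (n := 3)
    (by simpa using hd)
  set Q := Q0.map (centralizer ({u} : Set S)).subtype with hQ
  have cQ : Nat.card Q = 343 := by
    rw [hQ, card_map_of_injective (Subgroup.subtype_injective _), hQ0]; norm_num
  have hp : IsPGroup 7 Q := IsPGroup.of_card (n := 3) (by rw [cQ]; norm_num)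
  obtain ⟨g, -, hg⟩ := h.conj_into le_top (le_top : Q ≤ ⊤) hp
  have hle : Q.map (MulAut.conj g).toMonoidHom ≤ P := by
    rintro _ ⟨x, hx, rfl⟩
    exact hg x hx
  have heq : Q.map (MulAut.conj g).toMonoidHom = P := by
    refine eq_of_le_of_card_ge hle ?_
    rw [card_map_of_injective (MulAut.conj g).injective, cQ, h.card]
  have hc : ∀ y ∈ P, Commute y (g * u * g⁻¹) := by
    intro y hy
    rw [← heq] at hy
    obtain ⟨x, ⟨x', -, rfl⟩, rfl⟩ := hy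
    have e : u * (x' : S) = x' * u := x'.2 u rfl
    show g * x' * g⁻¹ * (g * u * g⁻¹) = g * u * g⁻¹ * (g * x' * g⁻¹)
    calc g * x' * g⁻¹ * (g * u * g⁻¹) = g * (x' * u) * g⁻¹ := by group
      _ = g * (u * x') * g⁻¹ := by rw [e]
      _ = _ := by group
  refine ⟨g, h.cen (h.mem_of_norm ?_ ?_) hc⟩
  · refine centralizer_le_normalizer _ ?_
    intro y hy
    exact (hc y hy).eq
  · rw [conj_pow, ← hu, pow_orderOf_eq_one]; group

/-- A nonessential line is Sylow in `C(u)`. -/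
theorem not_dvd_relIndex {E : Subgroup S} (hE : E ∈ Ln P) (hne : ¬ Es z E) {u : S} (hu : u ∈ E)
    (hz : u ∉ zpowers z) : ¬ 7 ∣ E.relIndex (centralizer ({u} : Set S)) := by
  intro hd
  have hle : E ≤ centralizer ({u} : Set S) := by
    intro e he y hy
    rw [Set.mem_singleton_iff.1 hy]
    exact (h.ln_comm hE hu he).eq
  have e := (E.subgroupOf (centralizer ({u} : Set S))).card_mul_index
  rw [Nat.card_congr (subgroupOfEquivOfLe hle).toEquiv, hE.2] at e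
  have h1 : u ≠ 1 := fun e => hz (e ▸ one_mem _)
  refine hne ⟨u, hu, hz, h.ct_of_dvd (h.ord (hE.1 hu) h1) ?_⟩
  rw [← e]
  exact Nat.mul_dvd_mul_left 49 hd

/-- `n z n⁻¹ ∈ E` is conjugate to `z`, so lies in `⟨z⟩`. -/
theorem norm_ln_le {E : Subgroup S} (hE : E ∈ Ln P) (hne : ¬ Es z E) :
    normalizer (E : Set S) ≤ NZ z := by
  haveI := h.finite
  intro n hn
  have h1 : n * z * n⁻¹ ∈ zpowers z := by
    by_contra hc
    refine hne ⟨_, (mem_normalizer_iff.1 hn z).1 (h.ln_z hE), hc, n⁻¹, ?_⟩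
    have : n⁻¹ * (n * z * n⁻¹) * n⁻¹⁻¹ = z := by group
    rw [this]; exact mem_zpowers z
  refine mem_normalizer_fintype ?_
  rintro _ ⟨k, rfl⟩
  have : n * z ^ k * n⁻¹ = (n * z * n⁻¹) ^ k := conj_zpow.symm
  show n * z ^ k * n⁻¹ ∈ zpowers z
  rw [this]; exact zpow_mem h1 k

/-- All elements of an essential line are conjugate into `⟨z⟩` (`ln_conj`). -/
theorem ct_of_es {E : Subgroup S} (hE : E ∈ Ln P) (he : Es z E) {v : S} (hv : v ∈ E) : Ct z v := by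
  obtain ⟨u, hu, hz, g, hg⟩ := he
  by_cases hv' : v ∈ zpowers z
  · exact ⟨1, by simpa using hv'⟩
  obtain ⟨x, -, i, -, rfl⟩ := h.ln_conj hE hu hz hv hv'
  refine ⟨g * x⁻¹, ?_⟩
  have : g * x⁻¹ * (x * u ^ i * x⁻¹) * (g * x⁻¹)⁻¹ = (g * u * g⁻¹) ^ i := by
    rw [conj_pow]; group
  rw [this]; exact pow_mem hg i

/-- Lemma X. `7 ∤ o(g)` (`HH.of_seven_dvd`), `fix_coset` gives `a x ≠ 1` in `P` commuting with `g`,
`HH.not_dvd_cent`. -/
theorem lemX {g x : S} {A : Subgroup S} (h6 : 6 ∣ orderOf g) (hA : A ≤ P)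
    (hgA : g ∈ normalizer (A : Set S)) (hx : x ∈ P) (hxA : x ∉ A) (hc : g * x * g⁻¹ * x⁻¹ ∈ A) :
    False := by
  haveI := h.finite
  have h7 : ¬ 7 ∣ orderOf g := by
    intro d
    rcases h.hh.of_seven_dvd d with d | d <;> have := h6.trans d <;> norm_num at this
  have hco : (orderOf g).Coprime (Nat.card A) := by
    have d : Nat.card A ∣ 7 ^ 3 := by
      have := card_dvd_of_le hA
      rw [h.card] at this; simpa using this
    exact (((Nat.Prime.coprime_iff_not_dvd (by norm_num : Nat.Prime 7)).2 h7).symm.pow_right 3).coprime_dvd_right d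
  obtain ⟨a, ha, hcm⟩ := fix_coset hgA hco hc
  have h1 : a * x ≠ 1 := by
    intro e
    apply hxA
    have : x = a⁻¹ := (inv_eq_of_mul_eq_one_right e).symm
    rw [this]; exact inv_mem ha
  exact h.hh.not_dvd_cent (h.ord (mul_mem (hA ha) hx) h1) hcm (k := 6) (by norm_num) h6

/-- Frattini. `Y' = {c ∈ Y ∩ N(E) | c z c⁻¹ = z, c e c⁻¹ e⁻¹ ∈ ⟨z⟩ (e ∈ E)}` contains `P` and `y P y⁻¹`;
`conj_into`: `c y P y⁻¹ c⁻¹ ≤ P`, `c ∈ Y'`. With `u ∈ E - ⟨z⟩`, `x u x⁻¹ = u z` (`ln_shift`), `c u c⁻¹ = u z ^ i`: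
`c₀ = x⁻¹ ^ i * c` centralises `E` (`ln_gen`), `t = c₀ y`. -/
theorem lift {E Y : Subgroup S} (hE : E ∈ Ln P) (hY : P ≤ Y) {y : S} (hy : y ∈ Y)
    (hyE : y ∈ normalizer (E : Set S)) (hyz : y ∈ NZ z) :
    ∃ t ∈ Y, t ∈ normalizer (P : Set S) ∧ ∀ e ∈ E, t * e * t⁻¹ = y * e * y⁻¹ := by
  haveI := h.finite
  have cz : ∀ {c v : S}, Commute c z → v ∈ zpowers z → c * v * c⁻¹ = v := by
    rintro c _ hc ⟨k, rfl⟩
    show c * z ^ k * c⁻¹ = z ^ k
    rw [(hc.zpow_right k).eq]; group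
  let Y' : Subgroup S :=
    { carrier := {c | c ∈ Y ∧ c ∈ normalizer (E : Set S) ∧ Commute c z ∧
        ∀ e ∈ E, c * e * c⁻¹ * e⁻¹ ∈ zpowers z}
      one_mem' := ⟨one_mem _, one_mem _, Commute.one_left z, fun e _ => by simp⟩
      mul_mem' := by
        rintro c d ⟨c1, c2, c3, c4⟩ ⟨d1, d2, d3, d4⟩
        refine ⟨mul_mem c1 d1, mul_mem c2 d2, c3.mul_left d3, fun e he => ?_⟩
        have : c * d * e * (c * d)⁻¹ * e⁻¹ = c * (d * e * d⁻¹ * e⁻¹) * c⁻¹ * (c * e * c⁻¹ * e⁻¹) := by group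
        rw [this, cz c3 (d4 e he)]
        exact mul_mem (d4 e he) (c4 e he)
      inv_mem' := by
        rintro c ⟨c1, c2, c3, c4⟩
        refine ⟨inv_mem c1, inv_mem c2, c3.inv_left, fun e he => ?_⟩
        have h1 : c⁻¹ * e * c⁻¹⁻¹ ∈ E := (mem_normalizer_iff.1 (inv_mem c2) e).1 he
        have h2 := inv_mem (c4 _ h1)
        have : (c * (c⁻¹ * e * c⁻¹⁻¹) * c⁻¹ * (c⁻¹ * e * c⁻¹⁻¹)⁻¹)⁻¹ = c⁻¹ * e * c⁻¹⁻¹ * e⁻¹ := by group
        rwa [this] at h2 }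
  have hP : P ≤ Y' := fun p hp =>
    ⟨hY hp, h.ln_norm hE hp, h.zcen p hp, fun e he => h.comm_mem hp (hE.1 he)⟩
  have hQ : P.map (MulAut.conj y).toMonoidHom ≤ Y' := by
    rintro _ ⟨p, hp, rfl⟩
    show y * p * y⁻¹ ∈ Y'
    refine ⟨mul_mem (mul_mem hy (hY hp)) (inv_mem hy),
      mul_mem (mul_mem hyE (h.ln_norm hE hp)) (inv_mem hyE), ?_, fun e he => ?_⟩
    · have h1 : y⁻¹ * z * y⁻¹⁻¹ ∈ zpowers z := (mem_normalizer_iff.1 (inv_mem hyz) z).1 (mem_zpowers z)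
      have h2 := cz (h.zcen p hp) h1
      show y * p * y⁻¹ * z = z * (y * p * y⁻¹)
      calc y * p * y⁻¹ * z = y * (p * (y⁻¹ * z * y⁻¹⁻¹) * p⁻¹) * p * y⁻¹ := by group
        _ = _ := by rw [h2]; group
    · have h1 : y⁻¹ * e * y⁻¹⁻¹ ∈ E := (mem_normalizer_iff.1 (inv_mem hyE) e).1 he
      have h2 := (mem_normalizer_iff.1 hyz _).1 (h.comm_mem hp (hE.1 h1))
      have : y * (p * (y⁻¹ * e * y⁻¹⁻¹) * p⁻¹ * (y⁻¹ * e * y⁻¹⁻¹)⁻¹) * y⁻¹ =
          y * p * y⁻¹ * e * (y * p * y⁻¹)⁻¹ * e⁻¹ := by group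
      rwa [this] at h2
  obtain ⟨c, ⟨c1, c2, c3, c4⟩, hc⟩ := h.conj_into hP hQ (h.isPGroup.map _)
  have hcy : c * y ∈ normalizer (P : Set S) := by
    refine mem_normalizer_fintype fun p hp => ?_
    have h1 := hc (y * p * y⁻¹) ⟨p, hp, rfl⟩
    have : c * y * p * (c * y)⁻¹ = c * (y * p * y⁻¹) * c⁻¹ := by group
    rw [this]; exact h1
  obtain ⟨u, hu, hz⟩ := h.ln_ne hE
  obtain ⟨x, hx, hxu⟩ := h.ln_shift (hE.1 hu) hz
  obtain ⟨i, hi⟩ := mem_powers_iff_mem_zpowers.2 (c4 u hu)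
  have huz : Commute u z := h.zcen u (hE.1 hu)
  have hxz : Commute x z := h.zcen x hx
  have hxi : ∀ k : ℕ, x ^ k * u * (x ^ k)⁻¹ = u * z ^ k := by
    intro k
    induction k with
    | zero => simp
    | succ k ih =>
      have : x ^ (k + 1) * u * (x ^ (k + 1))⁻¹ = x * (x ^ k * u * (x ^ k)⁻¹) * x⁻¹ := by
        rw [pow_succ']; group
      rw [this, ih]
      calc x * (u * z ^ k) * x⁻¹ = x * u * x⁻¹ * (x * z ^ k * x⁻¹) := by group
        _ = u * z * z ^ k := by rw [hxu, (hxz.pow_right k).eq]; group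
        _ = _ := by rw [pow_succ']; group
  have hcu : c * u * c⁻¹ = u * z ^ i := by
    have e : z ^ i = c * u * c⁻¹ * u⁻¹ := hi
    rw [(huz.pow_right i).eq, e]; group
  have c0u : Commute ((x ^ i)⁻¹ * c) u := by
    show (x ^ i)⁻¹ * c * u = u * ((x ^ i)⁻¹ * c)
    calc (x ^ i)⁻¹ * c * u = (x ^ i)⁻¹ * (c * u * c⁻¹) * c := by group
      _ = (x ^ i)⁻¹ * (x ^ i * u * (x ^ i)⁻¹) * c := by rw [hcu, hxi]
      _ = _ := by group
  have c0z : Commute ((x ^ i)⁻¹ * c) z := (hxz.pow_left i).inv_left.mul_left c3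
  refine ⟨(x ^ i)⁻¹ * (c * y), mul_mem (inv_mem (hY (pow_mem hx i))) (mul_mem c1 hy),
    mul_mem (inv_mem (le_normalizer (pow_mem hx i))) hcy, fun e he => ?_⟩
  obtain ⟨a, b, hab⟩ := h.ln_gen hE hu hz ((mem_normalizer_iff.1 hyE e).1 he)
  have hcm : Commute ((x ^ i)⁻¹ * c) (y * e * y⁻¹) := by
    rw [hab]; exact (c0u.pow_right a).mul_right (c0z.pow_right b)
  calc (x ^ i)⁻¹ * (c * y) * e * ((x ^ i)⁻¹ * (c * y))⁻¹
      = (x ^ i)⁻¹ * c * (y * e * y⁻¹) * ((x ^ i)⁻¹ * c)⁻¹ := by group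
    _ = _ := by rw [hcm.eq]; group

end XP

end Cfsg.Agent.ISO
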