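import Cfsg.Agent.ISO.HeDefs

set_option autoImplicit false

namespace Cfsg.Agent.ISO

open ISP Subgroup

theorem j2b_mod {H X : Type*} [Group H] [Finite X] [MulAction H X] (m : ℕ) (Y : Set X)
    (hY : ∀ g : H, ∀ x ∈ Y, g • x ∈ Y) (h : ∀ x ∈ Y, m ∣ (MulAction.stabilizer H x).index) :
    m ∣ Y.ncard := by
  induction hn : Y.ncard using Nat.strong_induction_on generalizing Y with
  | _ n ih =>
  rcases Y.eq_empty_or_nonempty with rfl | ⟨x, hx⟩
  · rw [← hn]; simp
  have hO : MulAction.orbit H x ⊆ Y := by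
    rintro _ ⟨g, rfl⟩
    exact hY g x hx
  have e := Set.ncard_sdiff_add_ncard_of_subset hO
  have hpos : 0 < (MulAction.orbit H x).ncard :=
    (Set.ncard_pos (Set.toFinite _)).2 ⟨x, MulAction.mem_orbit_self x⟩
  have h1 : m ∣ (Y \ MulAction.orbit H x).ncard := by
    refine ih _ (by omega) (Y \ MulAction.orbit H x) (fun g y hy => ?_)
      (fun y hy => h y hy.1) rfl
    refine ⟨hY g y hy.1, fun h2 => hy.2 ?_⟩
    obtain ⟨k, hk⟩ := h2
    exact ⟨g⁻¹ * k, by simp only [mul_smul] at hk ⊢; rw [hk, inv_smul_smul]⟩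
  have h2 : m ∣ (MulAction.orbit H x).ncard := by
    rw [← MulAction.index_stabilizer]; exact h x hx
  rw [← hn, ← e]
  exact dvd_add h1 h2

theorem j2b_free {S : Type*} [Group S] [Finite S] (H : Subgroup S) (Y : Set S)
    (hY : ∀ g ∈ H, ∀ x ∈ Y, g * x * g⁻¹ ∈ Y) (h : ∀ x ∈ Y, ∀ g ∈ H, Commute g x → g = 1) :
    Nat.card H ∣ Y.ncard := by
  refine @j2b_mod H S _ _ (MulAction.compHom S ((MulAut.conj (G := S)).comp H.subtype)) _ _
    (fun g x hx => hY g g.2 x hx) (fun x hx => ?_)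
  have h2 : @MulAction.stabilizer H S _
      (MulAction.compHom S ((MulAut.conj (G := S)).comp H.subtype)) x = ⊥ := by
    rw [eq_bot_iff]
    intro g hg
    have h3 : (g : S) * x * (g : S)⁻¹ = x := hg
    exact mem_bot.2 (Subtype.ext (h x hx g g.2 (mul_inv_eq_iff_eq_mul.1 h3)))
  rw [h2, index_bot]

theorem j2b_cube {Q : Type*} [Group Q] (hQ : Nat.card Q = 27) (h9 : ∀ g : Q, g ^ 9 = 1) {x : Q}
    (hx : orderOf x = 9) : {g : Q | g ^ 3 ≠ 1}.ncard = 18 := by
  haveI : Finite Q := Nat.finite_of_card_ne_zero (by omega)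
  have hi : (zpowers x).index = 3 := by
    have := (zpowers x).card_mul_index
    rw [Nat.card_zpowers, hx, hQ] at this
    omega
  haveI : (zpowers x).Normal := normal_of_index_eq_minFac_card (by rw [hi, hQ]; norm_num)
  have hmem : ∀ g ∈ zpowers x, ∃ i < 9, x ^ i = g := fun g hg => by
    obtain ⟨i, rfl⟩ := (mem_powers_iff_mem_zpowers.2 hg : g ∈ Submonoid.powers x)
    exact ⟨i % 9, Nat.mod_lt _ (by norm_num), by rw [← hx, pow_mod_orderOf]⟩
  have hcb : ∀ y : Q, y ^ 3 ∈ zpowers x := fun y => hi ▸ (zpowers x).pow_index_mem y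
  have hpe : ∀ i j : ℕ, x ^ i = x ^ j ↔ i % 9 = j % 9 := fun i j => by
    rw [pow_eq_pow_iff_modEq, hx]; rfl
  have h3 : ∀ y : Q, y ^ 3 = x ^ 0 ∨ y ^ 3 = x ^ 3 ∨ y ^ 3 = x ^ 6 := fun y => by
    obtain ⟨i, hi9, e⟩ := hmem _ (hcb y)
    have e1 : x ^ (i * 3) = x ^ 0 := by rw [pow_mul, e, ← pow_mul, pow_zero]; exact h9 y
    rw [hpe] at e1
    rw [← e, hpe, hpe, hpe]
    omega
  have hmul : ∀ y : Q, (y * x) ^ 3 = x ^ 3 * y ^ 3 := fun y => by
    obtain ⟨k, hk9, e⟩ := hmem _ (Normal.conj_mem inferInstance x (mem_zpowers x) y)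
    have e2 : y * (y * x * y⁻¹) * y⁻¹ = x ^ (k * k) := by
      rw [← e, ← conj_pow, ← e, pow_mul]
    have e3 : y * (y * (y * x * y⁻¹) * y⁻¹) * y⁻¹ = x ^ (k * (k * k)) := by
      rw [e2, ← conj_pow, ← e, ← pow_mul]
    have e4 : y * (y * (y * x * y⁻¹) * y⁻¹) * y⁻¹ = x ^ 1 := by
      obtain ⟨i, -, e5⟩ := hmem _ (hcb y)
      calc _ = y ^ 3 * x * (y ^ 3)⁻¹ := by simp only [pow_succ, pow_zero, one_mul]; group
        _ = x ^ 1 := by rw [← e5]; group
    have e5 := (hpe _ _).1 (e3.symm.trans e4)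
    calc (y * x) ^ 3 = (y * x * y⁻¹) * (y * (y * x * y⁻¹) * y⁻¹) *
          (y * (y * (y * x * y⁻¹) * y⁻¹) * y⁻¹) * y ^ 3 := by
          simp only [pow_succ, pow_zero, one_mul]; group
      _ = x ^ (k + k * k + 1) * y ^ 3 := by rw [e4, e2, ← e, pow_add, pow_add]
      _ = x ^ 3 * y ^ 3 := by
          congr 1
          rw [hpe]
          interval_cases k <;> omega
  have hle : ∀ i j : ℕ, (3 + i) % 9 = j % 9 →
      {g : Q | g ^ 3 = x ^ i}.ncard ≤ {g : Q | g ^ 3 = x ^ j}.ncard := fun i j hij =>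
    Set.ncard_le_ncard_of_injOn (fun g => g * x) (fun g hg => by
      change (g * x) ^ 3 = x ^ j
      rw [hmul, show g ^ 3 = x ^ i from hg, ← pow_add, hpe, hij])
      (fun a _ b _ e => mul_right_cancel e)
  have a1 := hle 0 3 rfl
  have a2 := hle 3 6 rfl
  have a3 := hle 6 0 rfl
  have b1 : {g : Q | g ^ 3 ≠ 1} = {g : Q | g ^ 3 = x ^ 3} ∪ {g : Q | g ^ 3 = x ^ 6} := by
    ext g
    simp only [Set.mem_ofPred_eq, Set.mem_union]
    constructor
    · intro hg
      rcases h3 g with e | e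
      · exact absurd (e.trans (pow_zero x)) hg
      · exact e
    · rintro (e | e) <;> rw [e, ← pow_zero x, Ne, hpe] <;> omega
  have b2 : Disjoint {g : Q | g ^ 3 = x ^ 3} {g : Q | g ^ 3 = x ^ 6} :=
    Set.disjoint_left.2 fun g e1 e2 => by
      have := (hpe _ _).1 ((show g ^ 3 = x ^ 3 from e1).symm.trans e2)
      omega
  have b3 := Set.ncard_add_ncard_compl {g : Q | g ^ 3 = x ^ 0}
  have b4 : {g : Q | g ^ 3 = x ^ 0}ᶜ = {g : Q | g ^ 3 ≠ 1} := by
    ext g; simp
  rw [b4, hQ] at b3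
  have b5 := Set.ncard_union_eq b2
  rw [← b1] at b5
  omega

/-- `P` has order `27`, exponent `9`; `P / Z(P)` abelian of exponent `3`..., `x ↦ x ^ 3` is a homomorphism `P → P` (class `≤ 2`, commutators of order `∣ 3`)
whose image is nontrivial of exponent `3` and whose kernel contains the image; the set `X` of elements of order `9` of `P` has `27 - |ker| = 18` elements
(`|ker| ∈ {3, 9}`, `|ker| = 3` gives `|im| = 9 ≤ |ker|`). For a prime `r ≠ 3` a Sylow `r`-subgroup of `N(P)` acts freely on `X` (no order `9 r`), so its order divides `18`: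
`|N(P)| ∈ {27, 54}`; `n₃ ∈ {22400, 11200}` and `22400 ≡ 2 (mod 3)`. -/
theorem j2_norm {S : Type*} [Group S] (hS : Nat.card S = 604800)
    (h9 : ∀ g : S, 9 ∣ orderOf g → orderOf g = 9) (h9' : Om S 9) (P : Sylow 3 S) :
    Nat.card (normalizer ((P : Subgroup S) : Set S)) = 54 := by
  haveI : Finite S := Nat.finite_of_card_ne_zero (by omega)
  haveI : Fact (Nat.Prime 3) := ⟨Nat.prime_three⟩
  have hP : Nat.card (P : Subgroup S) = 27 := by
    rw [P.card_eq_multiplicity, hS, show 604800 = 3 ^ 3 * 22400 by norm_num,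
      Nat.factorization_mul (by norm_num) (by norm_num), Nat.Prime.factorization_pow (by norm_num),
      Finsupp.add_apply, Finsupp.single_eq_same, Nat.factorization_eq_zero_of_not_dvd (by norm_num)]
    norm_num
  have hord : ∀ g ∈ (P : Subgroup S), g ^ 3 = 1 ∨ orderOf g = 9 := fun g hg => by
    have h1 : orderOf g ∣ 3 ^ 3 := by
      have := Subgroup.orderOf_dvd_natCard _ hg
      rwa [hP] at this
    obtain ⟨i, hi, e⟩ := (Nat.dvd_prime_pow Nat.prime_three).1 h1
    by_cases h2 : 2 ≤ i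
    · exact Or.inr (h9 g (e ▸ pow_dvd_pow 3 h2))
    · refine Or.inl (orderOf_dvd_iff_pow_eq_one.1 ?_)
      rw [e]
      interval_cases i <;> norm_num
  obtain ⟨x, hxP, hx⟩ : ∃ x ∈ (P : Subgroup S), orderOf x = 9 := by
    obtain ⟨y, hy⟩ := h9'
    obtain ⟨Q, hQ⟩ := (IsPGroup.of_card (p := 3) (G := zpowers y) (n := 2)
      (by rw [Nat.card_zpowers, hy]; norm_num)).exists_le_sylow
    obtain ⟨g, rfl⟩ := MulAction.exists_smul_eq S Q P
    refine ⟨MulAut.conj g y, ?_, by rw [MulEquiv.orderOf_eq, hy]⟩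
    rw [Sylow.coe_subgroup_smul]
    exact Subgroup.smul_mem_pointwise_smul _ _ _ (hQ (mem_zpowers y))
  have hc := j2b_cube hP (fun g => Subtype.ext (by
    rcases hord g g.2 with e | e
    · change (g : S) ^ (3 * 3) = 1
      rw [pow_mul, e, one_pow]
    · change (g : S) ^ 9 = 1
      rw [← e, pow_orderOf_eq_one])) (x := ⟨x, hxP⟩) (by rw [← Subgroup.orderOf_coe]; exact hx)
  have hX : {g : S | g ∈ (P : Subgroup S) ∧ g ^ 3 ≠ 1}.ncard = 18 := by
    rw [← hc, ← Set.ncard_image_of_injective _ (P : Subgroup S).subtype_injective]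
    congr 1
    ext g
    constructor
    · rintro ⟨h1, h2⟩
      exact ⟨⟨g, h1⟩, fun e => h2 (congrArg Subtype.val e), rfl⟩
    · rintro ⟨a, h2, rfl⟩
      exact ⟨a.2, fun e => h2 (Subtype.ext e)⟩
  set N := normalizer ((P : Subgroup S) : Set S) with hN
  have key : ∀ r n : ℕ, r.Prime → r ≠ 3 → r ^ n ∣ Nat.card N → r ^ n ∣ 18 := by
    intro r n hr hr3 hd
    haveI := Fact.mk hr
    obtain ⟨R, hR⟩ := Sylow.exists_subgroup_card_pow_prime (G := N) r hd
    have hRc : Nat.card (R.map N.subtype) = r ^ n := by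
      rw [card_map_of_injective N.subtype_injective, hR]
    rw [← hX, ← hRc]
    refine j2b_free _ _ (fun g hg y hy => ⟨(mem_normalizer_iff.1 (map_subtype_le R hg) y).1 hy.1,
      fun e => hy.2 ?_⟩) (fun y hy g hg hgy => ?_)
    · rw [conj_pow] at e
      simpa using e
    · have h1 := (hord y hy.1).resolve_left hy.2
      have h2 : orderOf g ∣ r ^ n := hRc ▸ Subgroup.orderOf_dvd_natCard _ hg
      have h3 : (orderOf g).Coprime (orderOf y) := by
        rw [h1]
        exact Nat.Coprime.coprime_dvd_left h2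
          (Nat.Coprime.pow n 2 ((Nat.coprime_primes hr Nat.prime_three).2 hr3))
      have h4 := hgy.orderOf_mul_eq_mul_orderOf_of_coprime h3
      have h5 := h9 (g * y) (by rw [h4, h1]; exact Dvd.intro_left _ rfl)
      rw [h4, h1] at h5
      exact orderOf_eq_one_iff.1 (by omega)
  have h2 : Nat.card N * Nat.card (Sylow 3 S) = 604800 := by
    rw [P.card_eq_index_normalizer, ← hS]; exact N.card_mul_index
  obtain ⟨e, he⟩ : 27 ∣ Nat.card N := hP ▸ card_dvd_of_le le_normalizer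
  have hm : Nat.card (Sylow 3 S) % 3 = 1 := card_sylow_modEq_one 3 S
  have h5 : ¬ 5 ∣ e := fun h => by
    have := key 5 1 (by norm_num) (by norm_num) (he ▸ Dvd.dvd.mul_left (by simpa using h) _)
    omega
  have h7 : ¬ 7 ∣ e := fun h => by
    have := key 7 1 (by norm_num) (by norm_num) (he ▸ Dvd.dvd.mul_left (by simpa using h) _)
    omega
  have h4 : ¬ 4 ∣ e := fun h => by
    have := key 2 2 (by norm_num) (by norm_num) (he ▸ Dvd.dvd.mul_left (by simpa using h) _)
    omega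
  have h3 : e * Nat.card (Sylow 3 S) = 2 ^ 7 * 7 * 5 ^ 2 := by
    rw [he] at h2
    linarith
  have h6 : e ∣ 2 ^ 7 := by
    have a1 : e ∣ 2 ^ 7 * 7 * 5 ^ 2 := ⟨_, h3.symm⟩
    have a2 := Nat.Coprime.dvd_of_dvd_mul_right (Nat.Coprime.pow_right 2
      ((Nat.Prime.coprime_iff_not_dvd (by norm_num)).2 h5).symm) a1
    exact Nat.Coprime.dvd_of_dvd_mul_right
      ((Nat.Prime.coprime_iff_not_dvd (by norm_num)).2 h7).symm a2
  obtain ⟨i, hi, rfl⟩ := (Nat.dvd_prime_pow Nat.prime_two).1 h6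
  rw [he]
  interval_cases i <;> omega

end Cfsg.Agent.ISO
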