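import Cfsg.Agent.ISO.Defs
import Cfsg.Agent.Misc.Zsigmondy

set_option autoImplicit false

namespace Cfsg.Agent.ISO

open ISP

theorem top_mod {q : ℕ} (hq : q % 2 = 1) (m : ℕ) :
    (q : ℤ) ^ m % 4 = 1 ∨ ((q : ℤ) ^ m % 4 = 3 ∧ m % 2 = 1) := by
  have h1 : (q : ℤ) ^ 2 ≡ 1 [ZMOD 4] := by
    obtain ⟨k, rfl⟩ : ∃ k, q = 2 * k + 1 := ⟨q / 2, by omega⟩
    exact (Int.modEq_iff_dvd.2 ⟨-((k : ℤ) ^ 2 + k), by push_cast; ring⟩)
  have h2 := h1.pow (m / 2)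
  rw [one_pow, ← pow_mul] at h2
  rcases Nat.mod_two_eq_zero_or_one m with h | h
  · rw [show 2 * (m / 2) = m by omega] at h2
    exact Or.inl h2
  · have h3 := h2.mul_right (q : ℤ)
    rw [← pow_succ, show 2 * (m / 2) + 1 = m by omega, one_mul] at h3
    unfold Int.ModEq at h3
    omega

theorem top_od {Q : ℤ} {r k : ℕ} (hk : 0 < k) (h1 : (r : ℤ) ∣ Q ^ k - 1)
    (h2 : ∀ j, j < k → 0 < j → ¬ (r : ℤ) ∣ Q ^ j - 1) : Od Q r k := by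
  have e : ∀ j : ℕ, (r : ℤ) ∣ Q ^ j - 1 ↔ (Q : ZMod r) ^ j = 1 := fun j => by
    rw [← ZMod.intCast_zmod_eq_zero_iff_dvd]
    push_cast
    exact sub_eq_zero
  have h3 : orderOf (Q : ZMod r) = k :=
    (orderOf_eq_iff hk).2 ⟨(e k).1 h1, fun m hm h0 h => h2 m hm h0 ((e m).2 h)⟩
  intro j
  rw [e, ← h3, orderOf_dvd_iff_pow_eq_one]

/-- `ε = 0`: `q` even: `(n, -1)`, except `(3, 1)` for `q = 2, n = 3`; `q` odd: `(n, -1)` if `q^n % 4 = 1`, else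
`q ^ n % 4 = 3`, `n` odd, `(n, 1)`. `ε = ±1`: `q` even: `(n-1, -1)`, except `(3, 1)` for `q = 2, n = 4`; `q` odd:
if `(q^n - ε) % 4 = 2` take `(n, ε)` (`n` is odd if `ε = 1`), else `(n - 1, δ)` with `(q^(n-1) - δ) % 4 = 2`. -/
theorem exists_top {n q : ℕ} {ε : ℤ} (par : Par n q ε) :
    ∃ d δ, Top n q ε d δ ∧ 3 ≤ lv d δ ∧ ¬ (q = 2 ∧ lv d δ = 6) := by
  have l1 : ∀ d, lv d 1 = d := fun d => if_pos rfl
  have l2 : ∀ d, lv d (-1) = 2 * d := fun d => if_neg (by norm_num)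
  obtain ⟨hq, ⟨rfl, hn, hn2⟩ | ⟨he, hn⟩⟩ := par
  · rcases Nat.mod_two_eq_zero_or_one q with h | h
    · by_cases c : q = 2 ∧ n = 3
      · exact ⟨3, 1, ⟨Or.inr ⟨rfl, rfl⟩, Or.inl h, Or.inl ⟨c.2.symm, Or.inl rfl⟩⟩, by rw [l1],
          by rw [l1]; omega⟩
      · exact ⟨n, -1, ⟨Or.inl rfl, Or.inl h, Or.inl ⟨rfl, Or.inl rfl⟩⟩, by rw [l2]; omega,
          by rw [l2]; omega⟩
    · rcases top_mod h n with k | k
      · exact ⟨n, -1, ⟨Or.inl rfl, Or.inr (by omega), Or.inl ⟨rfl, Or.inl rfl⟩⟩, by rw [l2]; omega,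
          by omega⟩
      · exact ⟨n, 1, ⟨Or.inr ⟨rfl, k.2⟩, Or.inr (by omega), Or.inl ⟨rfl, Or.inl rfl⟩⟩,
          by rw [l1]; omega, by omega⟩
  · have e0 : ε ≠ 0 := by omega
    rcases Nat.mod_two_eq_zero_or_one q with h | h
    · by_cases c : q = 2 ∧ n = 4
      · exact ⟨3, 1, ⟨Or.inr ⟨rfl, rfl⟩, Or.inl h, Or.inr ⟨c.2.symm, e0, Or.inl h⟩⟩, by rw [l1],
          by rw [l1]; omega⟩
      · exact ⟨n - 1, -1, ⟨Or.inl rfl, Or.inl h, Or.inr ⟨by omega, e0, Or.inl h⟩⟩, by rw [l2]; omega,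
          by rw [l2]; omega⟩
    · have k0 := top_mod h n
      by_cases c : ((q : ℤ) ^ n - ε) % 4 = 2
      · rcases he with rfl | rfl
        · exact ⟨n, 1, ⟨Or.inr ⟨rfl, by omega⟩, Or.inr c, Or.inl ⟨rfl, Or.inr rfl⟩⟩,
            by rw [l1]; omega, by omega⟩
        · exact ⟨n, -1, ⟨Or.inl rfl, Or.inr c, Or.inl ⟨rfl, Or.inr rfl⟩⟩, by rw [l2]; omega, by omega⟩
      · have c' : ((q : ℤ) ^ n - ε) % 4 = 0 := by omega
        rcases top_mod h (n - 1) with k | k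
        · exact ⟨n - 1, -1, ⟨Or.inl rfl, Or.inr (by omega), Or.inr ⟨by omega, e0, Or.inr c'⟩⟩,
            by rw [l2]; omega, by omega⟩
        · exact ⟨n - 1, 1, ⟨Or.inr ⟨rfl, k.2⟩, Or.inr (by omega), Or.inr ⟨by omega, e0, Or.inr c'⟩⟩,
            by rw [l1]; omega, by omega⟩

/-- Zsigmondy (`Misc.Zsig.zsigmondy`). -/
theorem exists_od {q l : ℕ} (hq : 2 ≤ q) (hl : 3 ≤ l) (h6 : ¬ (q = 2 ∧ l = 6)) :
    ∃ r : ℕ, r.Prime ∧ Od q r l := by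
  obtain ⟨r, hr, h1, h2⟩ := Misc.Zsig.zsigmondy (a := q) (n := l) (by omega) (by omega) h6 (by omega)
  have e : ∀ j : ℕ, (r : ℤ) ∣ (q : ℤ) ^ j - 1 ↔ r ∣ q ^ j - 1 := fun j => by
    rw [← Int.natCast_dvd_natCast, Nat.cast_sub (Nat.one_le_pow _ _ (by omega))]
    push_cast
    rfl
  exact ⟨r, hr, top_od (by omega) ((e l).2 h1) fun j hj h0 h => h2 j h0 hj ((e j).1 h)⟩

/-- A prime with `Od q r l`, `l ≥ 2`, is odd (`2 ∣ q - 1` or `2 ∣ q`; in the second case `2 ∤ q^l - 1`). -/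
theorem ne_two_of_od {q r l : ℕ} (h : Od q r l) (hl : 2 ≤ l) : r ≠ 2 := by
  rintro rfl
  rcases Nat.mod_two_eq_zero_or_one q with k | k
  · have h1 := (h l).2 dvd_rfl
    have h2 : ((2 : ℕ) : ℤ) ∣ (q : ℤ) ^ l :=
      dvd_pow (Int.natCast_dvd_natCast.2 (Nat.dvd_of_mod_eq_zero k)) (by omega)
    have h3 := dvd_sub h2 h1
    norm_num at h3
  · have h1 := Nat.le_of_dvd one_pos ((h 1).1 (by rw [pow_one]; push_cast; omega))
    omega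

/-- `r ^ c ∣ q ^ (2d) - 1 = (q^d - 1)(q^d + 1)` and `r ∤ q ^ d - 1`. -/
theorem Top.pow_dvd {n q d r c : ℕ} {ε δ : ℤ} (h : Top n q ε d δ) (hd : 0 < d) (hr : r.Prime)
    (ho : Od q r (lv d δ)) (hc : (r : ℤ) ^ c ∣ (q : ℤ) ^ lv d δ - 1) :
    (r : ℤ) ^ c ∣ (q : ℤ) ^ d - δ := by
  rcases h.1 with rfl | ⟨rfl, -⟩
  · rw [lv, if_neg (by norm_num)] at ho hc
    rw [show (q : ℤ) ^ (2 * d) - 1 = ((q : ℤ) ^ d - 1) * ((q : ℤ) ^ d - -1) by ring] at hc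
    refine (Nat.prime_iff_prime_int.1 hr).pow_dvd_of_dvd_mul_left c (fun k => ?_) hc
    have := Nat.le_of_dvd hd ((ho d).1 k)
    omega
  · rwa [lv, if_pos rfl] at hc

/-- Decidable criterion for `Od`. -/
theorem od_of {Q : ℤ} {r k : ℕ} (hk : 0 < k) (h1 : (r : ℤ) ∣ Q ^ k - 1)
    (h2 : ∀ j, j < k → 0 < j → ¬ (r : ℤ) ∣ Q ^ j - 1) : Od Q r k := by
  exact top_od hk h1 h2

variable {W : ℕ → Prop} {p n q : ℕ} {ε : ℤ}

/-- The primitive prime powers are element orders (`Top.pow_dvd`, `SO.low`; `d > 0` since `lv d δ ≥ 2`). -/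
theorem SO.om_pow (h : SO W p n q ε) {d r c : ℕ} {δ : ℤ} (ht : Top n q ε d δ) (hl : 2 ≤ lv d δ)
    (hr : r.Prime) (ho : Od q r (lv d δ)) (hc : (r : ℤ) ^ c ∣ (q : ℤ) ^ lv d δ - 1) :
    W (r ^ c) := by
  have hd : 0 < d := by
    unfold lv at hl
    split_ifs at hl <;> omega
  refine h.low d δ _ hd (ht.1.elim Or.inr fun k => Or.inl k.1)
    (ht.2.2.elim Or.inr fun k => Or.inl (by omega))
    (hr.odd_of_ne_two (ne_two_of_od ho hl)).pow ?_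
  push_cast
  exact ht.pow_dvd hd hr ho hc

/-- `SO.nadj` without the ordering of `η`. -/
theorem SO.not_adj (h : SO W p n q ε) {r s k l : ℕ} (hr : r.Prime) (hs : s.Prime) (hr2 : r ≠ 2)
    (hs2 : s ≠ 2) (hrp : ¬ r ∣ q) (hsp : ¬ s ∣ q) (hrs : r ≠ s) (hk : Od q r k) (hl : Od q s l)
    (h1 : eta k ≤ n) (h2 : eta l ≤ n) (h3 : n < eta k + eta l) (h4 : ¬ (k ∣ l ∧ (l / k) % 2 = 1))
    (h5 : ¬ (l ∣ k ∧ (k / l) % 2 = 1)) : ¬ W (r * s) := by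
  obtain ⟨f, hf, hq⟩ := h.hq
  have pq : p ∣ q := hq ▸ dvd_pow_self p hf.ne'
  have rp : r ≠ p := fun e => hrp (e ▸ pq)
  have sp : s ≠ p := fun e => hsp (e ▸ pq)
  have e0 : eta 0 = 0 := rfl
  intro hW
  rcases le_total (eta k) (eta l) with c | c
  · rcases h.nadj r s k l hr hs hr2 hs2 rp sp hrs hk hl c h2 hW with a | ⟨t, ht, a⟩
    · omega
    · rcases Nat.eq_zero_or_pos k with rfl | k0
      · rw [a, zero_mul, e0] at h3
        omega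
      · exact h4 ⟨⟨t, a⟩, by rw [a, Nat.mul_div_cancel_left _ k0]; exact Nat.odd_iff.1 ht⟩
  · rcases h.nadj s r l k hs hr hs2 hr2 sp rp hrs.symm hl hk c h1 (mul_comm r s ▸ hW) with a | ⟨t, ht, a⟩
    · omega
    · rcases Nat.eq_zero_or_pos l with rfl | k0
      · rw [a, zero_mul, e0] at h3
        omega
      · exact h5 ⟨⟨t, a⟩, by rw [a, Nat.mul_div_cancel_left _ k0]; exact Nat.odd_iff.1 ht⟩

end Cfsg.Agent.ISO
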