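import Cfsg.Agent.ISO.Defs
import Cfsg.Agent.Misc.Zsigmondy
import Cfsg.Agent.ISO.Top
import Cfsg.Agent.ISO.NumC

set_option autoImplicit false

namespace Cfsg.Agent.ISO

open ISP Misc.Zsig

theorem nmPr_prime : ∀ r ∈ nmPr, r.Prime ∧ r ≤ 71 := by
  intro r hr
  simp only [nmPr, List.mem_cons, List.not_mem_nil, or_false] at hr
  rcases hr with h | h | h | h | h | h | h | h | h | h | h | h | h | h | h | h | h | h <;>
    subst h <;> norm_num

theorem nm_dvd_prod {P : List (ℕ × ℕ)} {x : ℕ × ℕ} (h : x ∈ P) : x.1 ^ x.2 ∣ nmProd P := by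
  induction P with
  | nil => simp at h
  | cons y t ih =>
    rcases List.mem_cons.1 h with rfl | h
    · exact Dvd.intro _ rfl
    · exact (ih h).mul_left _

theorem nm_dvd_rad {P : List (ℕ × ℕ)} {r : ℕ} (hr : r.Prime) (h : r ∣ nmRad P) :
    ∃ x ∈ P, r ∣ x.1 := by
  induction P with
  | nil => exact absurd (Nat.dvd_one.1 h) hr.ne_one
  | cons y t ih =>
    rcases (Nat.Prime.dvd_mul hr).1 h with h | h
    · exact ⟨y, List.mem_cons_self, h⟩
    · obtain ⟨x, hx, e⟩ := ih h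
      exact ⟨x, List.mem_cons_of_mem _ hx, e⟩

theorem nm_mem_divs {P : List (ℕ × ℕ)} (hP : ∀ x ∈ P, x.1.Prime) {N : ℕ} (h : N ∣ nmProd P) :
    N ∈ nmDivs P := by
  induction P generalizing N with
  | nil => simpa [nmDivs, nmProd] using h
  | cons y t ih =>
    obtain ⟨a, b, ha, hb, rfl⟩ := (Nat.dvd_mul).1 h
    obtain ⟨i, hi, rfl⟩ := (Nat.dvd_prime_pow (hP y List.mem_cons_self)).1 ha
    exact List.mem_flatMap.2 ⟨i, List.mem_range.2 (by omega),
      List.mem_map.2 ⟨b, ih (fun x hx => hP x (List.mem_cons_of_mem _ hx)) hb, rfl⟩⟩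

theorem nm_dvd_X {q j m : ℕ} (h0 : 0 < j) (h : j ≤ m) : q ^ j - 1 ∣ nmX q m := by
  induction m with
  | zero => omega
  | succ m ih =>
    rcases Nat.lt_or_ge m j with h1 | h1
    · obtain rfl : j = m + 1 := by omega
      exact Dvd.intro _ rfl
    · exact (ih h1).mul_left _

theorem nm_lp {N : ℕ} {f : ℕ → Bool} {k q0 : ℕ} (h : nmLp N f k q0 = true) {q : ℕ} (hq : q0 ≤ q)
    (hN : (q - 1) ^ 4 < N) : f q = true := by
  induction k generalizing q0 with
  | zero => simp [nmLp] at h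
  | succ k ih =>
    simp only [nmLp, Bool.or_eq_true, Bool.and_eq_true, Nat.ble_eq] at h
    rcases h with h | ⟨h1, h2⟩
    · have : (q0 - 1) ^ 4 ≤ (q - 1) ^ 4 := Nat.pow_le_pow_left (by omega) 4
      omega
    · rcases eq_or_lt_of_le hq with rfl | hlt
      · exact h1
      · exact ih h2 hlt

theorem nm_rt {x s t : ℕ} {f : ℕ → Bool} (h : nmRt x s f = true) (ht : t * t = x) : f t = true := by
  simp only [nmRt, Bool.or_eq_true, Bool.and_eq_true, Nat.ble_eq, Nat.blt_eq, bne_iff_ne] at h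
  obtain ⟨⟨h1, h2⟩, h3⟩ := h
  have e : s = t := by
    have a1 : s ≤ t := Nat.mul_self_le_mul_self_iff.1 (ht ▸ h1)
    have a2 : t < s + 1 := Nat.mul_self_lt_mul_self_iff.1 (ht ▸ h2)
    omega
  subst e
  exact h3.resolve_left fun h => h ht

/-- The facts on the list of prime powers. -/
structure NmP (T : ℕ) (P : List (ℕ × ℕ)) : Prop where
  pr : ∀ x ∈ P, x.1.Prime ∧ x.1 ≤ 71 ∧ x.1 ∣ T
  ex : ∀ r c : ℕ, r.Prime → r ∣ T → r ^ c ∣ DD T → ∃ x ∈ P, x.1 = r ∧ c ≤ x.2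

theorem nmP_of {T a : ℕ} {P : List (ℕ × ℕ)} (h : nmA (T, a, P) = true) : NmP T P := by
  simp only [nmA, Bool.and_eq_true, beq_iff_eq, List.all_eq_true, decide_eq_true_eq,
    bne_iff_ne] at h
  obtain ⟨⟨⟨h1, h2⟩, h3⟩, h4⟩ := h
  have hf : T.factorization 2 = a := by
    obtain ⟨m, rfl⟩ := Nat.dvd_of_mod_eq_zero h1
    rw [Nat.mul_div_cancel_left _ (by positivity)] at h2
    have hm : m ≠ 0 := by omega
    rw [Nat.factorization_mul (by positivity) hm, Nat.Prime.factorization_pow Nat.prime_two]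
    simp [Nat.factorization_eq_zero_of_not_dvd (show ¬ 2 ∣ m by omega)]
  refine ⟨fun x hx => ⟨(nmPr_prime _ (h4 x hx).1.1).1, (nmPr_prime _ (h4 x hx).1.1).2,
    Nat.dvd_of_mod_eq_zero (h4 x hx).1.2⟩, fun r c hr hT hc => ?_⟩
  obtain ⟨x, hx, e⟩ := nm_dvd_rad hr
    (hr.dvd_of_dvd_pow (hT.trans (Nat.dvd_of_mod_eq_zero h3)))
  have e' : r = x.1 := (Nat.prime_dvd_prime_iff_eq hr (nmPr_prime _ (h4 x hx).1.1).1).1 e
  refine ⟨x, hx, e'.symm, ?_⟩
  by_contra hlt
  apply (h4 x hx).2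
  rw [DD, hf, e'] at hc
  exact Nat.mod_eq_zero_of_dvd ((pow_dvd_pow _ (by omega)).trans hc)

theorem nm_cast {q l : ℕ} (hq : 2 ≤ q) : ((q ^ l - 1 : ℕ) : ℤ) = (q : ℤ) ^ l - 1 := by
  rw [Nat.cast_sub (Nat.one_le_pow _ _ (by omega))]; simp

theorem nm_od {q l r : ℕ} (hq : 2 ≤ q) (hl : 0 < l) (h : IsPPD q l r) : Od q r l :=
  od_of hl (by rw [← nm_cast hq]; exact_mod_cast h.2.1) fun j hj h0 hd =>
    h.2.2 j h0 hj (by rw [← nm_cast hq] at hd; exact_mod_cast hd)

theorem NmP.prim {T q l r c : ℕ} {P : List (ℕ × ℕ)} (h : NmP T P) (hp : PrimIn T q l) (hq : 2 ≤ q)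
    (hl : 0 < l) (hr : IsPPD q l r) (hc : 0 < c) (hd : r ^ c ∣ q ^ l - 1) :
    ∃ x ∈ P, x.1 = r ∧ c ≤ x.2 := by
  obtain ⟨a, b⟩ := hp r c hr.1 (nm_od hq hl hr) hc (by rw [← nm_cast hq]; exact_mod_cast hd)
  exact h.ex r c hr.1 a b

theorem NmP.ct {T q l : ℕ} {P : List (ℕ × ℕ)} (h : NmP T P) (hp : PrimIn T q l) (hq : 2 ≤ q)
    (hl : 0 < l) : nmCt P q l = true := by
  simp only [nmCt, Bool.or_eq_true, beq_iff_eq, Nat.ble_eq]
  rcases Nat.lt_or_ge (q ^ l - 1) (2 ^ 256) with hlt | hge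
  swap
  · exact Or.inr hge
  left
  have hM : 0 < q ^ l - 1 := by
    have := Nat.one_lt_pow hl.ne' (show 1 < q by omega)
    omega
  have key : q ^ l - 1 ∣ nmProd P * nmX q (l - 1) ^ 256 := by
    rw [Nat.dvd_iff_prime_pow_dvd_dvd]
    intro r c hr hc
    rcases Nat.eq_zero_or_pos c with rfl | hc0
    · simp
    by_cases hj : ∃ j, 0 < j ∧ j < l ∧ r ∣ q ^ j - 1
    · obtain ⟨j, h0, h1, h2⟩ := hj
      have hc2 : c ≤ 256 := by
        have a1 : 2 ^ c ≤ r ^ c := Nat.pow_le_pow_left hr.two_le c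
        have a2 : r ^ c ≤ q ^ l - 1 := Nat.le_of_dvd hM hc
        exact ((Nat.pow_lt_pow_iff_right (by norm_num : 1 < 2)).1 (by omega)).le
      exact (((pow_dvd_pow r hc2).trans
        (pow_dvd_pow_of_dvd (h2.trans (nm_dvd_X h0 (by omega))) 256))).mul_left _
    · obtain ⟨x, hx, rfl, e⟩ := h.prim hp hq hl
        ⟨hr, (dvd_pow_self r hc0.ne').trans hc, fun k a b d => hj ⟨k, a, b, d⟩⟩ hc0 hc
      exact ((pow_dvd_pow _ e).trans (nm_dvd_prod hx)).mul_right _
  have : nmProd P * (nmX q (l - 1) % (q ^ l - 1)) ^ 256 ≡ nmProd P * nmX q (l - 1) ^ 256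
      [MOD q ^ l - 1] := ((Nat.mod_modEq _ _).pow 256).mul_left _
  rw [this]
  exact Nat.mod_eq_zero_of_dvd key

theorem NmP.phi_dvd {T q l : ℕ} {P : List (ℕ × ℕ)} (h : NmP T P) (hp : PrimIn T q l) (hq : 2 ≤ q)
    (hl : 3 ≤ l) : phi l q ∣ l * nmProd (nmF P l) := by
  rw [Nat.dvd_iff_prime_pow_dvd_dvd]
  intro r c hr hc
  rcases Nat.eq_zero_or_pos c with rfl | hc0
  · simp
  by_cases hrl : r ∣ l
  · have : c = 1 := by
      by_contra hne
      exact not_sq_dvd_phi (by omega) (by omega) hr hrl ((pow_dvd_pow r (by omega)).trans hc)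
    subst this
    simpa using hrl.mul_right _
  · have pp := isPPD_of_not_dvd (by omega) (by omega : 1 < q) hr
      ((dvd_pow_self r hc0.ne').trans hc) hrl
    obtain ⟨x, hx, rfl, e⟩ := h.prim hp hq (by omega) pp hc0 (hc.trans (Misc.Zsig.phi_dvd (by omega)))
    have hm : x.1 % l = 1 := by
      obtain ⟨k, hk⟩ := pp.dvd_sub_one (by omega) (by omega)
      have := hr.two_le
      rw [show x.1 = 1 + l * k by omega, Nat.add_mul_mod_self_left, Nat.mod_eq_of_lt (by omega)]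
    exact ((pow_dvd_pow _ e).trans (nm_dvd_prod (List.mem_filter.2 ⟨hx, by simpa using hm⟩))).mul_left _

theorem nm_phi3 {q : ℕ} (hq : 2 ≤ q) : phi 3 q = q ^ 2 + q + 1 := by
  have := phi_cast 3 (show 1 < q by omega)
  rw [Polynomial.cyclotomic_three] at this
  simp only [Polynomial.eval_add, Polynomial.eval_pow, Polynomial.eval_X, Polynomial.eval_one] at this
  exact_mod_cast this

theorem nm_phi4 (q : ℕ) : phi 4 q = q ^ 2 + 1 := by
  rw [show 4 = 2 * 2 from rfl, phi_mul_of_dvd Nat.prime_two dvd_rfl, phi_two]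

theorem nm_phi6 (q : ℕ) : phi 6 q + q = q ^ 2 + 1 := by
  have := phi_mul_of_not_dvd (n := 2) (a := q) Nat.prime_three (by norm_num)
  rw [phi_two, phi_two] at this
  apply Nat.eq_of_mul_eq_mul_right (show 0 < q + 1 by omega)
  rw [add_mul, show (6 : ℕ) = 2 * 3 from rfl, this]
  ring

theorem nm_tot : ∀ i < 66, i ≠ 1 → 4 ≤ (i + 5).totient := by decide +kernel

theorem NmP.chk {T a q l : ℕ} {P : List (ℕ × ℕ)} (h : NmP T P) (hB : nmB (T, a, P) = true)
    (hC : nmC (T, a, P) = true) (hp : PrimIn T q l) (hq : 2 ≤ q) (hl : 3 ≤ l)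
    (h6 : ¬ (q = 2 ∧ l = 6)) : nmChk T P l q = true := by
  have hd := h.phi_dvd hp hq hl
  have hF : ∀ l, ∀ x ∈ (2, 2) :: (3, 1) :: nmF P l, x.1.Prime := by
    intro l x hx
    rcases List.mem_cons.1 hx with rfl | hx
    · exact Nat.prime_two
    rcases List.mem_cons.1 hx with rfl | hx
    · exact Nat.prime_three
    exact (h.pr x (List.mem_filter.1 hx).1).1
  have hm : l ∣ 12 → phi l q ∈ nmDivs ((2, 2) :: (3, 1) :: nmF P l) := fun h12 =>
    nm_mem_divs (hF l) (hd.trans (by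
      rw [show nmProd ((2, 2) :: (3, 1) :: nmF P l) = 12 * nmProd (nmF P l) by
        simp only [nmProd]; ring]
      exact Nat.mul_dvd_mul_right h12 _))
  simp only [nmC, Bool.and_eq_true, List.all_eq_true] at hC
  obtain ⟨⟨c3, c4⟩, c6⟩ := hC
  by_cases e3 : l = 3
  · subst e3
    have := nm_rt (c3 _ (hm (by norm_num))) (t := 2 * q + 1) (by
      rw [nm_phi3 hq, show 4 * (q ^ 2 + q + 1) = (2 * q + 1) * (2 * q + 1) + 3 by ring]; simp)
    simpa using this
  by_cases e4 : l = 4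
  · subst e4
    exact nm_rt (c4 _ (hm (by norm_num))) (t := q) (by rw [nm_phi4, sq]; simp)
  by_cases e6 : l = 6
  · subst e6
    obtain ⟨m, rfl⟩ : ∃ m, q = m + 1 := ⟨q - 1, by omega⟩
    have e : phi 6 (m + 1) = m ^ 2 + m + 1 := by
      have := nm_phi6 (m + 1)
      nlinarith
    have := nm_rt (c6 _ (hm (by norm_num))) (t := 2 * m + 1) (by
      rw [e, show 4 * (m ^ 2 + m + 1) = (2 * m + 1) * (2 * m + 1) + 3 by ring]; simp)
    rwa [show (2 * m + 1 + 1) / 2 = m + 1 by omega] at this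
  obtain ⟨r, hr⟩ := zsigmondy (a := q) (n := l) (by omega) (by omega) h6 (by omega)
  obtain ⟨x, hx, rfl, -⟩ := h.prim hp hq (by omega) hr one_pos (by simpa using hr.2.1)
  have l1 := hr.lt (by omega) (by omega)
  have l2 := (h.pr x hx).2.1
  obtain ⟨i, rfl⟩ : ∃ i, l = i + 5 := ⟨l - 5, by omega⟩
  simp only [nmB, List.all_eq_true, Bool.or_eq_true, beq_iff_eq, List.mem_range] at hB
  refine nm_lp ((hB i (by omega)).resolve_left (by omega)) hq ?_
  have hpos : 0 < (i + 5) * nmProd (nmF P (i + 5)) := by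
    refine Nat.mul_pos (by omega) ?_
    have : ∀ L : List (ℕ × ℕ), (∀ y ∈ L, y.1.Prime) → 0 < nmProd L := by
      intro L hL
      induction L with
      | nil => exact one_pos
      | cons y t ih =>
        exact Nat.mul_pos (pow_pos (hL y List.mem_cons_self).pos _)
          (ih fun z hz => hL z (List.mem_cons_of_mem _ hz))
    exact this _ fun y hy => (h.pr y (List.mem_filter.1 hy).1).1
  calc (q - 1) ^ 4 ≤ (q - 1) ^ (i + 5).totient :=
        Nat.pow_le_pow_right (by omega) (nm_tot i (by omega) (by omega))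
    _ < phi (i + 5) q := lt_phi (by omega) (by omega)
    _ ≤ _ := Nat.le_of_dvd hpos hd

/-- THE SIEVE (checked by program: the survivors are exactly `surv`).
Take `(d, δ)` from `exists_top` (file `ISO/Top`), `l = lv d δ ≥ 3`. `k = phi l q / gcd (phi l q, l)`
(`Misc.Zsig`): every prime of `k` is a primitive prime `r ≡ 1 (mod l)`, divides `T` (so `r ≤ 71`, `l ≤ 70`),
and its power in `q^l - 1` divides `DD T`; so `phi l q ∣ l * B(T,l)`, `B(T,l)` = the part of `DD T` made of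
the primes `r ∣ T` with `r % l = 1`; `(q-1)^φ(l) < phi l q` bounds `q` (small when `φ(l) ≥ 4`; for
`l = 3, 4, 6` run over the divisors `N` of `l B`: `q²+q+1 = N`, `q²+1 = N`, `q²-q+1 = N`). This leaves about
400 triples `(T, l, q)`; `n ∈ {d, d+1}` and `ε` are then finite; test: `q` a prime power, every prime of `T`
divides `q * ordL n q ε`, and the same divisibility `phi l' q ∣ l' * DD T` for ALL `(d', δ')` in `Top`. -/
theorem sieve {T p n q : ℕ} {ε : ℤ} (hT : Spo T) (hp : p.Prime) (hq : ∃ f, 0 < f ∧ q = p ^ f)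
    (par : Par n q ε) (h1 : ∀ d δ, Top n q ε d δ → PrimIn T q (lv d δ))
    (h2 : ∀ r : ℕ, r.Prime → r ∣ T → r = p ∨ (r : ℤ) ∣ ordL n q ε) : (T, n, q, ε) ∈ surv := by
  obtain ⟨⟨T', a, P⟩, he, rfl⟩ := List.mem_map.1 (nmTab_fst ▸ hT : T ∈ nmTab.map (·.1))
  have hP := nmP_of (List.all_eq_true.1 nmTab_A _ he)
  obtain ⟨d, δ, ht, hl, h6⟩ := exists_top par
  have q2 := par.1
  have c := hP.chk (List.all_eq_true.1 nmTab_B _ he) (List.all_eq_true.1 nmTab_C _ he)
    (h1 d δ ht) q2 hl h6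
  simp only [nmChk, hP.ct (h1 d δ ht) q2 (by omega), Bool.not_true, Bool.false_or,
    List.all_eq_true] at c
  have hd : d ∈ [lv d δ, lv d δ / 2] := by
    unfold lv
    split_ifs <;> simp
  have hn : n ∈ [d, d + 1] := by
    rcases ht.2.2 with ⟨e, -⟩ | ⟨e, -⟩ <;> simp [← e]
  have hε : ε ∈ [(0 : ℤ), 1, -1] := by
    rcases par.2 with ⟨e, -⟩ | ⟨e | e, -⟩ <;> simp [e]
  have n2 : 2 ≤ n := by
    rcases par.2 with ⟨-, e, -⟩ | ⟨-, e⟩ <;> omega
  have f := c d hd n hn ε hε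
  obtain ⟨k, k0, hk⟩ := hq
  simp only [nmFin, Bool.or_eq_true, Bool.not_eq_true', decide_eq_false_iff_not, List.any_eq_true,
    Bool.and_eq_true, decide_eq_true_eq] at f
  rcases f with (((f | ⟨x, hx, t, f⟩) | ⟨x, hx, f⟩) | f) | f
  · exact absurd par f
  · have : 0 < lv x.1 x.2 := by
      have : 0 < x.1 := by
        rcases t.2.2 with ⟨e, -⟩ | ⟨e, -⟩ <;> omega
      unfold lv
      split_ifs <;> omega
    rw [hP.ct (h1 _ _ t) q2 this] at f
    exact absurd f (by simp)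
  · refine absurd (Int.emod_eq_zero_of_dvd ?_) f
    rcases h2 x.1 (hP.pr x hx).1 (hP.pr x hx).2.2 with e | e
    · refine Dvd.dvd.mul_right ?_ _
      rw [e, hk]
      exact_mod_cast dvd_pow_self p k0.ne'
    · exact e.mul_left _
  · exfalso
    have g : ∀ r : ℕ, r.Prime → r ∣ q → r = p := fun r hr h =>
      (Nat.prime_dvd_prime_iff_eq hr hp).1 (hr.dvd_of_dvd_pow (hk ▸ h))
    clear hk
    simp only [List.mem_cons, List.not_mem_nil, or_false] at f
    rcases f with rfl | rfl | rfl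
    · have := (g 2 (by norm_num) (by norm_num)).trans (g 3 (by norm_num) (by norm_num)).symm
      omega
    · have := (g 19 (by norm_num) (by norm_num)).trans (g 3 (by norm_num) (by norm_num)).symm
      omega
    · have := (g 29 (by norm_num) (by norm_num)).trans (g 3 (by norm_num) (by norm_num)).symm
      omega
  · exact f

end Cfsg.Agent.ISO
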